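import Mathlib
import Cfsg.Agent.S3020
import Cfsg.Agent.Lib.HSubgroup.Basic
import Cfsg.Agent.Lib.ZStar.EC.Basic

/-!
# Extremely closed abelian `p`-subgroups: complements in the joins of two conjugates
-/

set_option autoImplicit false
set_option linter.unusedSectionVars false
set_option linter.style.haveILetI false

namespace Cfsg.Agent.Lib.ECP

open Cfsg Subgroup
open Cfsg.Agent.Lib.ZStar.EC (cj mem_cj conj_mem_cj card_cj cj_cj cj_one cj_eq_self_of_normalizer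
  mem_normalizer_of_cj_eq)

universe u

variable {G : Type u} [Group G] [Finite G] {p : ℕ} [hp : Fact p.Prime]

theorem core_not_dvd {X : Type*} [Group X] [Finite X] : ¬ p ∣ Nat.card (pPrimeCore p X) :=
  fun h => hp.out.one_lt.ne' (Nat.Coprime.eq_one_of_dvd
    (Cfsg.Agent.Lib.Core.Basic.pPrimeCore_coprime (p := p) (G := X)).symm h)

section prod

variable {K H : Subgroup G}

/-- The product `K H` of a subgroup `K` and a subgroup `H` normalizing it. -/
def prodSub (K H : Subgroup G) (hn : ∀ t ∈ H, ∀ k ∈ K, t * k * t⁻¹ ∈ K) : Subgroup G where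
  carrier := {x | ∃ k ∈ K, ∃ t ∈ H, x = k * t}
  mul_mem' := by
    rintro _ _ ⟨k, hk, t, ht, rfl⟩ ⟨k', hk', t', ht', rfl⟩
    exact ⟨k * (t * k' * t⁻¹), K.mul_mem hk (hn t ht k' hk'), t * t', H.mul_mem ht ht', by group⟩
  one_mem' := ⟨1, K.one_mem, 1, H.one_mem, by simp⟩
  inv_mem' := by
    rintro _ ⟨k, hk, t, ht, rfl⟩
    refine ⟨t⁻¹ * k⁻¹ * t, ?_, t⁻¹, H.inv_mem ht, by group⟩
    simpa using hn t⁻¹ (H.inv_mem ht) k⁻¹ (K.inv_mem hk)

theorem exists_mul_of_mem_sup (hn : ∀ t ∈ H, ∀ k ∈ K, t * k * t⁻¹ ∈ K) {x : G} (hx : x ∈ K ⊔ H) :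
    ∃ k ∈ K, ∃ t ∈ H, x = k * t := by
  have hle : K ⊔ H ≤ prodSub K H hn := by
    refine sup_le ?_ ?_
    · intro k hk
      exact ⟨k, hk, 1, H.one_mem, by simp⟩
    · intro t ht
      exact ⟨1, K.one_mem, t, ht, by simp⟩
  exact hle hx

theorem odd_orderOf_of_mem {K : Subgroup G} (hK : ¬ p ∣ Nat.card K) {k : G} (hk : k ∈ K) :
    ¬ p ∣ orderOf k :=
  fun h => hK (h.trans (Subgroup.orderOf_dvd_natCard K hk))

theorem orderOf_two_pow {H : Subgroup G} (hH : IsPGroup p H) {t : G} (ht : t ∈ H) :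
    ∃ e : ℕ, orderOf t = p ^ e := by
  obtain ⟨e, he⟩ := (IsPGroup.iff_orderOf.mp hH) ⟨t, ht⟩
  exact ⟨e, by rw [← he]; exact (Subgroup.orderOf_mk _ _).symm⟩

theorem eq_one_of_pow_of_two {H : Subgroup G} (hH : IsPGroup p H) {t : G} (ht : t ∈ H) {n : ℕ}
    (hn : ¬ p ∣ n) (h1 : t ^ n = 1) : t = 1 := by
  obtain ⟨e, he⟩ := orderOf_two_pow hH ht
  have h2 : orderOf t ∣ n := orderOf_dvd_of_pow_eq_one h1
  rw [he] at h2
  rcases e with _ | e
  · rw [pow_zero] at he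
    exact orderOf_eq_one_iff.mp he
  · exfalso
    have h3 : p ∣ n := (dvd_pow_self p (Nat.succ_ne_zero e)).trans h2
    exact hn h3

theorem eq_one_of_mem_inf (hK : ¬ p ∣ Nat.card K) (hH : IsPGroup p H) {t : G} (ht : t ∈ H)
    (hk : t ∈ K) : t = 1 :=
  eq_one_of_pow_of_two hH ht (odd_orderOf_of_mem hK hk) (pow_orderOf_eq_one t)

/-- Elements of odd order of `K H` lie in `K`. -/
theorem mem_of_odd (hK : ¬ p ∣ Nat.card K) (hH : IsPGroup p H)
    (hn : ∀ t ∈ H, ∀ k ∈ K, t * k * t⁻¹ ∈ K) {z : G} (hz : z ∈ K ⊔ H) (hodd : ¬ p ∣ orderOf z) :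
    z ∈ K := by
  obtain ⟨k, hk, t, ht, rfl⟩ := exists_mul_of_mem_sup hn hz
  have hpow : ∀ m : ℕ, ∃ k' ∈ K, (k * t) ^ m = k' * t ^ m := by
    intro m
    induction m with
    | zero => exact ⟨1, K.one_mem, by simp⟩
    | succ m ih =>
      obtain ⟨k', hk', e⟩ := ih
      refine ⟨k' * (t ^ m * k * (t ^ m)⁻¹), K.mul_mem hk' (hn _ (H.pow_mem ht m) k hk), ?_⟩
      rw [pow_succ, e, pow_succ]
      group
  obtain ⟨k', hk', e⟩ := hpow (orderOf (k * t))
  rw [pow_orderOf_eq_one] at e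
  have h1 : t ^ orderOf (k * t) = k'⁻¹ := eq_inv_of_mul_eq_one_right e.symm
  have h2 : t ^ orderOf (k * t) = 1 :=
    eq_one_of_mem_inf hK hH (H.pow_mem ht _) (by rw [h1]; exact K.inv_mem hk')
  have h3 := eq_one_of_pow_of_two hH ht hodd h2
  rw [h3, mul_one]
  exact hk

/-- `H` is a Sylow subgroup of `K H`: every `p`-subgroup of `K H` lies in a `K`-conjugate of `H`. -/
theorem exists_conj_le (hK : ¬ p ∣ Nat.card K) (hH : IsPGroup p H)
    (hn : ∀ t ∈ H, ∀ k ∈ K, t * k * t⁻¹ ∈ K) {P : Subgroup G} (hle : P ≤ K ⊔ H)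
    (hP : IsPGroup p P) : ∃ c ∈ K, P ≤ cj c H := by
  classical
    set X : Subgroup G := K ⊔ H with hX
  have hHX : H ≤ X := le_sup_right
  have hp' : IsPGroup p (H.subgroupOf X) := hH.comap_of_injective X.subtype X.subtype_injective
  have hmax : ∀ Q : Subgroup X, IsPGroup p Q → H.subgroupOf X ≤ Q → Q = H.subgroupOf X := by
    intro Q hQ hle2
    apply le_antisymm _ hle2
    intro x hx
    obtain ⟨k, hk, t, ht, e⟩ := exists_mul_of_mem_sup hn x.2
    have ht' : (⟨t, hHX ht⟩ : X) ∈ Q := hle2 (Subgroup.mem_subgroupOf.mpr ht)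
    have hk' : (x * (⟨t, hHX ht⟩ : X)⁻¹) ∈ Q := Q.mul_mem hx (Q.inv_mem ht')
    have hval : (((x * (⟨t, hHX ht⟩ : X)⁻¹) : X) : G) = k := by
      simp [e]
    have hk1 : k = 1 := by
      have hod : ¬ p ∣ (orderOf (x * (⟨t, hHX ht⟩ : X)⁻¹)) := by
        rw [← Subgroup.orderOf_coe, hval]
        exact odd_orderOf_of_mem hK hk
      have h1 := eq_one_of_pow_of_two hQ hk' hod (pow_orderOf_eq_one _)
      rw [← hval, h1]
      rfl
    refine Subgroup.mem_subgroupOf.mpr ?_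
    rw [e, hk1, one_mul]
    exact ht
  let S : Sylow p X :=
    { toSubgroup := H.subgroupOf X
      isPGroup' := hp'
      is_maximal' := fun {Q} hQ hle2 => hmax Q hQ hle2 }
  have hp'' : IsPGroup p (P.subgroupOf X) := hP.comap_of_injective X.subtype X.subtype_injective
  obtain ⟨S', hS'⟩ := hp''.exists_le_sylow
  obtain ⟨w, hw⟩ := MulAction.exists_smul_eq X S S'
  obtain ⟨k, hk, t, ht, ew⟩ := exists_mul_of_mem_sup hn w.2
  refine ⟨k, hk, ?_⟩
  intro x hx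
  rw [mem_cj]
  have h1 : (⟨x, hle hx⟩ : X) ∈ (S' : Subgroup X) := hS' (Subgroup.mem_subgroupOf.mpr hx)
  rw [← hw, Sylow.coe_subgroup_smul, Subgroup.mem_pointwise_smul_iff_inv_smul_mem] at h1
  have h2 : w⁻¹ * (⟨x, hle hx⟩ : X) * w ∈ H.subgroupOf X := by
    simpa [MulAut.smul_def, MulAut.conj_apply, mul_assoc] using h1
  have h3 : ((w : G)⁻¹ * x * w) ∈ H := Subgroup.mem_subgroupOf.mp h2
  rw [ew] at h3
  have h4 := H.mul_mem (H.mul_mem ht h3) (H.inv_mem ht)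
  have e4 : t * ((k * t)⁻¹ * x * (k * t)) * t⁻¹ = k⁻¹ * x * k := by group
  rwa [e4] at h4

theorem conj_of_le (hK : ¬ p ∣ Nat.card K) (hH : IsPGroup p H)
    (hn : ∀ t ∈ H, ∀ k ∈ K, t * k * t⁻¹ ∈ K) {H' : Subgroup G} (hle : H' ≤ K ⊔ H)
    (hcard : Nat.card H' = Nat.card H) : ∃ c ∈ K, H' = cj c H := by
  have hH' : IsPGroup p H' := by
    obtain ⟨n, hn'⟩ := hH.exists_card_eq
    exact IsPGroup.of_card (n := n) (by rw [hcard, hn'])
  obtain ⟨c, hc, hle2⟩ := exists_conj_le hK hH hn hle hH'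
  exact ⟨c, hc, Subgroup.eq_of_le_of_card_ge hle2 (by rw [card_cj, hcard])⟩

end prod

section complement

variable {H : Subgroup G}

/-- The data of a complement in a join `H ⊔ g H g⁻¹`. -/
structure IsComp (p : ℕ) (H : Subgroup G) (g : G) (K : Subgroup G) : Prop where
  odd : ¬ p ∣ Nat.card K
  norm : ∀ t ∈ H, ∀ k ∈ K, t * k * t⁻¹ ∈ K
  sup : K ⊔ H = H ⊔ cj g H
  triv : ∀ n ∈ K, n ∈ normalizer (H : Set G) → n = 1

theorem exists_isComp (hH : IsPGroup p H) (hab : IsMulCommutative H)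
    (hcl : IsExtremelyClosed H) (g : G) : ∃ K, IsComp p H g K := by
  classical
    set T : Subgroup G := H ⊔ cj g H with hT
  obtain ⟨h1, h2⟩ := Cfsg.Agent.S3020.result (p := p) H hH hab hcl g T rfl
  set K : Subgroup G := (pPrimeCore p T).map T.subtype with hK
  have hHT : H ≤ T := le_sup_left
  have hcardK : Nat.card K = Nat.card (pPrimeCore p T) :=
    Nat.card_congr (Subgroup.equivMapOfInjective _ _ T.subtype_injective).symm.toEquiv
  have hodd : ¬ p ∣ Nat.card K := by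
    rw [hcardK]
    exact core_not_dvd
  have hnorm : ∀ t ∈ T, ∀ k ∈ K, t * k * t⁻¹ ∈ K := by
    rintro t ht _ ⟨k, hk, rfl⟩
    exact ⟨⟨t, ht⟩ * k * ⟨t, ht⟩⁻¹, (Cfsg.pPrimeCore_normal p T).conj_mem k hk ⟨t, ht⟩, rfl⟩
  refine ⟨K, hodd, fun t ht k hk => hnorm t (hHT ht) k hk, ?_, ?_⟩
  · rw [sup_comm]
    exact h1
  · intro n hnK hnN
    have h3 : n ∈ T := by
      obtain ⟨k, _, rfl⟩ := hnK
      exact k.2
    have h4 : n ∈ H := by
      have := hcl g
      rw [show (H ⊔ H.map (MulAut.conj g).toMonoidHom) = T from rfl] at this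
      rw [← this]
      exact ⟨h3, hnN⟩
    exact eq_one_of_mem_inf hodd hH h4 hnK

variable {g : G} {K : Subgroup G}

theorem IsComp.exists_conj (hH : IsPGroup p H) (hc : IsComp p H g K) :
    ∃ c ∈ K, cj g H = cj c H := by
  refine conj_of_le hc.odd hH hc.norm ?_ (card_cj g H)
  rw [hc.sup]
  exact le_sup_right

end complement



end Cfsg.Agent.Lib.ECP
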