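import Mathlib
import Cfsg.Agent.Lib.Glauberman.CyclicMain
import Cfsg.Agent.Lib.Glauberman.PGroup
import Cfsg.Agent.Lib.CharDeep.Det

/-!
# Extremely closed subgroups: canonical extensions to `K ⟨x⟩`, in an ambient group
-/

set_option autoImplicit false
set_option linter.unusedSectionVars false
set_option linter.style.haveILetI false

namespace Cfsg.Agent.Lib.ECP

open Cfsg Subgroup
open Cfsg.Agent.Lib.Char.Basic Cfsg.Agent.Lib.Char.Ortho Cfsg.Agent.Lib.Char.Complete
open Cfsg.Agent.Lib.Char.Conj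
open Cfsg.Agent.Lib.Glauberman.ConjAct Cfsg.Agent.Lib.Glauberman.Coset
open Cfsg.Agent.Lib.Glauberman.Canonical Cfsg.Agent.Lib.Glauberman.CyclicMain
open Cfsg.Agent.Lib.Glauberman.PGroup

universe u

section Det

variable {X : Type u} [Group X] [Finite X]

/-- The determinantal character of a twist by an automorphism. -/
theorem detChar_comp_mulEquiv (e : X ≃* X) {χ : X → ℂ} (hχ : IsCharacter X χ) (g : X) :
    detChar (χ ∘ e) g = detChar χ (e g) := by
  obtain ⟨n, ρ, rfl⟩ := hχ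
  let ρ' : Representation ℂ X (Fin n → ℂ) := ρ.comp (e : X →* X)
  have h1 : ρ.character ∘ e = ρ'.character := rfl
  rw [h1, Cfsg.Agent.Lib.CharDeep.Det.detChar_character, Cfsg.Agent.Lib.CharDeep.Det.detChar_character]
  rfl

/-- The determinantal order of a twist by an automorphism. -/
theorem detOrder_comp_mulEquiv (e : X ≃* X) {χ : X → ℂ} (hχ : IsCharacter X χ) :
    detOrder (χ ∘ e) = detOrder χ := by
  unfold detOrder
  have h1 : detChar (χ ∘ e) = detChar χ ∘ e := by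
    funext g
    exact detChar_comp_mulEquiv e hχ g
  rw [h1]
  let F : (X → ℂ) →* (X → ℂ) :=
    { toFun := fun f => f ∘ e
      map_one' := rfl
      map_mul' := fun _ _ => rfl }
  have hF : Function.Injective F := by
    intro a b h
    funext g
    have := congrFun h (e.symm g)
    simpa [F] using this
  exact orderOf_injective F hF _

end Det

section Unique

variable {Γ : Type u} [Group Γ] [Fintype Γ] {G S : Subgroup Γ} [Fintype G]

/-- Uniqueness of the canonical extension. -/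
theorem canon_unique (hn : G.Normal) (hcop : (Nat.card G).Coprime (Nat.card S))
    (htop : G ⊔ S = ⊤) (χ : IrrCharacter G)
    (hinv : ∀ s ∈ S, ∀ g g' : G, (g' : Γ) = s * g * s⁻¹ → (χ : G → ℂ) g' = (χ : G → ℂ) g)
    {χ₁ χ₂ : Γ → ℂ} (h₁ : IsIrrCharacter Γ χ₁) (h₂ : IsIrrCharacter Γ χ₂)
    (e₁ : ∀ g : G, χ₁ g = (χ : G → ℂ) g) (e₂ : ∀ g : G, χ₂ g = (χ : G → ℂ) g)
    (d₁ : (detOrder χ₁).Coprime (Nat.card S)) (d₂ : (detOrder χ₂).Coprime (Nat.card S)) :
    χ₁ = χ₂ := by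
  classical
  have hidx := index_eq hn hcop htop
  have hcf : IsClassFunction G (χ : G → ℂ) := isClassFunction_of_isIrrCharacter χ.2
  obtain ⟨d, hd⟩ := exists_deg_of_isCharacter (isCharacter_of_isIrrCharacter χ.2)
  have hdvd : d ∣ Nat.card G := by
    obtain ⟨n, ρ, hρ, hχ⟩ := χ.2
    haveI : ρ.IsIrreducible := hρ
    have h1 := Cfsg.Agent.Lib.Char.Central.finrank_dvd_card (ρ := ρ)
    have h2 : ((Module.finrank ℂ (Fin n → ℂ) : ℕ) : ℂ) = (d : ℂ) := by
      rw [← hd, ← hχ]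
      simp [Representation.character]
    have h3 : Module.finrank ℂ (Fin n → ℂ) = d := by exact_mod_cast h2
    rwa [h3] at h1
  have hcopχ : Nat.Coprime G.index (detOrder (χ : G → ℂ) * d) := by
    rw [hidx]
    exact Nat.Coprime.mul_right
      (hcop.symm.coprime_dvd_right (detOrder_dvd_card (isCharacter_of_isIrrCharacter χ.2)))
      (hcop.symm.coprime_dvd_right hdvd)
  haveI := hn
  obtain ⟨χ₀, -, huniq⟩ := Cfsg.Agent.S0867.result G (χ : G → ℂ) χ.2
    (fun x n => inv_of_sup hn htop hcf hinv x n) d hd hcopχ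
  rw [huniq χ₁ h₁ e₁ (by rw [hidx]; exact d₁.symm), huniq χ₂ h₂ e₂ (by rw [hidx]; exact d₂.symm)]

end Unique

section Avg

variable {T : Type u} [Group T] [Fintype T]

/-- **The averaging formula** for an irreducible character irreducible on a subgroup. -/
theorem sum_conj_of_res_irr (L : Subgroup T) [Fintype L] (χ : IrrCharacter T)
    (hres : IsIrrCharacter L (fun l : L => (χ : T → ℂ) l)) (u v : T) :
    (∑ l : L, (χ : T → ℂ) (u * ((l : T) * v * (l : T)⁻¹))) * (χ : T → ℂ) 1 =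
      (Nat.card L : ℂ) * (χ : T → ℂ) u * (χ : T → ℂ) v := by
  classical
  obtain ⟨n, ρ, hρ, hχ⟩ := χ.2
  have hχ' : ∀ g, (χ : T → ℂ) g = LinearMap.trace ℂ _ (ρ g) := fun g => by rw [← hχ]; rfl
  have hirr : (resRep L ρ).IsIrreducible := by
    apply isIrreducible_of_isIrr
    have h1 : (resRep L ρ).character = (fun l : L => (χ : T → ℂ) l) := by
      funext l
      rw [hχ']
      rfl
    rw [h1]
    exact hres
  obtain ⟨c, hc⟩ := schur_scalar (resRep L ρ) hirr
    (∑ l : L, ρ ((l : T) * v * (l : T)⁻¹)) (fun g => by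
      apply LinearMap.ext
      intro w
      simp only [LinearMap.comp_apply, LinearMap.sum_apply, map_sum]
      refine (Fintype.sum_equiv (Equiv.mulLeft g⁻¹) _ _ fun l => ?_)
      simp only [Equiv.coe_mulLeft]
      show ρ _ (ρ _ w) = ρ _ (ρ _ w)
      rw [← Module.End.mul_apply, ← map_mul, ← Module.End.mul_apply, ← map_mul]
      congr 2
      simp only [Subgroup.coe_mul, Subgroup.coe_inv, Subgroup.subtype_apply]
      group)
  have hone : (χ : T → ℂ) 1 = (Module.finrank ℂ (Fin n → ℂ) : ℂ) := by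
    rw [hχ', map_one]
    simp
  have h1 : (∑ l : L, ρ (u * ((l : T) * v * (l : T)⁻¹))) = ρ u * (c • LinearMap.id) := by
    rw [← hc, Finset.mul_sum]
    exact Finset.sum_congr rfl fun l _ => map_mul _ _ _
  have h2 : ∑ l : L, (χ : T → ℂ) (u * ((l : T) * v * (l : T)⁻¹)) = c * (χ : T → ℂ) u := by
    simp only [hχ']
    rw [← map_sum, h1]
    have : ρ u * (c • LinearMap.id) = c • ρ u := by
      ext w
      simp
    rw [this, map_smul, smul_eq_mul]
  have h3 : c * (χ : T → ℂ) 1 = (Nat.card L : ℂ) * (χ : T → ℂ) v := by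
    have h4 := congrArg (LinearMap.trace ℂ (Fin n → ℂ)) hc
    rw [map_sum, map_smul, LinearMap.trace_id, smul_eq_mul] at h4
    have h5 : ∀ l : L, LinearMap.trace ℂ (Fin n → ℂ) (ρ ((l : T) * v * (l : T)⁻¹)) =
        (χ : T → ℂ) v := by
      intro l
      rw [← hχ']
      rw [← isClassFunction_of_isIrrCharacter χ.2 v (l : T)]
    rw [Finset.sum_congr rfl (fun l _ => h5 l), Finset.sum_const, Finset.card_univ, nsmul_eq_mul,
      ← Nat.card_eq_fintype_card] at h4
    rw [hone, ← h4]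
  rw [h2]
  linear_combination ((χ : T → ℂ) u) * h3

end Avg

section Coset

variable {Γ : Type u} [Group Γ] [Finite Γ]

/-- Every element of a coset `Y y`, for a coprime `y`, is `Y`-conjugate to `c y` with `c` fixed. -/
theorem exists_conj_coset (Y : Subgroup Γ) {y : Γ} (hy : ∀ l ∈ Y, y * l * y⁻¹ ∈ Y) {N : ℕ}
    (hN : N ≠ 0) (hpow : y ^ N = 1) (hcop : N.Coprime (Nat.card Y)) {l : Γ} (hl : l ∈ Y) :
    ∃ t ∈ Y, ∃ c ∈ Y, c * y = y * c ∧ t⁻¹ * (l * y) * t = c * y := by
  classical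
  letI : Fintype Y := Fintype.ofFinite _
  have hnorm : ∀ s ∈ zpowers y, ∀ g ∈ Y, s * g * s⁻¹ ∈ Y := by
    intro s hs g hg
    obtain ⟨k, rfl⟩ := mem_powers_iff_mem_zpowers.mpr hs
    induction k with
    | zero => simpa using hg
    | succ k ih =>
      have h1 := hy _ (ih (Subgroup.npow_mem_zpowers y k))
      have e : y ^ (k + 1) * g * (y ^ (k + 1))⁻¹ = y * (y ^ k * g * (y ^ k)⁻¹) * y⁻¹ := by
        rw [pow_succ']
        group
      rw [e]
      exact h1
  let y' : zpowers y := ⟨y, mem_zpowers y⟩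
  let σ : MulAut Y := conjHom Y (zpowers y) hnorm y'
  let C : Subgroup Y := fixSub σ
  letI : Fintype C := Fintype.ofFinite _
  have hσN : σ ^ N = 1 := by
    have h1 : y' ^ N = 1 := Subtype.ext hpow
    show (conjHom Y (zpowers y) hnorm y') ^ N = 1
    rw [← map_pow, h1, map_one]
  have hS : Setup σ N C := ⟨hN, hσN, hcop, fun g => Iff.rfl⟩
  obtain ⟨t, c, e⟩ := hS.exists_twist ⟨l, hl⟩
  have hc : y * ((c : Y) : Γ) * y⁻¹ = ((c : Y) : Γ) := congrArg Subtype.val (mem_fixSub.mp c.2)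
  have hcy : ((c : Y) : Γ) * y = y * ((c : Y) : Γ) := by
    calc ((c : Y) : Γ) * y = (y * ((c : Y) : Γ) * y⁻¹) * y := by rw [hc]
      _ = y * ((c : Y) : Γ) := by group
  have e' : (t : Γ) * ((c : Y) : Γ) * (y * (t : Γ) * y⁻¹)⁻¹ = l := congrArg Subtype.val e
  refine ⟨t, t.2, (c : Y), (c : Y).2, hcy, ?_⟩
  rw [← e']
  group

end Coset

section Data

variable {Γ : Type u} [Group Γ] [Finite Γ] {K H : Subgroup Γ} {x : Γ}

/-- The subgroup `K ⟨x⟩`. -/
abbrev TT (K : Subgroup Γ) (x : Γ) : Subgroup Γ := K ⊔ zpowers x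

/-- The fixed points of `x` in `K`. -/
abbrev KK (K : Subgroup Γ) (x : Γ) : Subgroup Γ := K ⊓ centralizer ({x} : Set Γ)

theorem le_TT : K ≤ TT K x := le_sup_left

theorem x_mem_TT : x ∈ TT K x := (le_sup_right : zpowers x ≤ TT K x) (mem_zpowers x)

theorem mul_pow_mem_TT {c : Γ} (hc : c ∈ K) (m : ℕ) : c * x ^ m ∈ TT K x :=
  (TT K x).mul_mem (le_TT hc) ((TT K x).pow_mem x_mem_TT m)

theorem comm_of_mem_KK {c : Γ} (hc : c ∈ KK K x) : c * x = x * c :=
  (Subgroup.mem_centralizer_singleton_iff.mp (Subgroup.mem_inf.mp hc).2)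

theorem mem_KK {c : Γ} : c ∈ KK K x ↔ c ∈ K ∧ c * x = x * c := by
  rw [Subgroup.mem_inf, Subgroup.mem_centralizer_singleton_iff]

/-- Conjugates of `x`-powers. -/
theorem zpowers_conj_mem (hHK : ∀ h ∈ H, ∀ k ∈ K, h * k * h⁻¹ ∈ K) (hx : x ∈ H) :
    ∀ s ∈ zpowers x, ∀ k ∈ K, s * k * s⁻¹ ∈ K := fun s hs k hk =>
  hHK s ((Subgroup.zpowers_le.mpr hx) hs) k hk

/-- **The canonical data.** -/
theorem canon_data (hHK : ∀ h ∈ H, ∀ k ∈ K, h * k * h⁻¹ ∈ K) (hab : ∀ a ∈ H, ∀ b ∈ H, a * b = b * a)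
    (hx : x ∈ H) (hcop : (Nat.card K).Coprime (orderOf x)) (θ : IrrCharacter K)
    (hinv : ∀ h ∈ H, ∀ k k' : K, (k' : Γ) = h * k * h⁻¹ → (θ : K → ℂ) k' = (θ : K → ℂ) k) :
    ∃ (χ : IrrCharacter (TT K x)) (β : IrrCharacter (KK K x)) (ε : ℤ), (ε = 1 ∨ ε = -1) ∧
      (∀ k : K, (χ : TT K x → ℂ) ⟨k, le_TT k.2⟩ = (θ : K → ℂ) k) ∧
      (∀ (c : KK K x) (m : ℕ), m.Coprime (orderOf x) →
        (χ : TT K x → ℂ) ⟨c * x ^ m, mul_pow_mem_TT (Subgroup.mem_inf.mp c.2).1 m⟩ =
          (ε : ℂ) * (β : KK K x → ℂ) c) ∧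
      (∀ h ∈ H, ∀ c c' : KK K x, (c' : Γ) = h * c * h⁻¹ →
        (β : KK K x → ℂ) c' = (β : KK K x → ℂ) c) := by
  classical
  set T := TT K x with hT
  letI : Fintype T := Fintype.ofFinite _
  set G' : Subgroup T := K.subgroupOf T with hG'
  set t' : T := ⟨x, x_mem_TT⟩ with ht'
  set S' : Subgroup T := zpowers t' with hS'
  letI : Fintype G' := Fintype.ofFinite _
  have hmemS : ∀ s ∈ S', (s : Γ) ∈ zpowers x := by
    intro s hs
    obtain ⟨i, rfl⟩ := Subgroup.mem_zpowers_iff.mp hs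
    exact ⟨i, by simp [ht']⟩
  have hmemH : ∀ s ∈ S', (s : Γ) ∈ H := fun s hs =>
    (Subgroup.zpowers_le.mpr hx) (hmemS s hs)
  have hnorm : ∀ s ∈ S', ∀ g ∈ G', s * g * s⁻¹ ∈ G' := by
    intro s hs g hg
    rw [Subgroup.mem_subgroupOf] at hg ⊢
    exact hHK _ (hmemH s hs) _ hg
  have hS'card : Nat.card S' = orderOf x := by
    rw [hS', Nat.card_zpowers, ht', Subgroup.orderOf_mk]
  have hG'card : Nat.card G' = Nat.card K :=
    Nat.card_congr (Subgroup.subgroupOfEquivOfLe (le_TT : K ≤ T)).toEquiv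
  have hcop' : (Nat.card G').Coprime (Nat.card S') := by
    rw [hS'card, hG'card]
    exact hcop
  have htop : G' ⊔ S' = ⊤ := by
    rw [eq_top_iff]
    rintro ⟨g, hg⟩ -
    have hle : T ≤ (G' ⊔ S').map T.subtype := by
      refine sup_le ?_ ?_
      · intro k hk
        exact ⟨⟨k, le_TT hk⟩, Subgroup.mem_sup_left (by rwa [Subgroup.mem_subgroupOf]), rfl⟩
      · rw [Subgroup.zpowers_le]
        exact ⟨t', Subgroup.mem_sup_right (mem_zpowers t'), rfl⟩
    obtain ⟨y, hy, e⟩ := hle hg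
    have : y = ⟨g, hg⟩ := Subtype.ext e
    rwa [← this]
  have hn := normal_of_sup hnorm htop
  -- the transfer to `G'`
  let eK : K ≃* G' := (Subgroup.subgroupOfEquivOfLe (le_TT : K ≤ T)).symm
  have heK : ∀ k : K, (((eK k : G') : T) : Γ) = k := fun k => rfl
  have heKs : ∀ g : G', ((eK.symm g : K) : Γ) = ((g : T) : Γ) := fun g => rfl
  let θ' : IrrCharacter G' := ⟨(θ : K → ℂ) ∘ eK.symm, isIrrCharacter_comp_mulEquiv eK.symm θ.2⟩
  have hinvS : ∀ s ∈ S', ∀ g g' : G', (g' : T) = s * g * s⁻¹ →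
      (θ' : G' → ℂ) g' = (θ' : G' → ℂ) g := by
    intro s hs g g' e
    apply hinv (s : Γ) (hmemH s hs)
    rw [heKs, heKs, e]
    rfl
  obtain ⟨χ, hχext, hχdet⟩ := exists_canon hnorm hcop' htop θ' hinvS
  set C' : Subgroup T := G' ⊓ centralizer (S' : Set T) with hC'
  letI : Fintype C' := Fintype.ofFinite _
  obtain ⟨β', ε, hε, hval, -⟩ := canon_value' (C := C') hnorm hcop' htop rfl inf_le_left
    (t := t') rfl θ' hinvS χ hχext hχdet
  -- the transfer from `C'`
  have hforth : ∀ c : KK K x, (⟨c, le_TT (Subgroup.mem_inf.mp c.2).1⟩ : T) ∈ C' := by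
    intro c
    refine Subgroup.mem_inf.mpr ⟨?_, ?_⟩
    · rw [Subgroup.mem_subgroupOf]
      exact (Subgroup.mem_inf.mp c.2).1
    · rw [Subgroup.mem_centralizer_iff]
      intro s hs
      have hs' : s ∈ S' := hs
      apply Subtype.ext
      have h1 := hmemS s hs'
      have h2 : (c : Γ) ∈ centralizer (zpowers x : Set Γ) := by
        rw [Subgroup.mem_centralizer_iff]
        intro y hy
        obtain ⟨i, rfl⟩ := Subgroup.mem_zpowers_iff.mp hy
        have h3 : Commute (c : Γ) x := comm_of_mem_KK c.2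
        exact (h3.zpow_right i).symm.eq
      exact Subgroup.mem_centralizer_iff.mp h2 _ h1
  have hback : ∀ c : C', ((c : T) : Γ) ∈ KK K x := by
    intro c
    have h1 := Subgroup.mem_inf.mp c.2
    refine mem_KK.mpr ⟨Subgroup.mem_subgroupOf.mp h1.1, ?_⟩
    have h2 := Subgroup.mem_centralizer_iff.mp h1.2 t' (mem_zpowers t')
    have h3 := congrArg Subtype.val h2
    exact h3.symm
  let eC : KK K x ≃* C' :=
    { toFun := fun c => ⟨⟨c, le_TT (Subgroup.mem_inf.mp c.2).1⟩, hforth c⟩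
      invFun := fun c => ⟨((c : T) : Γ), hback c⟩
      left_inv := fun c => rfl
      right_inv := fun c => rfl
      map_mul' := fun a b => rfl }
  have hvalC : ∀ (c : KK K x) (m : ℕ), m.Coprime (orderOf x) →
      (χ : T → ℂ) ⟨c * x ^ m, mul_pow_mem_TT (Subgroup.mem_inf.mp c.2).1 m⟩ =
        (ε : ℂ) * (β' : C' → ℂ) (eC c) := by
    intro c m hm
    have h1 := hval (eC c) m (by rw [hS'card]; exact hm)
    rw [← h1]
    congr 1
  -- invariance of `χ`
  have hnormT : ∀ h ∈ H, ∀ g ∈ T, h * g * h⁻¹ ∈ T := by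
    intro h hh g hg
    have hle : T ≤ T.comap (MulAut.conj h).toMonoidHom := by
      refine sup_le ?_ ?_
      · intro k hk
        exact le_TT (hHK h hh k hk)
      · rw [Subgroup.zpowers_le]
        show h * x * h⁻¹ ∈ T
        rw [hab h hh x hx]
        simpa using x_mem_TT
    exact hle hg
  let φ : H →* MulAut T := conjHom T H hnormT
  have hφ : ∀ (h : H) (g : T), ((φ h g : T) : Γ) = h * g * (h : Γ)⁻¹ := fun h g => rfl
  have hχinv : ∀ h ∈ H, ∀ g g' : T, (g' : Γ) = h * g * h⁻¹ →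
      (χ : T → ℂ) g' = (χ : T → ℂ) g := by
    intro h hh g g' e
    let e' : T ≃* T := φ ⟨h, hh⟩
    have heq : (χ : T → ℂ) ∘ e' = (χ : T → ℂ) := by
      apply canon_unique hn hcop' htop θ' hinvS (isIrrCharacter_comp_mulEquiv e' χ.2) χ.2
      · intro y
        show (χ : T → ℂ) (e' y) = _
        have hmem : ((e' y : T)) ∈ G' := by
          rw [Subgroup.mem_subgroupOf]
          exact hHK h hh _ (Subgroup.mem_subgroupOf.mp y.2)
        have h1 := hχext ⟨e' y, hmem⟩
        rw [h1]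
        apply hinv h hh
        rw [heKs, heKs]
        rfl
      · exact hχext
      · rw [detOrder_comp_mulEquiv e' (isCharacter_of_isIrrCharacter χ.2)]
        exact hχdet
      · exact hχdet
    have h1 := congrFun heq g
    have h2 : e' g = g' := Subtype.ext e.symm
    rw [← h1]
    show _ = (χ : T → ℂ) (e' g)
    rw [h2]
  -- the character `β`
  let β : IrrCharacter (KK K x) :=
    ⟨(β' : C' → ℂ) ∘ eC, isIrrCharacter_comp_mulEquiv eC β'.2⟩
  have hεne : (ε : ℂ) ≠ 0 := by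
    rcases hε with h | h <;> rw [h] <;> simp
  refine ⟨χ, β, ε, hε, ?_, ?_, ?_⟩
  · intro k
    have h1 := hχext (eK k)
    have h2 : (θ' : G' → ℂ) (eK k) = (θ : K → ℂ) k := by
      show (θ : K → ℂ) (eK.symm (eK k)) = _
      rw [MulEquiv.symm_apply_apply]
    rw [← h2, ← h1]
    rfl
  · exact hvalC
  · intro h hh c c' e
    have h1 := hvalC c 1 (Nat.coprime_one_left _)
    have h2 := hvalC c' 1 (Nat.coprime_one_left _)
    have h3 : (χ : T → ℂ) ⟨c' * x ^ 1, mul_pow_mem_TT (Subgroup.mem_inf.mp c'.2).1 1⟩ =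
        (χ : T → ℂ) ⟨c * x ^ 1, mul_pow_mem_TT (Subgroup.mem_inf.mp c.2).1 1⟩ := by
      apply hχinv h hh
      show (c' : Γ) * x ^ 1 = h * ((c : Γ) * x ^ 1) * h⁻¹
      rw [e, pow_one]
      have e2 : h * x = x * h := hab h hh x hx
      have e3 : h * x * h⁻¹ = x := by
        rw [e2]
        group
      calc h * (c : Γ) * h⁻¹ * x = h * (c : Γ) * h⁻¹ * (h * x * h⁻¹) := by rw [e3]
        _ = h * ((c : Γ) * x) * h⁻¹ := by group
    rw [h1, h2] at h3
    exact mul_left_cancel₀ hεne h3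

end Data

end Cfsg.Agent.Lib.ECP
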