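import Mathlib
import Cfsg.Agent.Lib.ECP.Sum

/-!
# Extremely closed abelian `2`-subgroups: the real form of the identities
-/

set_option autoImplicit false
set_option linter.unusedSectionVars false
set_option linter.style.haveILetI false

namespace Cfsg.Agent.Lib.ECP

open Cfsg Subgroup
open Cfsg.Agent.Lib.ZStar.EC (cj mem_cj conj_mem_cj card_cj cj_cj cj_one cj_eq_self_of_normalizer
  mem_normalizer_of_cj_eq exists_sum_eq three_mul_le)
open Cfsg.Agent.Lib.Blocks.Central Cfsg.Agent.Lib.Blocks.Weak Cfsg.Agent.Lib.Blocks.Third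
open Cfsg.Agent.Lib.Blocks.General
open Cfsg.Agent.Lib.ZStar.Section
open scoped ComplexConjugate

universe u

/-! ### The numerical lemmas -/

theorem tau_lt_of_large {q t : ℝ} (hq : 8 ≤ q) (h1 : t ≤ 2 * q / 3)
    (h2 : |(t - 1) * (t - q + 1)| ≤ q - 1) : t < (q - 1) / 2 := by
  by_contra hlt
  push Not at hlt
  set σ := t - 1 with hσ
  have h3 : (q - 3) / 2 ≤ σ := by rw [hσ]; linarith
  have h4 : σ ≤ 2 * q / 3 - 1 := by rw [hσ]; linarith
  have h5 : -((t - 1) * (t - q + 1)) ≤ q - 1 := (neg_le_abs _).trans h2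
  have h6 : -((t - 1) * (t - q + 1)) = σ * (q - 2 - σ) := by rw [hσ]; ring
  rw [h6] at h5
  have h7 : 0 ≤ (σ - (q - 3) / 2) * (2 * q / 3 - 1 - σ) :=
    mul_nonneg (by linarith) (by linarith)
  have h8 : 0 ≤ (2 * q / 3 - 1 - σ) * (q / 6 - 1 / 2) :=
    mul_nonneg (by linarith) (by linarith)
  have h9 : σ * (q - 2 - σ) = (σ - (q - 3) / 2) * (2 * q / 3 - 1 - σ) +
      (2 * q / 3 - 1 - σ) * (q / 6 - 1 / 2) + (2 * q / 3 - 1) * (q / 3 - 1) := by ring
  have h10 : q - 1 < (2 * q / 3 - 1) * (q / 3 - 1) := by nlinarith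
  linarith

theorem lt_of_sums {ι : Type*} {B : Finset ι} {g t : ι → ℝ} {q L : ℝ} (hq : 8 ≤ q)
    (h1 : ∑ i ∈ B, g i ^ 2 * (q - 1 - t i) = (q - 1) ^ 2)
    (h2 : ∑ i ∈ B, g i ^ 2 = (q - 1) * (L - q + 1))
    (h3 : ∀ i ∈ B, t i < (q - 1) / 2) : L < q + 1 := by
  by_contra hlt
  push Not at hlt
  have hq1 : 0 < q - 1 := by linarith
  have h4 : 2 * (q - 1) ≤ ∑ i ∈ B, g i ^ 2 := by
    rw [h2]
    nlinarith
  have h5 : 0 < ∑ i ∈ B, g i ^ 2 := by linarith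
  obtain ⟨i, hi, hgi⟩ : ∃ i ∈ B, g i ≠ 0 := by
    by_contra hall
    push Not at hall
    have : ∑ i ∈ B, g i ^ 2 = 0 := Finset.sum_eq_zero fun i hi => by rw [hall i hi]; ring
    linarith
  have h6 : ∑ i ∈ B, g i ^ 2 * ((q - 1) / 2) < ∑ i ∈ B, g i ^ 2 * (q - 1 - t i) := by
    apply Finset.sum_lt_sum
    · intro j hj
      have := h3 j hj
      exact mul_le_mul_of_nonneg_left (by linarith) (sq_nonneg _)
    · refine ⟨i, hi, mul_lt_mul_of_pos_left ?_ (by positivity)⟩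
      have := h3 i hi
      linarith
  rw [← Finset.sum_mul, h1] at h6
  nlinarith

variable {G : Type u} [Group G] [Fintype G] [Fintype (IrrCharacter G)]
variable {H : Subgroup G} [Fintype H]

section real

variable {M : Ideal AlgInt} {m d : IrrCharacter G → ℕ} {Lr : ℝ} {p : ℕ} [hp : Fact p.Prime]

/-- The real number `g`. -/
noncomputable def gg (H : Subgroup G) (m d : IrrCharacter G → ℕ) (χ : IrrCharacter G) : ℝ :=
  (Nat.card H : ℝ) * m χ - d χ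

/-- The real number `τ`. -/
noncomputable def tt (H : Subgroup G) (m d : IrrCharacter G → ℕ) (χ : IrrCharacter G) : ℝ :=
  (Nat.card H : ℝ) * m χ / d χ

theorem tH_sub_one_eq (hm : ∀ χ, tH H χ = (Nat.card H : ℂ) * m χ)
    (hd : ∀ χ : IrrCharacter G, (χ : G → ℂ) 1 = d χ) (χ : IrrCharacter G) :
    tH H χ - (χ : G → ℂ) 1 = ((gg H m d χ : ℝ) : ℂ) := by
  rw [hm, hd]
  simp [gg]

theorem tH_div_one_eq (hm : ∀ χ, tH H χ = (Nat.card H : ℂ) * m χ)
    (hd : ∀ χ : IrrCharacter G, (χ : G → ℂ) 1 = d χ) (χ : IrrCharacter G) :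
    tH H χ / (χ : G → ℂ) 1 = ((tt H m d χ : ℝ) : ℂ) := by
  rw [hm, hd]
  simp [tt]

theorem real_sum_sq (hM : IsPModular p M) (hH : IsPGroup p H)
    (hm : ∀ χ, tH H χ = (Nat.card H : ℂ) * m χ)
    (hd : ∀ χ : IrrCharacter G, (χ : G → ℂ) 1 = d χ)
    (hL : ∀ h ∈ H, h ≠ 1 → Lv M H h = (Lr : ℂ)) :
    ∑ χ ∈ BB M G, gg H m d χ ^ 2 = ((Nat.card H : ℝ) - 1) * Lr := by
  apply Complex.ofReal_injective
  have h := sum_sq_eq hM hH hL
  push_cast
  rw [← h]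
  refine Finset.sum_congr rfl fun χ _ => ?_
  rw [tH_sub_one_eq hm hd, Complex.conj_ofReal]
  ring

theorem real_sum_tau_sq (hM : IsPModular p M) (hH : IsPGroup p H)
    (hab : IsMulCommutative H) (hcl : IsExtremelyClosed H) (hIH : CentHyp p H)
    (hm : ∀ χ, tH H χ = (Nat.card H : ℂ) * m χ)
    (hd : ∀ χ : IrrCharacter G, (χ : G → ℂ) 1 = d χ)
    (hL : ∀ h ∈ H, h ≠ 1 → Lv M H h = (Lr : ℂ)) :
    ∑ χ ∈ BB M G, tt H m d χ * gg H m d χ ^ 2 = ((Nat.card H : ℝ) - 1) ^ 2 * Lr := by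
  apply Complex.ofReal_injective
  have h := sum_tau_sq_eq hM hH hab hcl hIH hL
  push_cast
  rw [← h]
  refine Finset.sum_congr rfl fun χ _ => ?_
  rw [tH_sub_one_eq hm hd, Complex.conj_ofReal, tH_div_one_eq hm hd]
  ring

theorem real_sum_tau_normSq (hM : IsPModular p M) (hH : IsPGroup p H)
    (hab : IsMulCommutative H) (hcl : IsExtremelyClosed H) (hIH : CentHyp p H)
    (hm : ∀ χ, tH H χ = (Nat.card H : ℂ) * m χ)
    (hd : ∀ χ : IrrCharacter G, (χ : G → ℂ) 1 = d χ)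
    (hL : ∀ h ∈ H, h ≠ 1 → Lv M H h = (Lr : ℂ)) {x : G} (hx : x ∈ H) (hx1 : x ≠ 1) :
    ∑ χ ∈ BB M G, tt H m d χ * Complex.normSq ((χ : G → ℂ) x) = Lr := by
  apply Complex.ofReal_injective
  have h := sum_tau hM hH hab hcl hIH (M := M) hx hx hx1
  rw [hL x hx hx1] at h
  rw [← h]
  push_cast
  refine Finset.sum_congr rfl fun χ _ => ?_
  rw [tH_div_one_eq hm hd, mul_assoc, Complex.mul_conj]

theorem oneI_mem_BB (hM : IsPModular p M) : oneI G ∈ BB M G := by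
  haveI := hM.2.1.isPrime
  exact mem_BB.mpr (mem_blockOf_self (oneI G))

theorem m_oneI (hm : ∀ χ, tH H χ = (Nat.card H : ℂ) * m χ) : m (oneI G) = 1 := by
  have h := hm (oneI G)
  have h1 : tH H (oneI G) = (Nat.card H : ℂ) := by
    unfold tH
    simp
  rw [h1] at h
  have hne : (Nat.card H : ℂ) ≠ 0 := Nat.cast_ne_zero.mpr Nat.card_pos.ne'
  have h2 : ((m (oneI G) : ℕ) : ℂ) = 1 := by
    apply mul_left_cancel₀ hne
    rw [← h, mul_one]
  exact_mod_cast h2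

theorem d_oneI (hd : ∀ χ : IrrCharacter G, (χ : G → ℂ) 1 = d χ) : d (oneI G) = 1 := by
  have h := hd (oneI G)
  rw [oneI_apply] at h
  exact_mod_cast h.symm

/-- The real form of the main identity, on the nonprincipal characters. -/
theorem sum_erase_tau (hM : IsPModular p M) (hH : IsPGroup p H)
    (hab : IsMulCommutative H) (hcl : IsExtremelyClosed H) (hIH : CentHyp p H)
    (hm : ∀ χ, tH H χ = (Nat.card H : ℂ) * m χ)
    (hd : ∀ χ : IrrCharacter G, (χ : G → ℂ) 1 = d χ)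
    (hL : ∀ h ∈ H, h ≠ 1 → Lv M H h = (Lr : ℂ)) :
    ∑ χ ∈ (BB M G).erase (oneI G), gg H m d χ ^ 2 * ((Nat.card H : ℝ) - 1 - tt H m d χ) =
      ((Nat.card H : ℝ) - 1) ^ 2 := by
  have h1 := real_sum_sq hM hH hm hd hL
  have h2 := real_sum_tau_sq hM hH hab hcl hIH hm hd hL
  have h3 : ∑ χ ∈ BB M G, gg H m d χ ^ 2 * ((Nat.card H : ℝ) - 1 - tt H m d χ) = 0 := by
    have : ∀ χ ∈ BB M G, gg H m d χ ^ 2 * ((Nat.card H : ℝ) - 1 - tt H m d χ) =
        ((Nat.card H : ℝ) - 1) * gg H m d χ ^ 2 - tt H m d χ * gg H m d χ ^ 2 :=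
      fun χ _ => by ring
    rw [Finset.sum_congr rfl this, Finset.sum_sub_distrib, ← Finset.mul_sum, h1, h2]
    ring
  rw [← Finset.add_sum_erase _ _ (oneI_mem_BB hM)] at h3
  have hg : gg H m d (oneI G) = (Nat.card H : ℝ) - 1 := by
    simp [gg, m_oneI hm, d_oneI hd]
  have ht : tt H m d (oneI G) = (Nat.card H : ℝ) := by
    simp [tt, m_oneI hm, d_oneI hd]
  rw [hg, ht] at h3
  linear_combination h3

theorem sum_erase_sq (hM : IsPModular p M) (hH : IsPGroup p H)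
    (hm : ∀ χ, tH H χ = (Nat.card H : ℂ) * m χ)
    (hd : ∀ χ : IrrCharacter G, (χ : G → ℂ) 1 = d χ)
    (hL : ∀ h ∈ H, h ≠ 1 → Lv M H h = (Lr : ℂ)) :
    ∑ χ ∈ (BB M G).erase (oneI G), gg H m d χ ^ 2 =
      ((Nat.card H : ℝ) - 1) * (Lr - (Nat.card H : ℝ) + 1) := by
  have h1 := real_sum_sq hM hH hm hd hL
  rw [← Finset.add_sum_erase _ _ (oneI_mem_BB hM)] at h1
  have hg : gg H m d (oneI G) = (Nat.card H : ℝ) - 1 := by
    simp [gg, m_oneI hm, d_oneI hd]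
  rw [hg] at h1
  linear_combination h1

theorem tt_nonneg (χ : IrrCharacter G) : 0 ≤ tt H m d χ := by
  unfold tt
  positivity

theorem le_Lr (hM : IsPModular p M) (hH : IsPGroup p H)
    (hab : IsMulCommutative H) (hcl : IsExtremelyClosed H) (hIH : CentHyp p H)
    (hm : ∀ χ, tH H χ = (Nat.card H : ℂ) * m χ)
    (hd : ∀ χ : IrrCharacter G, (χ : G → ℂ) 1 = d χ)
    (hL : ∀ h ∈ H, h ≠ 1 → Lv M H h = (Lr : ℂ)) {x : G} (hx : x ∈ H) (hx1 : x ≠ 1) :
    (Nat.card H : ℝ) ≤ Lr := by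
  have h1 := real_sum_tau_normSq hM hH hab hcl hIH hm hd hL hx hx1
  rw [← h1]
  have h2 := Finset.single_le_sum (f := fun χ => tt H m d χ * Complex.normSq ((χ : G → ℂ) x))
    (s := BB M G) (fun χ _ => mul_nonneg (tt_nonneg χ) (Complex.normSq_nonneg _)) (oneI_mem_BB hM)
  have ht : tt H m d (oneI G) = (Nat.card H : ℝ) := by
    simp [tt, m_oneI hm, d_oneI hd]
  simp only [ht, oneI_apply, map_one, mul_one] at h2
  exact h2

/-- The bound from three generating conjugates. -/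
theorem tt_le (hm : ∀ χ, tH H χ = (Nat.card H : ℂ) * m χ)
    (hd : ∀ χ : IrrCharacter G, (χ : G → ℂ) 1 = d χ) (hdpos : ∀ χ, 0 < d χ) {a b : G}
    (htop : H ⊔ cj a H ⊔ cj b H = ⊤) {χ : IrrCharacter G} (hχ : χ ≠ oneI G) :
    tt H m d χ ≤ 2 * (Nat.card H : ℝ) / 3 := by
  have h := three_mul_le χ hχ H htop (hm χ) (hd χ)
  have h1 : (3 : ℝ) * m χ ≤ 2 * d χ := by exact_mod_cast h
  have hd0 : (0 : ℝ) < d χ := by exact_mod_cast hdpos χ
  have hq : (0 : ℝ) ≤ Nat.card H := by positivity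
  unfold tt
  rw [div_le_div_iff₀ hd0 (by norm_num)]
  nlinarith

/-- The gap, in real form. -/
theorem gap_real (hM : IsPModular p M) (hH : IsPGroup p H)
    (hab : IsMulCommutative H) (hcl : IsExtremelyClosed H) (hIH : CentHyp p H)
    (hm : ∀ χ, tH H χ = (Nat.card H : ℂ) * m χ)
    (hd : ∀ χ : IrrCharacter G, (χ : G → ℂ) 1 = d χ) (hdpos : ∀ χ, 0 < d χ)
    {χ : IrrCharacter G} (hχ : χ ∈ BB M G) :
    |(tt H m d χ - 1) * (tt H m d χ - (Nat.card H : ℝ) + 1)| ≤ (Nat.card H : ℝ) - 1 := by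
  classical
  have hS : tH H χ - (χ : G → ℂ) 1 = ∑ a ∈ Finset.univ.erase (1 : H), (χ : G → ℂ) a := by
    rw [Finset.sum_erase_eq_sub (Finset.mem_univ _)]
    rfl
  have hcard : (((Finset.univ.erase (1 : H)).card : ℕ) : ℝ) = (Nat.card H : ℝ) - 1 := by
    rw [Finset.card_erase_of_mem (Finset.mem_univ _), Finset.card_univ,
      ← Nat.card_eq_fintype_card, Nat.cast_sub Nat.card_pos]
    simp
  have hcard' : (((Finset.univ.erase (1 : H)).card : ℕ) : ℂ) = (Nat.card H : ℂ) - 1 := by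
    rw [Finset.card_erase_of_mem (Finset.mem_univ _), Finset.card_univ,
      ← Nat.card_eq_fintype_card, Nat.cast_sub Nat.card_pos]
    simp
  have h1 : ‖∑ a ∈ Finset.univ.erase (1 : H), ((χ : G → ℂ) a * tH H χ / (χ : G → ℂ) 1 - tH H χ +
      (χ : G → ℂ) 1)‖ ≤ ((Nat.card H : ℝ) - 1) * d χ := by
    refine (_root_.norm_sum_le _ _).trans ?_
    have h2 : ∀ a ∈ Finset.univ.erase (1 : H), ‖(χ : G → ℂ) a * tH H χ / (χ : G → ℂ) 1 - tH H χ +
        (χ : G → ℂ) 1‖ ≤ (d χ : ℝ) := fun a _ =>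
      norm_value_le hM hH hab hcl hIH a.2 (mem_BB.mp hχ) (hd χ)
    have h3 := Finset.sum_le_card_nsmul _ _ _ h2
    rw [nsmul_eq_mul, hcard] at h3
    exact h3
  have hd0 : (0 : ℝ) < d χ := by exact_mod_cast hdpos χ
  have h4 : ∑ a ∈ Finset.univ.erase (1 : H), ((χ : G → ℂ) a * tH H χ / (χ : G → ℂ) 1 - tH H χ +
      (χ : G → ℂ) 1) = (((d χ : ℝ) * ((tt H m d χ - 1) * (tt H m d χ - (Nat.card H : ℝ) + 1)) : ℝ) : ℂ) := by
    have h5 : ∀ a ∈ Finset.univ.erase (1 : H), ((χ : G → ℂ) a * tH H χ / (χ : G → ℂ) 1 - tH H χ +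
        (χ : G → ℂ) 1) = (χ : G → ℂ) a * (tH H χ / (χ : G → ℂ) 1) - (tH H χ - (χ : G → ℂ) 1) :=
      fun a _ => by ring
    rw [Finset.sum_congr rfl h5, Finset.sum_sub_distrib, ← Finset.sum_mul, ← hS, Finset.sum_const,
      nsmul_eq_mul, hcard', tH_sub_one_eq hm hd, tH_div_one_eq hm hd]
    have hd1 : (d χ : ℝ) ≠ 0 := hd0.ne'
    have hg : gg H m d χ = (d χ : ℝ) * (tt H m d χ - 1) := by
      unfold gg tt
      field_simp
    rw [hg]
    push_cast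
    ring
  rw [h4, Complex.norm_real, Real.norm_eq_abs, abs_mul, abs_of_pos hd0, mul_comm] at h1
  exact le_of_mul_le_mul_right h1 hd0

end real

end Cfsg.Agent.Lib.ECP
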