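import Mathlib
import Cfsg.Agent.Lib.ECP.Real
import Cfsg.Agent.Lib.SolvStruct.Fit

/-!
# Extremely closed abelian `p`-subgroups: multiplicative relations in the principal block,
and isolated elements are central modulo the core
-/

set_option autoImplicit false
set_option linter.unusedSectionVars false
set_option linter.style.haveILetI false

namespace Cfsg.Agent.Lib.ECP

open Cfsg Subgroup
open Cfsg.Agent.Lib.ZStar.EC (cj mem_cj conj_mem_cj card_cj cj_cj cj_one cj_eq_self_of_normalizer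
  mem_normalizer_of_cj_eq)
open Cfsg.Agent.Lib.Blocks.Central Cfsg.Agent.Lib.Blocks.Weak Cfsg.Agent.Lib.Blocks.Third
open Cfsg.Agent.Lib.Blocks.General
open Cfsg.Agent.Lib.ZStar.Section
open scoped ComplexConjugate

universe u

variable {G : Type u} [Group G] [Fintype G] [Fintype (IrrCharacter G)]
variable {H : Subgroup G} [Fintype H] {p : ℕ} [hp : Fact p.Prime]

open Classical in
/-- The sum over the elements of `H` conjugate to `v` of a translated value. -/
theorem sum_orbit {M : Ideal AlgInt} (hM : IsPModular p M) (hH : IsPGroup p H)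
    (hab : IsMulCommutative H) (hIH : CentHyp p H) {g : G} {K : Subgroup G} (hc : IsComp p H g K)
    {u v : G} (hu : u ∈ H) (hne : ¬ IsConj u⁻¹ v) {c : G} (hcK : c ∈ K)
    (hcj : cj g H = cj c H) {χ : IrrCharacter G} (hχ : χ ∈ principalBlock M G) :
    ∑ a ∈ Finset.univ.filter (fun a : H => IsConj (a : G) v), (χ : G → ℂ) (u * (g * a * g⁻¹)) =
      ∑ a ∈ Finset.univ.filter (fun a : H => IsConj (a : G) v), (χ : G → ℂ) (u * a) := by
  classical
  have hcl := Cfsg.Agent.Lib.Char.Basic.isClassFunction_of_isIrrCharacter χ.2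
  have hn : c⁻¹ * g ∈ normalizer (H : Set G) := by
    apply mem_normalizer_of_cj_eq
    rw [← cj_cj, hcj, cj_cj, inv_mul_cancel, cj_one]
  set n := c⁻¹ * g with hndef
  have hg : g = c * n := by rw [hndef]; group
  have hmem : ∀ a : H, n * (a : G) * n⁻¹ ∈ H := fun a => (mem_normalizer_iff.mp hn a).mp a.2
  have hmem' : ∀ b : H, n⁻¹ * (b : G) * n ∈ H := fun b => by
    have := (mem_normalizer_iff.mp hn (n⁻¹ * (b : G) * n)).mpr
    apply this
    have e1 : n * (n⁻¹ * (b : G) * n) * n⁻¹ = b := by group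
    rw [e1]
    exact b.2
  refine Finset.sum_bij' (fun a _ => (⟨n * a * n⁻¹, hmem a⟩ : H))
    (fun b _ => (⟨n⁻¹ * b * n, hmem' b⟩ : H)) ?_ ?_ ?_ ?_ ?_
  · intro a ha
    simp only [Finset.mem_filter, Finset.mem_univ, true_and] at ha ⊢
    refine IsConj.trans ?_ ha
    rw [isConj_comm, isConj_iff]
    exact ⟨n, rfl⟩
  · intro b hb
    simp only [Finset.mem_filter, Finset.mem_univ, true_and] at hb ⊢
    refine IsConj.trans ?_ hb
    rw [isConj_comm, isConj_iff]
    exact ⟨n⁻¹, by simp⟩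
  · intro a _
    apply Subtype.ext
    show n⁻¹ * (n * (a : G) * n⁻¹) * n = a
    group
  · intro b _
    apply Subtype.ext
    show n * (n⁻¹ * (b : G) * n) * n⁻¹ = b
    group
  · intro a ha
    simp only [Finset.mem_filter, Finset.mem_univ, true_and] at ha
    set b : G := n * a * n⁻¹ with hb
    have hbH : b ∈ H := hmem a
    have hb1 : b * u ≠ 1 := by
      intro h
      apply hne
      have h2 : b = u⁻¹ := eq_inv_of_mul_eq_one_left h
      rw [← h2]
      refine IsConj.trans ?_ ha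
      rw [isConj_comm, isConj_iff]
      exact ⟨n, rfl⟩
    have hk : c * (b * c⁻¹ * b⁻¹) ∈ K := K.mul_mem hcK (hc.norm _ hbH _ (K.inv_mem hcK))
    have h4 := value_eq_of_mul hM hH hab hc hIH hk (H.mul_mem hbH hu) hb1 hχ
    have e2 : c * (b * c⁻¹ * b⁻¹) * (b * u) = c * b * c⁻¹ * u := by group
    rw [e2] at h4
    have e3 : (χ : G → ℂ) (u * (g * a * g⁻¹)) = (χ : G → ℂ) (c * b * c⁻¹ * u) := by
      rw [comm_of_class hcl]
      congr 1
      rw [hg, hb]
      group
    rw [e3, h4, comm_of_class hcl]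

open Classical in
/-- **The multiplicative relation in the principal block**. -/
theorem mult_rel {M : Ideal AlgInt} (hM : IsPModular p M) (hH : IsPGroup p H)
    (hab : IsMulCommutative H) (hcl : IsExtremelyClosed H) (hIH : CentHyp p H)
    {u v : G} (hu : u ∈ H) (hne : ¬ IsConj u⁻¹ v) {χ : IrrCharacter G}
    (hχ : χ ∈ principalBlock M G) :
    (kk H v : ℂ) * ((χ : G → ℂ) u * (χ : G → ℂ) v / (χ : G → ℂ) 1) =
      ∑ a ∈ Finset.univ.filter (fun a : H => IsConj (a : G) v), (χ : G → ℂ) (u * a) := by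
  classical
  have hcf := Cfsg.Agent.Lib.Char.Basic.isClassFunction_of_isIrrCharacter χ.2
  choose K hK using exists_isComp hH hab hcl
  choose c hc hc' using fun g => (hK g).exists_conj hH
  have h1 : ∀ g : G, ∑ a ∈ Finset.univ.filter (fun a : H => IsConj (a : G) v),
      (χ : G → ℂ) (u * (g * a * g⁻¹)) =
      ∑ a ∈ Finset.univ.filter (fun a : H => IsConj (a : G) v), (χ : G → ℂ) (u * a) :=
    fun g => sum_orbit hM hH hab hIH (hK g) hu hne (hc g) (hc' g) hχ
  have h2 : ∑ g : G, ∑ a ∈ Finset.univ.filter (fun a : H => IsConj (a : G) v),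
      (χ : G → ℂ) (u * (g * a * g⁻¹)) =
      (Nat.card G : ℂ) * ((kk H v : ℂ) * ((χ : G → ℂ) u * (χ : G → ℂ) v / (χ : G → ℂ) 1)) := by
    rw [Finset.sum_comm]
    have h3 : ∀ a ∈ Finset.univ.filter (fun a : H => IsConj (a : G) v),
        ∑ g : G, (χ : G → ℂ) (u * (g * a * g⁻¹)) =
        (Nat.card G : ℂ) * ((χ : G → ℂ) u * (χ : G → ℂ) v / (χ : G → ℂ) 1) := by
      intro a ha
      simp only [Finset.mem_filter, Finset.mem_univ, true_and] at ha
      rw [sum_conj_mul]
      obtain ⟨t, ht⟩ := isConj_iff.mp ha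
      rw [← ht, hcf]
      ring
    rw [Finset.sum_congr rfl h3, Finset.sum_const, nsmul_eq_mul]
    unfold kk
    ring
  simp_rw [h1] at h2
  rw [Finset.sum_const, Finset.card_univ, nsmul_eq_mul, ← Nat.card_eq_fintype_card] at h2
  have hG : (Nat.card G : ℂ) ≠ 0 := Nat.cast_ne_zero.mpr Nat.card_pos.ne'
  exact (mul_left_cancel₀ hG h2).symm

/-- The hypothesis that `x` is isolated in `H`. -/
def Iso (H : Subgroup G) (x : G) : Prop := ∀ a ∈ H, IsConj a x → a = x

/-- Powers of an isolated element are isolated. -/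
theorem Iso.pow (hH : IsPGroup p H) (hab : IsMulCommutative H) (hcl : IsExtremelyClosed H)
    {x : G} (hx : x ∈ H) (hiso : Iso H x) (j : ℕ) : Iso H (x ^ j) := by
  classical
  intro a ha hc
  obtain ⟨g, hg⟩ := isConj_iff.mp hc.symm
  obtain ⟨K, hK⟩ := exists_isComp hH hab hcl g
  obtain ⟨c, hcK, hcj⟩ := hK.exists_conj hH
  have hn : c⁻¹ * g ∈ normalizer (H : Set G) := by
    apply mem_normalizer_of_cj_eq
    rw [← cj_cj, hcj, cj_cj, inv_mul_cancel, cj_one]
  set n := c⁻¹ * g with hndef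
  have h1 : n * x * n⁻¹ ∈ H := (mem_normalizer_iff.mp hn x).mp hx
  have h2 : n * x * n⁻¹ = x := hiso _ h1 (by
    rw [isConj_comm, isConj_iff]
    exact ⟨n, rfl⟩)
  have h3 : n * x ^ j * n⁻¹ = x ^ j := by
    have e : n * x ^ j * n⁻¹ = (n * x * n⁻¹) ^ j := by
      rw [conj_pow]
    rw [e, h2]
  have hg' : g = c * n := by rw [hndef]; group
  have h4 : a = c * x ^ j * c⁻¹ := by
    rw [← hg, hg']
    calc c * n * x ^ j * (c * n)⁻¹ = c * (n * x ^ j * n⁻¹) * c⁻¹ := by group
      _ = c * x ^ j * c⁻¹ := by rw [h3]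
  have h5 : a * (x ^ j)⁻¹ ∈ K := by
    have e : a * (x ^ j)⁻¹ = c * (x ^ j * c⁻¹ * (x ^ j)⁻¹) := by rw [h4]; group
    rw [e]
    exact K.mul_mem hcK (hK.norm _ (H.pow_mem hx j) _ (K.inv_mem hcK))
  have h6 : a * (x ^ j)⁻¹ ∈ H := H.mul_mem ha (H.inv_mem (H.pow_mem hx j))
  exact mul_inv_eq_one.mp (eq_one_of_mem_inf hK.odd hH h6 h5)

theorem kk_eq_one_of_iso {x : G} (hx : x ∈ H) (hiso : Iso H x) : kk H x = 1 := by
  classical
  unfold kk
  rw [Finset.card_eq_one]
  refine ⟨⟨x, hx⟩, ?_⟩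
  ext a
  simp only [Finset.mem_filter, Finset.mem_univ, true_and, Finset.mem_singleton]
  constructor
  · intro h
    exact Subtype.ext (hiso a a.2 h)
  · rintro rfl
    exact IsConj.refl _

/-- The relation between powers of an isolated element. -/
theorem pow_rel {M : Ideal AlgInt} (hM : IsPModular p M) (hH : IsPGroup p H)
    (hab : IsMulCommutative H) (hcl : IsExtremelyClosed H) (hIH : CentHyp p H)
    {x : G} (hx : x ∈ H) (hiso : Iso H x) {i j : ℕ} (hij : x ^ (i + j) ≠ 1) {χ : IrrCharacter G}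
    (hχ : χ ∈ principalBlock M G) :
    (χ : G → ℂ) (x ^ i) * (χ : G → ℂ) (x ^ j) / (χ : G → ℂ) 1 = (χ : G → ℂ) (x ^ (i + j)) := by
  classical
  have hisoj := hiso.pow hH hab hcl hx j
  have hxj : x ^ j ∈ H := H.pow_mem hx j
  have hne : ¬ IsConj (x ^ i)⁻¹ (x ^ j) := by
    intro h
    have h1 := hisoj _ (H.inv_mem (H.pow_mem hx i)) h
    apply hij
    rw [pow_add, ← h1]
    simp
  have h := mult_rel hM hH hab hcl hIH (H.pow_mem hx i) hne hχ
  rw [kk_eq_one_of_iso hxj hisoj] at h
  have h2 : Finset.univ.filter (fun a : H => IsConj (a : G) (x ^ j)) = {⟨x ^ j, hxj⟩} := by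
    ext a
    simp only [Finset.mem_filter, Finset.mem_univ, true_and, Finset.mem_singleton]
    constructor
    · intro h
      exact Subtype.ext (hisoj a a.2 h)
    · rintro rfl
      exact IsConj.refl _
  rw [h2, Finset.sum_singleton] at h
  simpa [pow_add] using h

/-- **The values at an isolated element of order at least three**. -/
theorem norm_of_iso {M : Ideal AlgInt} (hM : IsPModular p M) (hH : IsPGroup p H)
    (hab : IsMulCommutative H) (hcl : IsExtremelyClosed H) (hIH : CentHyp p H)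
    {x : G} (hx : x ∈ H) (hiso : Iso H x) (h3 : 3 ≤ orderOf x) {χ : IrrCharacter G}
    (hχ : χ ∈ principalBlock M G) {d : ℕ} (hd : (χ : G → ℂ) 1 = d) (hd0 : 0 < d) :
    (χ : G → ℂ) x = 0 ∨ ‖(χ : G → ℂ) x‖ = d := by
  classical
  have hdC : (d : ℂ) ≠ 0 := Nat.cast_ne_zero.mpr hd0.ne'
  set a : ℂ := (χ : G → ℂ) x / d with ha
  have hpow : ∀ i : ℕ, i + 1 < orderOf x → (χ : G → ℂ) (x ^ (i + 1)) = d * a ^ (i + 1) := by
    intro i
    induction i with
    | zero =>
      intro _
      simp only [zero_add, pow_one, ha]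
      field_simp
    | succ i ih =>
      intro hlt
      have h1 := ih (by omega)
      have hne : x ^ ((i + 1) + 1) ≠ 1 := by
        intro h
        have := orderOf_le_of_pow_eq_one (by omega) h
        omega
      have h2 := pow_rel hM hH hab hcl hIH hx hiso (i := i + 1) (j := 1) hne hχ
      rw [pow_one, hd, h1] at h2
      have hxa : (χ : G → ℂ) x = d * a := by
        rw [ha]
        field_simp
      rw [← h2, hxa]
      field_simp
      ring
  have hord : orderOf x - 1 + 1 = orderOf x := by omega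
  have hlast : (χ : G → ℂ) (x ^ (orderOf x - 2 + 1)) = d * a ^ (orderOf x - 2 + 1) :=
    hpow (orderOf x - 2) (by omega)
  have e1 : x ^ (orderOf x - 2 + 1) = x⁻¹ := by
    apply eq_inv_of_mul_eq_one_left
    rw [← pow_succ]
    have : orderOf x - 2 + 1 + 1 = orderOf x := by omega
    rw [this, pow_orderOf_eq_one]
  rw [e1] at hlast
  have hinv := Cfsg.Agent.Lib.Char.Ortho.char_inv_eq_conj
    (Cfsg.Agent.Lib.Char.Basic.isCharacter_of_isIrrCharacter χ.2) x
  rw [hinv] at hlast
  have hnorm : ‖a‖ = ‖a‖ ^ (orderOf x - 2 + 1) := by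
    have h1 := congrArg norm hlast
    rw [RCLike.norm_conj, norm_mul, Complex.norm_natCast, norm_pow] at h1
    have hdr : (0 : ℝ) < d := by exact_mod_cast hd0
    have h2 : ‖(χ : G → ℂ) x‖ = d * ‖a‖ := by
      rw [ha, norm_div, Complex.norm_natCast]
      field_simp
    rw [h2] at h1
    exact mul_left_cancel₀ hdr.ne' h1
  have hle : ‖a‖ ≤ 1 := by
    have h1 := Cfsg.Agent.Lib.Char.Degree.norm_le_charDegree
      (Cfsg.Agent.Lib.Char.Basic.isCharacter_of_isIrrCharacter χ.2) x
    rw [Cfsg.Agent.Lib.Char.Degree.charDegree_eq_of_eq_natCast hd] at h1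
    rw [ha, norm_div, Complex.norm_natCast]
    have hdr : (0 : ℝ) < d := by exact_mod_cast hd0
    rw [div_le_one hdr]
    exact h1
  by_cases ha0 : a = 0
  · left
    have := (div_eq_zero_iff.mp ha0)
    rcases this with h | h
    · exact h
    · exact absurd h hdC
  · right
    have hapos : 0 < ‖a‖ := norm_pos_iff.mpr ha0
    have h1 : ‖a‖ ^ (orderOf x - 2) = 1 := by
      have e : ‖a‖ ^ (orderOf x - 2 + 1) = ‖a‖ ^ (orderOf x - 2) * ‖a‖ := pow_succ _ _
      rw [e] at hnorm
      have h2 : ‖a‖ * 1 = ‖a‖ * ‖a‖ ^ (orderOf x - 2) := by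
        rw [mul_one, mul_comm]
        exact hnorm
      exact (mul_left_cancel₀ hapos.ne' h2).symm
    have h2 : ‖a‖ = 1 := (pow_eq_one_iff_of_nonneg hapos.le (by omega)).mp h1
    have hdr : (0 : ℝ) < d := by exact_mod_cast hd0
    rw [ha, norm_div, Complex.norm_natCast] at h2
    field_simp at h2
    exact h2

end Cfsg.Agent.Lib.ECP
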