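import Mathlib
import Cfsg.Agent.Lib.ECP.Stable

/-!
# Extremely closed abelian `p`-subgroups: an isolated element is central modulo the core
-/

set_option autoImplicit false
set_option linter.unusedSectionVars false
set_option linter.style.haveILetI false

namespace Cfsg.Agent.Lib.ECP

open Cfsg Subgroup
open Cfsg.Agent.Lib.ZStar.EC (cj mem_cj conj_mem_cj card_cj cj_cj cj_one cj_eq_self_of_normalizer
  mem_normalizer_of_cj_eq)
open Cfsg.Agent.Lib.Blocks.Central Cfsg.Agent.Lib.Blocks.Weak Cfsg.Agent.Lib.Blocks.Third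
open Cfsg.Agent.Lib.Blocks.General
open Cfsg.Agent.Lib.ZStar.Section
open scoped ComplexConjugate

universe u

section general

variable {G : Type u} [Group G] [Finite G] {p : ℕ} [hp : Fact p.Prime]

/-- A normal subgroup of order divisible by `p` contains a nontrivial `p`-element commuting with a
given `p`-element. -/
theorem exists_commuting_elt (T : Subgroup G) [hTn : T.Normal] (hT : p ∣ Nat.card T) {x : G}
    (hx : ∃ k : ℕ, orderOf x = p ^ k) :
    ∃ u ∈ T, u ≠ 1 ∧ Commute u x ∧ ∃ k : ℕ, orderOf u = p ^ k := by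
  classical
  obtain ⟨k, hk⟩ := hx
  have hD : IsPGroup p (zpowers x) := IsPGroup.of_card (n := k) (by rw [Nat.card_zpowers, hk])
  obtain ⟨P, hP⟩ := hD.exists_le_sylow
  have hxP : x ∈ (P : Subgroup G) := hP (mem_zpowers x)
  -- an element of order `p` in `T`
  obtain ⟨u₀, hu₀⟩ := exists_prime_orderOf_dvd_card' (G := T) p hT
  have hu₀1 : (u₀ : G) ≠ 1 := by
    intro h
    have h1 : u₀ = 1 := Subtype.ext h
    rw [h1, orderOf_one] at hu₀
    exact hp.out.one_lt.ne hu₀
  have hord : orderOf (u₀ : G) = p := by rw [← hu₀]; exact Subgroup.orderOf_coe u₀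
  have hD₀ : IsPGroup p (zpowers (u₀ : G)) :=
    IsPGroup.of_card (n := 1) (by rw [Nat.card_zpowers, hord, pow_one])
  obtain ⟨P', hP'⟩ := hD₀.exists_le_sylow
  obtain ⟨g, hg⟩ := MulAction.exists_smul_eq G P' P
  have hmem : g * (u₀ : G) * g⁻¹ ∈ (P : Subgroup G) := by
    rw [← hg, Sylow.coe_subgroup_smul]
    exact Subgroup.smul_mem_pointwise_smul _ _ _ (hP' (mem_zpowers _))
  have hmemT : g * (u₀ : G) * g⁻¹ ∈ T := hTn.conj_mem _ u₀.2 g
  have hne : g * (u₀ : G) * g⁻¹ ≠ 1 := by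
    intro h
    apply hu₀1
    have : (u₀ : G) = g⁻¹ * (g * (u₀ : G) * g⁻¹) * g := by group
    rw [this, h]
    group
  -- the intersection is normal in `P`
  haveI : Group.IsNilpotent (P : Subgroup G) := P.isPGroup'.isNilpotent
  set N : Subgroup (P : Subgroup G) := T.subgroupOf (P : Subgroup G) with hN
  haveI : N.Normal := by
    rw [hN]
    infer_instance
  have hNne : N ≠ ⊥ := by
    intro h
    have h1 : (⟨_, hmem⟩ : (P : Subgroup G)) ∈ N := Subgroup.mem_subgroupOf.mpr hmemT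
    rw [h, Subgroup.mem_bot] at h1
    exact hne (congrArg Subtype.val h1)
  have h2 := Cfsg.Agent.Lib.SolvStruct.Fit.inf_center_ne_bot N hNne
  obtain ⟨z, hz, hz1⟩ := (Subgroup.ne_bot_iff_exists_ne_one.mp h2 : ∃ y : ↥(N ⊓ center (P : Subgroup G)), y ≠ 1)
    |>.imp (fun y hy => hy) |> fun ⟨y, hy⟩ => (⟨y.1, y.2, fun e => hy (Subtype.ext e)⟩ :
      ∃ z, z ∈ N ⊓ center (P : Subgroup G) ∧ z ≠ 1)
  obtain ⟨hzN, hzZ⟩ := Subgroup.mem_inf.mp hz
  refine ⟨z, Subgroup.mem_subgroupOf.mp hzN, fun h => hz1 (Subtype.ext h), ?_, ?_⟩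
  · have h3 := (Subgroup.mem_center_iff.mp hzZ) ⟨x, hxP⟩
    have h4 := congrArg Subtype.val h3
    exact (Commute.eq h4.symm : _)
  · obtain ⟨e, he⟩ := (IsPGroup.iff_orderOf.mp P.isPGroup') z
    exact ⟨e, by rw [← he]; exact Subgroup.orderOf_coe z⟩

/-- If an element acts as a scalar in a character, its commutators lie in the kernel. -/
theorem commutator_mem_ker {χ : G → ℂ} (hχ : Cfsg.IsCharacter G χ) {x : G} {d : ℕ} (hd : χ 1 = d)
    (hn : ‖χ x‖ = d) (g : G) : χ (g * x * g⁻¹ * x⁻¹) = χ 1 := by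
  obtain ⟨n, ρ, rfl⟩ := hχ
  rw [Cfsg.Agent.Lib.Char.Degree.character_eq_one_iff]
  have hfin : (Module.finrank ℂ (Fin n → ℂ) : ℂ) = d := by
    rw [← hd]
    simp [Representation.character]
  have hfin' : (Module.finrank ℂ (Fin n → ℂ) : ℝ) = d := by
    have : Module.finrank ℂ (Fin n → ℂ) = d := by exact_mod_cast hfin
    rw [this]
  obtain ⟨ω, hω⟩ := (Cfsg.Agent.Lib.Char.Eigen.norm_character_eq_iff_scalar ρ x).mp (by
    rw [hn, hfin'])
  have hx1 : ρ x * ρ x⁻¹ = 1 := by rw [← map_mul, mul_inv_cancel, map_one]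
  have hg1 : ρ g * ρ g⁻¹ = 1 := by rw [← map_mul, mul_inv_cancel, map_one]
  have hscal : ∀ A : Module.End ℂ (Fin n → ℂ), ρ x * A = A * ρ x := by
    intro A
    rw [hω]
    ext v
    simp
  rw [map_mul, map_mul, map_mul]
  calc ρ g * ρ x * ρ g⁻¹ * ρ x⁻¹ = ρ x * ρ g * ρ g⁻¹ * ρ x⁻¹ := by rw [hscal (ρ g)]
    _ = ρ x * (ρ g * ρ g⁻¹) * ρ x⁻¹ := by noncomm_ring
    _ = ρ x * ρ x⁻¹ := by rw [hg1, mul_one]
    _ = 1 := hx1

end general

variable {G : Type u} [Group G] [Fintype G] [Fintype (IrrCharacter G)]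
variable {H : Subgroup G} [Fintype H] {p : ℕ} [hp : Fact p.Prime]

theorem value_mul_of_ker {χ : G → ℂ} (hχ : Cfsg.IsCharacter G χ) {x u : G} (hu : χ u = χ 1) :
    χ (x * u) = χ x := by
  obtain ⟨n, ρ, rfl⟩ := hχ
  rw [Cfsg.Agent.Lib.Char.Degree.character_eq_one_iff] at hu
  change LinearMap.trace ℂ _ (ρ (x * u)) = LinearMap.trace ℂ _ (ρ x)
  rw [map_mul, hu, mul_one]

/-- **An isolated element of order at least three is central modulo the core.** -/
theorem central_of_iso {M : Ideal AlgInt} (hM : IsPModular p M) (hH : IsPGroup p H)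
    (hab : IsMulCommutative H) (hcl : IsExtremelyClosed H) (hIH : CentHyp p H)
    (hO : pPrimeCore p G = ⊥) {x : G} (hx : x ∈ H) (hiso : Iso H x) (h3 : 3 ≤ orderOf x) (g : G) :
    g * x = x * g := by
  classical
  have hchar : ∀ χ : IrrCharacter G, Cfsg.IsCharacter G (χ : G → ℂ) := fun χ =>
    Cfsg.Agent.Lib.Char.Basic.isCharacter_of_isIrrCharacter χ.2
  haveI := hM.2.1.isPrime
  set T : Subgroup G := ⨅ χ : {χ : IrrCharacter G // χ ∈ principalBlock M G ∧ (χ.1 : G → ℂ) x ≠ 0},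
    Cfsg.Agent.Lib.Char.Degree.charKer (hchar χ.1) with hT
  have hmemT : ∀ u, u ∈ T ↔ ∀ χ : IrrCharacter G, χ ∈ principalBlock M G → (χ : G → ℂ) x ≠ 0 →
      (χ : G → ℂ) u = (χ : G → ℂ) 1 := by
    intro u
    rw [hT, Subgroup.mem_iInf]
    constructor
    · intro h χ h1 h2
      exact h ⟨χ, h1, h2⟩
    · intro h χ
      exact h χ.1 χ.2.1 χ.2.2
  haveI hTn : T.Normal := by
    constructor
    intro n hn w
    rw [hmemT] at hn ⊢
    intro χ h1 h2
    rw [Cfsg.Agent.Lib.Char.Basic.isClassFunction_of_isIrrCharacter χ.2]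
    exact hn χ h1 h2
  have hxp := orderOf_two_pow hH hx
  -- `T` is a `p'`-group
  have hTp : ¬ p ∣ Nat.card T := by
    intro hdvd
    obtain ⟨u, huT, hu1, hcomm, hup⟩ := exists_commuting_elt T hdvd hxp
    have hxu : ∃ k : ℕ, orderOf (x * u) = p ^ k := by
      obtain ⟨a, ha⟩ := hxp
      obtain ⟨b, hb⟩ := hup
      have h1 : (x * u) ^ (p ^ a * p ^ b) = 1 := by
        rw [hcomm.symm.mul_pow, pow_mul, ← ha, pow_orderOf_eq_one, one_pow, one_mul, mul_comm,
          pow_mul, ← hb, pow_orderOf_eq_one, one_pow]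
      rw [← pow_add] at h1
      obtain ⟨k, -, hk⟩ := (Nat.dvd_prime_pow hp.out).mp (orderOf_dvd_of_pow_eq_one h1)
      exact ⟨k, hk⟩
    by_cases hc : IsConj (x * u) x
    · obtain ⟨w, hw⟩ := isConj_iff.mp hc.symm
      obtain ⟨K, hK⟩ := exists_isComp hH hab hcl w
      obtain ⟨c, hcK, hcj⟩ := hK.exists_conj hH
      have hn : c⁻¹ * w ∈ normalizer (H : Set G) := by
        apply mem_normalizer_of_cj_eq
        rw [← cj_cj, hcj, cj_cj, inv_mul_cancel, cj_one]
      set n := c⁻¹ * w with hndef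
      have h1 : n * x * n⁻¹ ∈ H := (mem_normalizer_iff.mp hn x).mp hx
      have h2 : n * x * n⁻¹ = x := hiso _ h1 (by
        rw [isConj_comm, isConj_iff]
        exact ⟨n, rfl⟩)
      have hw' : w = c * n := by rw [hndef]; group
      have h4 : x * u = c * x * c⁻¹ := by
        rw [← hw, hw']
        calc c * n * x * (c * n)⁻¹ = c * (n * x * n⁻¹) * c⁻¹ := by group
          _ = c * x * c⁻¹ := by rw [h2]
      have h5 : u ∈ K := by
        have e : u = (x⁻¹ * c * x⁻¹⁻¹) * c⁻¹ := by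
          have : u = x⁻¹ * (x * u) := by group
          rw [this, h4]
          group
        rw [e]
        exact K.mul_mem (hK.norm _ (H.inv_mem hx) _ hcK) (K.inv_mem hcK)
      obtain ⟨b, hb⟩ := hup
      have h6 := odd_orderOf_of_mem hK.odd h5
      rw [hb] at h6
      rcases b with _ | b
      · rw [pow_zero] at hb
        exact hu1 (orderOf_eq_one_iff.mp hb)
      · exact h6 (dvd_pow_self p (Nat.succ_ne_zero b))
    · have h0 := secSum_eq_zero hM hxp (isPPart_self_of hxu hp.out) hc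
      rw [Cfsg.Agent.Lib.ECP.secSum_eq_sum] at h0
      have hterm : ∀ χ ∈ BB M G, (χ : G → ℂ) (x * u) * conj ((χ : G → ℂ) x) =
          ((Complex.normSq ((χ : G → ℂ) x) : ℝ) : ℂ) := by
        intro χ hχ
        by_cases h00 : (χ : G → ℂ) x = 0
        · simp [h00]
        · have hk := (hmemT u).mp huT χ (mem_BB.mp hχ) h00
          rw [value_mul_of_ker (hchar χ) hk, Complex.mul_conj]
      rw [Finset.sum_congr rfl hterm, ← Complex.ofReal_sum] at h0
      have h1 := Complex.ofReal_eq_zero.mp h0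
      have h2 := Finset.single_le_sum (f := fun χ : IrrCharacter G => Complex.normSq ((χ : G → ℂ) x))
        (s := BB M G) (fun χ _ => Complex.normSq_nonneg _) (oneI_mem_BB hM)
      simp only [oneI_apply, map_one] at h2
      rw [h1] at h2
      linarith
  have hTbot : T = ⊥ := by
    have h1 : (Nat.card T).Coprime p := ((Nat.Prime.coprime_iff_not_dvd hp.out).mpr hTp).symm
    have h2 := Cfsg.Agent.Lib.Core.Basic.le_pPrimeCore hTn h1
    rw [hO] at h2
    exact le_bot_iff.mp h2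
  have hmem : g * x * g⁻¹ * x⁻¹ ∈ T := by
    rw [hmemT]
    intro χ hχ h0
    obtain ⟨d, hdpos, hd⟩ := Cfsg.Agent.Lib.Char.Complete.exists_pos_deg_of_isIrr χ.2
    rcases norm_of_iso hM hH hab hcl hIH hx hiso h3 hχ hd hdpos with h | h
    · exact absurd h h0
    · exact commutator_mem_ker (hchar χ) hd h g
  rw [hTbot, Subgroup.mem_bot] at hmem
  have := mul_inv_eq_one.mp hmem
  have h2 : g * x = x * g := by
    calc g * x = g * x * g⁻¹ * g := by group
      _ = x * g := by rw [this]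
  exact h2

end Cfsg.Agent.Lib.ECP
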