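import Mathlib
import Cfsg.Agent.Lib.ECP.Iso

/-!
# Extremely closed `p`-subgroups of order `p`: exponents and relations
-/

set_option autoImplicit false
set_option linter.unusedSectionVars false
set_option linter.style.haveILetI false

namespace Cfsg.Agent.Lib.ECP

open Cfsg Subgroup
open Cfsg.Agent.Lib.ZStar.EC (cj mem_cj conj_mem_cj card_cj cj_cj cj_one cj_eq_self_of_normalizer
  mem_normalizer_of_cj_eq)
open Cfsg.Agent.Lib.Blocks.Central Cfsg.Agent.Lib.Blocks.Weak Cfsg.Agent.Lib.Blocks.Third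
open Cfsg.Agent.Lib.Blocks.General
open Cfsg.Agent.Lib.ZStar.Section
open scoped ComplexConjugate

universe u

section pw

variable {G : Type u} [Group G] {p : ℕ} [hp : Fact p.Prime]

/-- Powers with exponents in `ZMod p`. -/
noncomputable def pw (x : G) (i : ZMod p) : G := x ^ i.val

theorem pow_mod_p {x : G} (hord : orderOf x = p) (n : ℕ) : x ^ (n % p) = x ^ n := by
  have := pow_mod_orderOf x n
  rwa [hord] at this

theorem pw_add {x : G} (hord : orderOf x = p) (i j : ZMod p) : pw x (i + j) = pw x i * pw x j := by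
  unfold pw
  rw [ZMod.val_add, ← pow_add]
  exact pow_mod_p hord _

theorem pw_zero (x : G) : pw x (0 : ZMod p) = 1 := by
  simp [pw]

theorem pw_one (x : G) : pw x (1 : ZMod p) = x := by
  simp [pw, ZMod.val_one]

theorem pw_neg {x : G} (hord : orderOf x = p) (i : ZMod p) : pw x (-i) = (pw x i)⁻¹ := by
  apply eq_inv_of_mul_eq_one_left
  rw [← pw_add hord, neg_add_cancel, pw_zero]

theorem pw_inj {x : G} (hord : orderOf x = p) {i j : ZMod p} (h : pw x i = pw x j) : i = j := by
  have h1 : i.val < orderOf x := by rw [hord]; exact ZMod.val_lt i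
  have h2 : j.val < orderOf x := by rw [hord]; exact ZMod.val_lt j
  have h3 := pow_injOn_Iio_orderOf (x := x) (Set.mem_Iio.mpr h1) (Set.mem_Iio.mpr h2) h
  exact ZMod.val_injective p h3

theorem pw_ne_one {x : G} (hord : orderOf x = p) {i : ZMod p} (hi : i ≠ 0) : pw x i ≠ 1 := by
  intro h
  apply hi
  apply pw_inj hord
  rw [h, pw_zero]

theorem conj_pw {x w : G} (hord : orderOf x = p) {l : ZMod p} (h : w * x * w⁻¹ = pw x l)
    (j : ZMod p) : w * pw x j * w⁻¹ = pw x (l * j) := by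
  have e1 : w * pw x j * w⁻¹ = (w * x * w⁻¹) ^ j.val := by
    unfold pw
    rw [conj_pow]
  rw [e1, h]
  unfold pw
  rw [ZMod.val_mul, ← pow_mul]
  exact (pow_mod_p hord _).symm

theorem exists_pw {x : G} (hord : orderOf x = p) (k : ℕ) : ∃ i : ZMod p, x ^ k = pw x i := by
  refine ⟨(k : ZMod p), ?_⟩
  unfold pw
  rw [ZMod.val_natCast]
  exact (pow_mod_p hord _).symm

end pw

variable {G : Type u} [Group G] [Fintype G] [Fintype (IrrCharacter G)]
variable {H : Subgroup G} [Fintype H] {p : ℕ} [hp : Fact p.Prime]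

/-- Conjugate elements of `H` are conjugate in the normalizer. -/
theorem exists_norm_conj (hH : IsPGroup p H) (hab : IsMulCommutative H)
    (hcl : IsExtremelyClosed H) {a b : G} (ha : a ∈ H) (hb : b ∈ H) (h : IsConj b a) :
    ∃ n ∈ normalizer (H : Set G), n * b * n⁻¹ = a := by
  classical
  obtain ⟨g, hg⟩ := isConj_iff.mp h
  obtain ⟨K, hK⟩ := exists_isComp hH hab hcl g
  obtain ⟨c, hcK, hcj⟩ := hK.exists_conj hH
  have hn : c⁻¹ * g ∈ normalizer (H : Set G) := by
    apply mem_normalizer_of_cj_eq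
    rw [← cj_cj, hcj, cj_cj, inv_mul_cancel, cj_one]
  set n := c⁻¹ * g with hndef
  refine ⟨n, hn, ?_⟩
  have h1 : n * b * n⁻¹ ∈ H := (mem_normalizer_iff.mp hn b).mp hb
  have hg' : g = c * n := by rw [hndef]; group
  set b' := n * b * n⁻¹ with hb'
  have h4 : a = c * b' * c⁻¹ := by
    rw [← hg, hg', hb']
    group
  have h5 : a * b'⁻¹ ∈ K := by
    have e : a * b'⁻¹ = c * (b' * c⁻¹ * b'⁻¹) := by rw [h4]; group
    rw [e]
    exact K.mul_mem hcK (hK.norm _ h1 _ (K.inv_mem hcK))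
  have h6 : a * b'⁻¹ ∈ H := H.mul_mem ha (H.inv_mem h1)
  exact (mul_inv_eq_one.mp (eq_one_of_mem_inf hK.odd hH h6 h5)).symm

open Classical in
/-- The set of exponents `l` with `x ^ l` conjugate to `x`. -/
noncomputable def Lam (x : G) : Finset (ZMod p) := Finset.univ.filter (fun l => IsConj (pw x l) x)

section cyc

variable {x : G} (hord : orderOf x = p) (hx : x ∈ H) (hHx : ∀ a ∈ H, ∃ k : ℕ, a = x ^ k)

include hord hHx in
theorem exists_pw_of_mem {a : G} (ha : a ∈ H) : ∃ i : ZMod p, a = pw x i := by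
  obtain ⟨k, rfl⟩ := hHx a ha
  exact exists_pw hord k

include hx in
theorem pw_mem (i : ZMod p) : pw x i ∈ H := H.pow_mem hx _

theorem mem_Lam {l : ZMod p} : l ∈ Lam (p := p) x ↔ IsConj (pw x l) x := by
  classical
  simp [Lam]

theorem one_mem_Lam : (1 : ZMod p) ∈ Lam (p := p) x := by
  rw [mem_Lam, pw_one]

include hord in
theorem zero_notMem_Lam (hx1 : x ≠ 1) : (0 : ZMod p) ∉ Lam (p := p) x := by
  rw [mem_Lam, pw_zero]
  intro h
  exact hx1 (isConj_one_right.mp h)

include hord in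
theorem conj_pw_of_mem {l : ZMod p} (hl : l ∈ Lam (p := p) x) (j : ZMod p) :
    IsConj (pw x (l * j)) (pw x j) := by
  rw [mem_Lam] at hl
  obtain ⟨w, hw⟩ := isConj_iff.mp hl.symm
  rw [isConj_comm, isConj_iff]
  exact ⟨w, conj_pw hord hw j⟩

include hord in
theorem mul_mem_Lam {l l' : ZMod p} (hl : l ∈ Lam (p := p) x) (hl' : l' ∈ Lam (p := p) x) :
    l * l' ∈ Lam (p := p) x := by
  rw [mem_Lam] at hl' ⊢
  exact (conj_pw_of_mem hord hl l').trans hl'

include hord hx hHx in
/-- The elements of `H` conjugate to `x ^ j`. -/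
theorem sum_filter_pw (hH : IsPGroup p H) (hab : IsMulCommutative H) (hcl : IsExtremelyClosed H)
    {j : ZMod p} (hj : j ≠ 0) (f : G → ℂ) :
    (open Classical in ∑ a ∈ Finset.univ.filter (fun a : H => IsConj (a : G) (pw x j)), f a) =
      ∑ l ∈ Lam (p := p) x, f (pw x (l * j)) := by
  classical
  symm
  refine Finset.sum_bij (fun l _ => (⟨pw x (l * j), pw_mem hx _⟩ : H)) ?_ ?_ ?_ ?_
  · intro l hl
    simp only [Finset.mem_filter, Finset.mem_univ, true_and]
    exact conj_pw_of_mem hord hl j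
  · intro l _ l' _ h
    have h1 := pw_inj hord (congrArg Subtype.val h)
    exact mul_right_cancel₀ hj h1
  · intro a ha
    simp only [Finset.mem_filter, Finset.mem_univ, true_and] at ha
    obtain ⟨n, hn, hnj⟩ := exists_norm_conj hH hab hcl a.2 (pw_mem hx j) ha.symm
    have h1 : n * x * n⁻¹ ∈ H := (mem_normalizer_iff.mp hn x).mp hx
    obtain ⟨l, hl⟩ := exists_pw_of_mem hord hHx h1
    have hlL : l ∈ Lam (p := p) x := by
      rw [mem_Lam, ← hl, isConj_comm, isConj_iff]
      exact ⟨n, rfl⟩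
    refine ⟨l, hlL, ?_⟩
    apply Subtype.ext
    show pw x (l * j) = a
    rw [← conj_pw hord hl j, hnj]
  · intro l _
    rfl

include hord hx hHx in
theorem kk_pw (hH : IsPGroup p H) (hab : IsMulCommutative H) (hcl : IsExtremelyClosed H)
    {j : ZMod p} (hj : j ≠ 0) : kk H (pw x j) = (Lam (p := p) x).card := by
  classical
  have h := sum_filter_pw hord hx hHx hH hab hcl hj (fun _ => 1)
  simp only [Finset.sum_const, nsmul_eq_mul, mul_one] at h
  unfold kk
  exact_mod_cast h

include hord hx hHx in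
/-- **The relation between the values at powers of `x`**. -/
theorem rel_pw {M : Ideal AlgInt} (hM : IsPModular p M) (hH : IsPGroup p H)
    (hab : IsMulCommutative H) (hcl : IsExtremelyClosed H) (hIH : CentHyp p H)
    {i j : ZMod p} (hj : j ≠ 0) (h : ∀ l ∈ Lam (p := p) x, i + l * j ≠ 0) {χ : IrrCharacter G}
    (hχ : χ ∈ principalBlock M G) :
    ((Lam (p := p) x).card : ℂ) * ((χ : G → ℂ) (pw x i) * (χ : G → ℂ) (pw x j) / (χ : G → ℂ) 1) =
      ∑ l ∈ Lam (p := p) x, (χ : G → ℂ) (pw x (i + l * j)) := by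
  classical
  have hne : ¬ IsConj (pw x i)⁻¹ (pw x j) := by
    intro hc
    obtain ⟨n, hn, hnj⟩ := exists_norm_conj hH hab hcl (H.inv_mem (pw_mem hx i)) (pw_mem hx j) hc.symm
    have h1 : n * x * n⁻¹ ∈ H := (mem_normalizer_iff.mp hn x).mp hx
    obtain ⟨l, hl⟩ := exists_pw_of_mem hord hHx h1
    have hlL : l ∈ Lam (p := p) x := by
      rw [mem_Lam, ← hl, isConj_comm, isConj_iff]
      exact ⟨n, rfl⟩
    apply h l hlL
    apply pw_inj hord
    rw [pw_add hord, ← conj_pw hord hl j, hnj, pw_zero]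
    group
  have h1 := mult_rel hM hH hab hcl hIH (pw_mem hx i) hne hχ
  rw [kk_pw hord hx hHx hH hab hcl hj] at h1
  rw [h1]
  have h2 := sum_filter_pw hord hx hHx hH hab hcl hj (fun a => (χ : G → ℂ) (pw x i * a))
  convert h2 using 1
  refine Finset.sum_congr rfl fun l _ => ?_
  rw [pw_add hord]

/-- The normalized value. -/
noncomputable def AA (x : G) (χ : IrrCharacter G) (i : ZMod p) : ℂ :=
  (χ : G → ℂ) (pw x i) / (χ : G → ℂ) 1

section values

variable {χ : IrrCharacter G}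

theorem AA_zero : AA (p := p) x χ 0 = 1 := by
  unfold AA
  rw [pw_zero]
  exact div_self (Cfsg.Agent.Lib.Char.Complete.irr_one_ne_zero χ.2)

include hord in
theorem AA_lam {l : ZMod p} (hl : l ∈ Lam (p := p) x) (j : ZMod p) :
    AA x χ (l * j) = AA x χ j := by
  unfold AA
  obtain ⟨w, hw⟩ := isConj_iff.mp (conj_pw_of_mem hord hl j).symm
  rw [← hw, Cfsg.Agent.Lib.Char.Basic.isClassFunction_of_isIrrCharacter χ.2]

include hord in
theorem AA_neg (i : ZMod p) : AA x χ (-i) = conj (AA x χ i) := by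
  unfold AA
  rw [pw_neg hord, Cfsg.Agent.Lib.Char.Ortho.char_inv_eq_conj
    (Cfsg.Agent.Lib.Char.Basic.isCharacter_of_isIrrCharacter χ.2), map_div₀, conj_one]

theorem AA_norm (i : ZMod p) : ‖AA x χ i‖ ≤ 1 := by
  unfold AA
  obtain ⟨d, hdpos, hd⟩ := Cfsg.Agent.Lib.Char.Complete.exists_pos_deg_of_isIrr χ.2
  have h1 := Cfsg.Agent.Lib.Char.Degree.norm_le_charDegree
    (Cfsg.Agent.Lib.Char.Basic.isCharacter_of_isIrrCharacter χ.2) (pw x i)
  rw [Cfsg.Agent.Lib.Char.Degree.charDegree_eq_of_eq_natCast hd] at h1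
  rw [hd, norm_div, Complex.norm_natCast]
  have hdr : (0 : ℝ) < d := by exact_mod_cast hdpos
  rw [div_le_one hdr]
  exact h1

include hord hx hHx in
theorem rel_AA {M : Ideal AlgInt} (hM : IsPModular p M) (hH : IsPGroup p H)
    (hab : IsMulCommutative H) (hcl : IsExtremelyClosed H) (hIH : CentHyp p H)
    {i j : ZMod p} (hj : j ≠ 0) (h : ∀ l ∈ Lam (p := p) x, i + l * j ≠ 0)
    (hχ : χ ∈ principalBlock M G) :
    ((Lam (p := p) x).card : ℂ) * (AA x χ i * AA x χ j) =
      ∑ l ∈ Lam (p := p) x, AA x χ (i + l * j) := by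
  have h1 := rel_pw hord hx hHx hM hH hab hcl hIH hj h hχ
  have h0 := Cfsg.Agent.Lib.Char.Complete.irr_one_ne_zero χ.2
  unfold AA
  rw [← Finset.sum_div, ← h1]
  field_simp

include hord hx hHx in
/-- The sum of the values. -/
theorem sum_AA : (tH H χ / (χ : G → ℂ) 1) = ∑ i : ZMod p, AA x χ i := by
  classical
  unfold AA
  rw [← Finset.sum_div]
  congr 1
  unfold tH
  symm
  refine Fintype.sum_bijective (fun i : ZMod p => (⟨pw x i, pw_mem hx i⟩ : H)) ?_ _ _ fun i => rfl
  constructor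
  · intro i j h
    exact pw_inj hord (congrArg Subtype.val h)
  · intro a
    obtain ⟨i, hi⟩ := exists_pw_of_mem hord hHx a.2
    exact ⟨i, Subtype.ext hi.symm⟩

end values

end cyc

end Cfsg.Agent.Lib.ECP
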