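import Mathlib
import Cfsg.Agent.Lib.ECP.Cyc

/-!
# Extremely closed abelian `p`-subgroups: the sum `Lr` equals `|H|`, and an isolated element
-/

set_option autoImplicit false
set_option linter.unusedSectionVars false
set_option linter.style.haveILetI false

namespace Cfsg.Agent.Lib.ECP

open Cfsg Subgroup
open Cfsg.Agent.Lib.ZStar.EC (cj mem_cj conj_mem_cj card_cj cj_cj cj_one cj_eq_self_of_normalizer
  mem_normalizer_of_cj_eq exists_sum_eq three_mul_le)
open Cfsg.Agent.Lib.Blocks.Central Cfsg.Agent.Lib.Blocks.Weak Cfsg.Agent.Lib.Blocks.Third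
open Cfsg.Agent.Lib.Blocks.General
open Cfsg.Agent.Lib.ZStar.Section
open scoped ComplexConjugate

universe u

theorem lt_of_sums' {ι : Type*} {B : Finset ι} {g t : ι → ℝ} {q L : ℝ} (hq : 1 < q)
    (h1 : ∑ i ∈ B, g i ^ 2 * (q - 1 - t i) = (q - 1) ^ 2)
    (h2 : ∑ i ∈ B, g i ^ 2 = (q - 1) * (L - q + 1))
    (h3 : ∀ i ∈ B, t i < (q - 1) / 2) : L < q + 1 := by
  by_contra hlt
  push Not at hlt
  have hq1 : 0 < q - 1 := by linarith
  have h4 : 2 * (q - 1) ≤ ∑ i ∈ B, g i ^ 2 := by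
    rw [h2]
    nlinarith
  have h5 : 0 < ∑ i ∈ B, g i ^ 2 := by linarith
  obtain ⟨i, hi, hgi⟩ : ∃ i ∈ B, g i ≠ 0 := by
    by_contra hall
    push Not at hall
    have : ∑ i ∈ B, g i ^ 2 = 0 := Finset.sum_eq_zero fun i hi => by rw [hall i hi]; ring
    linarith
  have h6 : ∑ i ∈ B, g i ^ 2 * ((q - 1) / 2) < ∑ i ∈ B, g i ^ 2 * (q - 1 - t i) := by
    apply Finset.sum_lt_sum
    · intro j hj
      have := h3 j hj
      exact mul_le_mul_of_nonneg_left (by linarith) (sq_nonneg _)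
    · refine ⟨i, hi, mul_lt_mul_of_pos_left ?_ (by positivity)⟩
      have := h3 i hi
      linarith
  rw [← Finset.sum_mul, h1] at h6
  nlinarith

variable {G : Type u} [Group G] [Fintype G] [Fintype (IrrCharacter G)]
variable {H : Subgroup G} [Fintype H] {p : ℕ} [hp : Fact p.Prime]

theorem isIntegral_value (χ : IrrCharacter G) (g : G) : IsIntegral ℤ ((χ : G → ℂ) g) := by
  obtain ⟨n, ρ, hρ, hχ⟩ := χ.2
  rw [← hχ]
  exact Cfsg.Agent.Lib.Char.Eigen.character_isIntegral ρ g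

theorem isIntegral_conj_value (χ : IrrCharacter G) (g : G) :
    IsIntegral ℤ (conj ((χ : G → ℂ) g)) := by
  rw [← Cfsg.Agent.Lib.Char.Ortho.char_inv_eq_conj
    (Cfsg.Agent.Lib.Char.Basic.isCharacter_of_isIrrCharacter χ.2)]
  exact isIntegral_value χ _

theorem isIntegral_secSum (M : Ideal AlgInt) (y g : G) : IsIntegral ℤ (secSum M y g) := by
  rw [secSum_eq_sum]
  exact IsIntegral.sum _ fun χ _ => (isIntegral_value χ g).mul (isIntegral_conj_value χ y)

theorem iso_of_kk {x : G} (hx : x ∈ H) (h : kk H x = 1) : Iso H x := by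
  classical
  intro a ha hc
  unfold kk at h
  obtain ⟨u, hu⟩ := Finset.card_eq_one.mp h
  have hm1 : (⟨a, ha⟩ : H) ∈ Finset.univ.filter (fun a : H => IsConj (a : G) x) := by
    simpa using hc
  have hm2 : (⟨x, hx⟩ : H) ∈ Finset.univ.filter (fun a : H => IsConj (a : G) x) := by
    simp only [Finset.mem_filter, Finset.mem_univ, true_and]
    exact IsConj.refl _
  rw [hu, Finset.mem_singleton] at hm1 hm2
  exact congrArg Subtype.val (hm1.trans hm2.symm)

theorem kk_ne_zero {x : G} (hx : x ∈ H) : kk H x ≠ 0 := by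
  classical
  unfold kk
  apply Finset.card_ne_zero_of_mem (a := (⟨x, hx⟩ : H))
  simp only [Finset.mem_filter, Finset.mem_univ, true_and]
  exact IsConj.refl _

/-- An element whose class meets `H` in a number of elements prime to `p`. -/
theorem exists_not_dvd_kk (hH : IsPGroup p H) (hne : H ≠ ⊥) :
    ∃ x₀ ∈ H, x₀ ≠ 1 ∧ ¬ p ∣ kk H x₀ := by
  classical
  by_contra hno
  push Not at hno
  set I : Finset H := Finset.univ.erase 1 with hI
  have hIcard : I.card + 1 = Nat.card H := by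
    rw [hI, Finset.card_erase_add_one (Finset.mem_univ _), Finset.card_univ,
      Nat.card_eq_fintype_card]
  have hpH : p ∣ Nat.card H := by
    obtain ⟨n, hn⟩ := hH.exists_card_eq
    rcases n with _ | n
    · exfalso
      apply hne
      apply Subgroup.eq_bot_of_card_eq
      simpa using hn
    · rw [hn]
      exact dvd_pow_self p (Nat.succ_ne_zero n)
  have hIp : ¬ p ∣ I.card := by
    intro h
    have h1 : p ∣ 1 := by
      have h2 : p ∣ I.card + 1 := by rw [hIcard]; exact hpH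
      exact (Nat.dvd_add_right h).mp h2
    exact hp.out.one_lt.ne' (Nat.dvd_one.mp h1)
  set c : H → ConjClasses G := fun a => ConjClasses.mk (a : G) with hc
  have h5 := Finset.card_eq_sum_card_fiberwise (f := c) (s := I) (t := I.image c)
    (fun a ha => Finset.mem_coe.mpr (Finset.mem_image_of_mem c ha))
  apply hIp
  rw [h5]
  apply Finset.dvd_sum
  intro b hb
  obtain ⟨x, hx, rfl⟩ := Finset.mem_image.mp hb
  have hx1 : (x : G) ≠ 1 := by
    intro h
    have : x = 1 := Subtype.ext h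
    rw [hI, this] at hx
    simp at hx
  have h7 : I.filter (fun a => c a = c x) = Finset.univ.filter (fun a : H => IsConj (a : G) x) := by
    ext a
    simp only [Finset.mem_filter, Finset.mem_univ, true_and, hc, ConjClasses.mk_eq_mk_iff_isConj]
    constructor
    · exact fun h => h.2
    · intro h
      refine ⟨?_, h⟩
      rw [hI, Finset.mem_erase]
      refine ⟨?_, Finset.mem_univ _⟩
      rintro rfl
      exact hx1 (isConj_one_right.mp h)
  rw [h7]
  exact hno x x.2 hx1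

section real

variable {M : Ideal AlgInt} {m d : IrrCharacter G → ℕ} {Lr : ℝ}

/-- `Lr` equals `|H|` when the character ratios are small. -/
theorem Lr_eq_card (hM : IsPModular p M) (hH : IsPGroup p H)
    (hab : IsMulCommutative H) (hcl : IsExtremelyClosed H) (hIH : CentHyp p H)
    (hm : ∀ χ, tH H χ = (Nat.card H : ℂ) * m χ)
    (hd : ∀ χ : IrrCharacter G, (χ : G → ℂ) 1 = d χ)
    (hL : ∀ h ∈ H, h ≠ 1 → Lv M H h = (Lr : ℂ)) (hq : 1 < Nat.card H)
    (ht : ∀ χ ∈ (BB M G).erase (oneI G), tt H m d χ < ((Nat.card H : ℝ) - 1) / 2) :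
    Lr = Nat.card H := by
  classical
  have hqr : (1 : ℝ) < Nat.card H := by exact_mod_cast hq
  obtain ⟨x, hx, hx1⟩ : ∃ x ∈ H, x ≠ 1 := by
    haveI : Nontrivial H := Finite.one_lt_card_iff_nontrivial.mp hq
    obtain ⟨y, hy⟩ := exists_ne (1 : H)
    exact ⟨y, y.2, fun h => hy (Subtype.ext h)⟩
  have hge := le_Lr hM hH hab hcl hIH hm hd hL hx hx1
  have hlt := lt_of_sums' hqr (sum_erase_tau hM hH hab hcl hIH hm hd hL)
    (sum_erase_sq hM hH hm hd hL) ht
  -- `Lr` is an integer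
  have hsq := real_sum_sq hM hH hm hd hL
  set gz : IrrCharacter G → ℤ := fun χ => (Nat.card H : ℤ) * m χ - d χ with hgz
  have hgg : ∀ χ, gg H m d χ = (gz χ : ℝ) := by
    intro χ
    simp [gg, hgz]
  set N : ℤ := ∑ χ ∈ BB M G, gz χ ^ 2 with hN
  have hNr : (N : ℝ) = ((Nat.card H : ℝ) - 1) * Lr := by
    rw [← hsq, hN]
    push_cast
    refine Finset.sum_congr rfl fun χ _ => ?_
    rw [hgg]
  have hNnn : 0 ≤ N := Finset.sum_nonneg fun χ _ => sq_nonneg _
  obtain ⟨N', hN'⟩ := Int.eq_ofNat_of_zero_le hNnn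
  have hq1 : Nat.card H - 1 ≠ 0 := by omega
  have hq1c : ((Nat.card H - 1 : ℕ) : ℝ) = (Nat.card H : ℝ) - 1 := by
    rw [Nat.cast_sub hq.le]
    simp
  have hLval : (Lr : ℂ) = (N' : ℂ) / ((Nat.card H - 1 : ℕ) : ℂ) := by
    have h1 : Lr = (N' : ℝ) / ((Nat.card H - 1 : ℕ) : ℝ) := by
      rw [hq1c]
      have h2 : (N' : ℝ) = ((Nat.card H : ℝ) - 1) * Lr := by
        rw [← hNr, hN']
        simp
      rw [h2]
      have : (Nat.card H : ℝ) - 1 ≠ 0 := by linarith
      field_simp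
    rw [h1]
    push_cast
    rfl
  have hint : IsIntegral ℤ ((N' : ℂ) / ((Nat.card H - 1 : ℕ) : ℂ)) := by
    rw [← hLval, ← hL x hx hx1, Lv_eq hM hH hx]
    have h3 : IsIntegral ℤ ((kk H x : ℕ) : ℂ) := isIntegral_natCast _
    exact h3.mul (isIntegral_secSum M x x)
  obtain ⟨k, hk⟩ := Cfsg.Agent.Lib.Char.Central.nat_dvd_of_isIntegral_div hq1 hint
  have hLk : Lr = k := by
    have h1 : Lr = (N' : ℝ) / ((Nat.card H - 1 : ℕ) : ℝ) := by
      apply Complex.ofReal_injective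
      rw [hLval]
      push_cast
      rfl
    rw [h1, hk]
    have h2 : ((Nat.card H - 1 : ℕ) : ℝ) ≠ 0 := Nat.cast_ne_zero.mpr hq1
    push_cast
    field_simp
  rw [hLk] at hge hlt ⊢
  have h5 : Nat.card H ≤ k := by exact_mod_cast hge
  have h6 : k < Nat.card H + 1 := by exact_mod_cast hlt
  have h7 : k = Nat.card H := by omega
  rw [h7]

/-- From `Lr = |H|`, the numbers `kk` divide `|H|`. -/
theorem kk_dvd_card (hM : IsPModular p M) (hH : IsPGroup p H)
    (hL : ∀ h ∈ H, h ≠ 1 → Lv M H h = (Lr : ℂ)) (hLr : Lr = Nat.card H) {x : G} (hx : x ∈ H)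
    (hx1 : x ≠ 1) : kk H x ∣ Nat.card H := by
  classical
  apply Cfsg.Agent.Lib.Char.Central.nat_dvd_of_isIntegral_div (kk_ne_zero hx)
  have h1 := hL x hx hx1
  rw [Lv_eq hM hH hx, hLr] at h1
  have h2 : ((kk H x : ℕ) : ℂ) ≠ 0 := Nat.cast_ne_zero.mpr (kk_ne_zero hx)
  have h3 : ((Nat.card H : ℝ) : ℂ) = (Nat.card H : ℂ) := by simp
  rw [h3] at h1
  rw [← h1, mul_comm, mul_div_assoc, div_self h2, mul_one]
  exact isIntegral_secSum M x x

/-- **An isolated element exists as soon as the ratios are small**. -/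
theorem exists_iso_of_tt_lt (hM : IsPModular p M) (hH : IsPGroup p H)
    (hab : IsMulCommutative H) (hcl : IsExtremelyClosed H) (hIH : CentHyp p H)
    (hne : H ≠ ⊥)
    (hm : ∀ χ, tH H χ = (Nat.card H : ℂ) * m χ)
    (hd : ∀ χ : IrrCharacter G, (χ : G → ℂ) 1 = d χ)
    (hL : ∀ h ∈ H, h ≠ 1 → Lv M H h = (Lr : ℂ)) (hq : 1 < Nat.card H)
    (ht : ∀ χ ∈ (BB M G).erase (oneI G), tt H m d χ < ((Nat.card H : ℝ) - 1) / 2) :
    ∃ x ∈ H, x ≠ 1 ∧ Iso H x := by
  classical
  have hLr := Lr_eq_card hM hH hab hcl hIH hm hd hL hq ht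
  obtain ⟨x, hx, hx1, hndvd⟩ := exists_not_dvd_kk hH hne
  refine ⟨x, hx, hx1, iso_of_kk hx ?_⟩
  have h1 := kk_dvd_card hM hH hL hLr hx hx1
  obtain ⟨n, hn⟩ := hH.exists_card_eq
  rw [hn] at h1
  obtain ⟨k, -, hk⟩ := (Nat.dvd_prime_pow hp.out).mp h1
  rcases k with _ | k
  · simpa using hk
  · exact absurd (hk ▸ dvd_pow_self p (Nat.succ_ne_zero k)) hndvd

/-- Existence of the real number `Lr`. -/
theorem exists_Lr (hM : IsPModular p M) (hH : IsPGroup p H)
    (hab : IsMulCommutative H) (hcl : IsExtremelyClosed H) (hIH : CentHyp p H)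
    {x : G} (hx : x ∈ H) (hx1 : x ≠ 1) : ∃ Lr : ℝ, ∀ h ∈ H, h ≠ 1 → Lv M H h = (Lr : ℂ) := by
  have h1 : conj (Lv M H x) = Lv M H x := conj_Lv hM hH hx
  obtain ⟨r, hr⟩ := Complex.conj_eq_iff_real.mp h1
  refine ⟨r, fun h hh hh1 => ?_⟩
  rw [Lv_symm hM hH hab hcl hIH hx hx1 hh hh1, hr]

/-- The bound for large `H`. -/
theorem tt_lt_of_large (hM : IsPModular p M) (hH : IsPGroup p H)
    (hab : IsMulCommutative H) (hcl : IsExtremelyClosed H) (hIH : CentHyp p H)
    (hm : ∀ χ, tH H χ = (Nat.card H : ℂ) * m χ)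
    (hd : ∀ χ : IrrCharacter G, (χ : G → ℂ) 1 = d χ) (hdpos : ∀ χ, 0 < d χ) {a b : G}
    (htop : H ⊔ cj a H ⊔ cj b H = ⊤) (hq : 8 ≤ Nat.card H) :
    ∀ χ ∈ (BB M G).erase (oneI G), tt H m d χ < ((Nat.card H : ℝ) - 1) / 2 := by
  intro χ hχ
  have hq' : (8 : ℝ) ≤ Nat.card H := by exact_mod_cast hq
  exact tau_lt_of_large hq' (tt_le hm hd hdpos htop (Finset.ne_of_mem_erase hχ))
    (gap_real hM hH hab hcl hIH hm hd hdpos (Finset.mem_of_mem_erase hχ))

end real

end Cfsg.Agent.Lib.ECP
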