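import Mathlib
import Cfsg.Agent.Lib.ECP.Gen

/-!
# Extremely closed abelian `p`-subgroups: the small cases `|H| ∈ {3, 5, 7}`
-/

set_option autoImplicit false
set_option linter.unusedSectionVars false
set_option linter.style.haveILetI false

namespace Cfsg.Agent.Lib.ECP

open Cfsg Subgroup
open Cfsg.Agent.Lib.ZStar.EC (cj mem_cj conj_mem_cj card_cj cj_cj cj_one cj_eq_self_of_normalizer
  mem_normalizer_of_cj_eq exists_sum_eq three_mul_le)
open Cfsg.Agent.Lib.Blocks.Central Cfsg.Agent.Lib.Blocks.Weak Cfsg.Agent.Lib.Blocks.Third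
open Cfsg.Agent.Lib.Blocks.General
open Cfsg.Agent.Lib.ZStar.Section
open scoped ComplexConjugate

universe u

/-! ### Numerics -/

theorem num5 {α β : ℝ} (h : 2 * (α * β) = α + β) (hα : |α| ≤ 1) (hβ : |β| ≤ 1)
    (ht : 1 + 2 * (α + β) ≤ 10 / 3) : 1 + 2 * (α + β) < 2 := by
  by_contra hlt
  push Not at hlt
  have h1 : 1 / 2 ≤ α + β := by linarith
  have h2 : 1 / 4 ≤ α * β := by linarith
  obtain ⟨ha1, ha2⟩ := abs_le.mp hα
  obtain ⟨hb1, hb2⟩ := abs_le.mp hβ
  have hapos : 0 < α := by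
    by_contra hneg
    push Not at hneg
    have hbpos : 0 < β := by linarith
    have : α * β ≤ 0 := mul_nonpos_of_nonpos_of_nonneg hneg hbpos.le
    linarith
  have hbpos : 0 < β := by
    by_contra hneg
    push Not at hneg
    have : α * β ≤ 0 := mul_nonpos_of_nonneg_of_nonpos hapos.le hneg
    linarith
  have h3 : 0 ≤ α * (1 - β) := mul_nonneg hapos.le (by linarith)
  have h4 : 0 ≤ β * (1 - α) := mul_nonneg hbpos.le (by linarith)
  have h5 : α * (1 - β) + β * (1 - α) = 0 := by linear_combination -h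
  have h6 : α * (1 - β) = 0 := by linarith
  have h7 : β * (1 - α) = 0 := by linarith
  have h8 : β = 1 := by
    have := (mul_eq_zero.mp h6).resolve_left hapos.ne'
    linarith
  have h9 : α = 1 := by
    have := (mul_eq_zero.mp h7).resolve_left hbpos.ne'
    linarith
  rw [h8, h9] at ht
  norm_num at ht

theorem num7a {a b c : ℝ} (h1 : 2 * (a * b) = c + a) (h2 : 2 * (a * c) = c + b)
    (h3 : 2 * (b * c) = b + a) (ht : 1 + 2 * (a + b + c) ≤ 14 / 3) :
    1 + 2 * (a + b + c) < 3 := by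
  set s := a + b + c with hs
  have key : s * (2 * s + 1) * (s - 3) = 0 := by
    rw [hs]
    linear_combination (3 / 2 + 2 * c - 2 * c ^ 2 + 3 * b + 2 * b * c + 2 * a + 2 * a * c) * h1 +
      (3 / 2 + 3 * c + 2 * b + 2 * b * c - 2 * b ^ 2 + 4 * a) * h2 +
      (3 / 2 + 5 * c + 3 * b + 3 * a - 2 * a ^ 2) * h3
  rcases mul_eq_zero.mp key with h | h
  · rcases mul_eq_zero.mp h with h | h
    · rw [h]
      norm_num
    · have : s = -1 / 2 := by linarith
      rw [this]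
      norm_num
  · have : s = 3 := by linarith
    rw [this] at ht
    norm_num at ht

theorem num7b {u v : ℝ} (h1 : 3 * (u ^ 2 - v ^ 2) = 3 * u) (h2 : 6 * u * v = -v)
    (ht : 1 + 6 * u ≤ 14 / 3) : 1 + 6 * u < 3 := by
  by_cases hv : v = 0
  · subst hv
    have h3 : u * (u - 1) = 0 := by linear_combination h1 / 3
    rcases mul_eq_zero.mp h3 with h | h
    · rw [h]
      norm_num
    · have : u = 1 := by linarith
      rw [this] at ht
      norm_num at ht
  · have h3 : (6 * u + 1) * v = 0 := by linear_combination h2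
    have h4 := (mul_eq_zero.mp h3).resolve_right hv
    linarith

variable {G : Type u} [Group G] [Fintype G] [Fintype (IrrCharacter G)]
variable {H : Subgroup G} [Fintype H] {p : ℕ} [hp : Fact p.Prime]

section real

variable {M : Ideal AlgInt} {m d : IrrCharacter G → ℕ} {Lr : ℝ}

/-- `∑ d g = 0`. -/
theorem sum_d_g (hM : IsPModular p M) (hH : IsPGroup p H)
    (hm : ∀ χ, tH H χ = (Nat.card H : ℂ) * m χ)
    (hd : ∀ χ : IrrCharacter G, (χ : G → ℂ) 1 = d χ) :
    ∑ χ ∈ BB M G, (d χ : ℝ) * gg H m d χ = 0 := by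
  classical
  apply Complex.ofReal_injective
  push_cast
  have hS : ∀ χ : IrrCharacter G, tH H χ - (χ : G → ℂ) 1 =
      ∑ a ∈ Finset.univ.erase (1 : H), (χ : G → ℂ) a := by
    intro χ
    rw [Finset.sum_erase_eq_sub (Finset.mem_univ _)]
    rfl
  have h1 : ∀ χ ∈ BB M G, (d χ : ℂ) * ((gg H m d χ : ℝ) : ℂ) =
      ∑ a ∈ Finset.univ.erase (1 : H), (χ : G → ℂ) 1 * conj ((χ : G → ℂ) a) := by
    intro χ _
    rw [← Finset.mul_sum, ← map_sum, ← hS, tH_sub_one_eq hm hd, Complex.conj_ofReal, hd]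
  rw [Finset.sum_congr rfl h1, Finset.sum_comm]
  apply Finset.sum_eq_zero
  intro a ha
  have ha1 : (a : G) ≠ 1 := fun h => (Finset.ne_of_mem_erase ha) (Subtype.ext h)
  have h2 := secSum_one_eq_zero hM (orderOf_two_pow hH a.2) ha1
  rw [secSum_eq_sum] at h2
  exact h2

/-- If all nonidentity elements of `H` are conjugate, three conjugates of `H` do not generate. -/
theorem not_full (hM : IsPModular p M) (hH : IsPGroup p H)
    (hab : IsMulCommutative H) (hcl : IsExtremelyClosed H) (hIH : CentHyp p H) {a b : G}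
    (htop : H ⊔ cj a H ⊔ cj b H = ⊤) {x : G} (hx : x ∈ H) (hq3 : 3 ≤ Nat.card H)
    (hfull : ∀ y ∈ H, y ≠ 1 → IsConj y x)
    (hm : ∀ χ, tH H χ = (Nat.card H : ℂ) * m χ)
    (hd : ∀ χ : IrrCharacter G, (χ : G → ℂ) 1 = d χ) (hdpos : ∀ χ, 0 < d χ)
    (hL : ∀ h ∈ H, h ≠ 1 → Lv M H h = (Lr : ℂ)) : False := by
  classical
  set q : ℝ := ((Nat.card H : ℕ) : ℝ) with hq
  have hq3' : (3 : ℝ) ≤ q := by rw [hq]; exact_mod_cast hq3
  have h1 := sum_erase_tau hM hH hab hcl hIH hm hd hL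
  rw [← hq] at h1
  have h2 := sum_d_g hM hH hm hd
  rw [← Finset.add_sum_erase _ _ (oneI_mem_BB hM)] at h2
  have hg1 : gg H m d (oneI G) = q - 1 := by
    simp [gg, m_oneI hm, d_oneI hd, hq]
  have hd1 : (d (oneI G) : ℝ) = 1 := by
    rw [d_oneI hd]
    simp
  rw [hg1, hd1] at h2
  have h3 : ∑ χ ∈ (BB M G).erase (oneI G), (d χ : ℝ) * gg H m d χ < 0 := by linarith
  obtain ⟨χ₁, hχ₁, hneg⟩ : ∃ χ ∈ (BB M G).erase (oneI G), (d χ : ℝ) * gg H m d χ < 0 := by
    by_contra hno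
    push Not at hno
    have := Finset.sum_nonneg hno
    linarith
  have hdr : (0 : ℝ) < d χ₁ := by exact_mod_cast hdpos χ₁
  have hgneg : gg H m d χ₁ < 0 := by
    by_contra h
    push Not at h
    have := mul_nonneg hdr.le h
    linarith
  -- the value is an integer
  have hq1 : Nat.card H - 1 ≠ 0 := by omega
  have hq1c : ((Nat.card H - 1 : ℕ) : ℝ) = q - 1 := by
    rw [Nat.cast_sub (by omega), hq]
    simp
  have hq1C : ((Nat.card H - 1 : ℕ) : ℂ) = ((q - 1 : ℝ) : ℂ) := by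
    rw [← hq1c]
    simp
  have hval : ((gg H m d χ₁ : ℝ) : ℂ) = ((Nat.card H - 1 : ℕ) : ℂ) * (χ₁ : G → ℂ) x := by
    rw [← tH_sub_one_eq hm hd]
    have hS : tH H χ₁ - (χ₁ : G → ℂ) 1 =
        ∑ a ∈ Finset.univ.erase (1 : H), (χ₁ : G → ℂ) a := by
      rw [Finset.sum_erase_eq_sub (Finset.mem_univ _)]
      rfl
    rw [hS]
    have hc : ∀ a ∈ Finset.univ.erase (1 : H), (χ₁ : G → ℂ) a = (χ₁ : G → ℂ) x := by
      intro a ha
      have ha1 : (a : G) ≠ 1 := fun h => (Finset.ne_of_mem_erase ha) (Subtype.ext h)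
      obtain ⟨t, ht⟩ := isConj_iff.mp (hfull a a.2 ha1)
      rw [← ht, Cfsg.Agent.Lib.Char.Basic.isClassFunction_of_isIrrCharacter χ₁.2]
    rw [Finset.sum_congr rfl hc, Finset.sum_const, nsmul_eq_mul, Finset.card_erase_of_mem
      (Finset.mem_univ _), Finset.card_univ, ← Nat.card_eq_fintype_card]
  -- the integer `n = - g`
  have hgz : gg H m d χ₁ = ((Nat.card H * m χ₁ : ℕ) : ℝ) - (d χ₁ : ℝ) := by
    simp [gg]
  have hlt : Nat.card H * m χ₁ < d χ₁ := by
    have : ((Nat.card H * m χ₁ : ℕ) : ℝ) < (d χ₁ : ℝ) := by linarith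
    exact_mod_cast this
  set n : ℕ := d χ₁ - Nat.card H * m χ₁ with hn
  have hnr : (n : ℝ) = - gg H m d χ₁ := by
    rw [hgz, hn, Nat.cast_sub hlt.le]
    ring
  have hnC : (n : ℂ) = - ((gg H m d χ₁ : ℝ) : ℂ) := by
    have := congrArg (fun r : ℝ => (r : ℂ)) hnr
    simpa using this
  have hint : IsIntegral ℤ ((n : ℂ) / ((Nat.card H - 1 : ℕ) : ℂ)) := by
    have hne : ((Nat.card H - 1 : ℕ) : ℂ) ≠ 0 := Nat.cast_ne_zero.mpr hq1
    rw [hnC, hval]
    have : -(((Nat.card H - 1 : ℕ) : ℂ) * (χ₁ : G → ℂ) x) / ((Nat.card H - 1 : ℕ) : ℂ) =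
        - (χ₁ : G → ℂ) x := by
      field_simp
    rw [this]
    exact (isIntegral_value χ₁ x).neg
  have hdvd := Cfsg.Agent.Lib.Char.Central.nat_dvd_of_isIntegral_div hq1 hint
  have hnpos : 0 < n := by rw [hn]; omega
  have hle := Nat.le_of_dvd hnpos hdvd
  have hler : q - 1 ≤ n := by
    rw [← hq1c]
    exact_mod_cast hle
  -- the contradiction
  have hsq : (q - 1) ^ 2 ≤ gg H m d χ₁ ^ 2 := by
    have : gg H m d χ₁ ^ 2 = (n : ℝ) ^ 2 := by rw [hnr]; ring
    rw [this]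
    have hq0 : 0 ≤ q - 1 := by linarith
    nlinarith
  have htt : tt H m d χ₁ < 1 := by
    unfold tt
    rw [div_lt_one hdr]
    have : gg H m d χ₁ = (Nat.card H : ℝ) * m χ₁ - d χ₁ := rfl
    linarith
  have hnn : ∀ χ ∈ (BB M G).erase (oneI G), 0 ≤ gg H m d χ ^ 2 * (q - 1 - tt H m d χ) := by
    intro χ hχ
    have h4 := tt_le hm hd hdpos htop (Finset.ne_of_mem_erase hχ)
    rw [← hq] at h4
    exact mul_nonneg (sq_nonneg _) (by linarith)
  have h5 := Finset.single_le_sum hnn hχ₁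
  rw [h1] at h5
  have h6 : 1 < q - 1 - tt H m d χ₁ := by linarith
  have h7 : 0 < (q - 1) ^ 2 := by
    have : 0 < q - 1 := by linarith
    positivity
  nlinarith

end real

section cyc

variable {x : G} (hord : orderOf x = p) (hx : x ∈ H) (hHx : ∀ a ∈ H, ∃ k : ℕ, a = x ^ k)

include hord hHx in
theorem iso_of_lam (h : ∀ i ∈ Lam (p := p) x, i = 1) : Iso H x := by
  intro a ha hc
  obtain ⟨i, rfl⟩ := exists_pw_of_mem hord hHx ha
  have h1 : i ∈ Lam (p := p) x := mem_Lam.mpr hc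
  rw [h i h1, pw_one]

include hord hHx in
theorem full_of_lam (h : ∀ i : ZMod p, i ≠ 0 → i ∈ Lam (p := p) x) :
    ∀ y ∈ H, y ≠ 1 → IsConj y x := by
  intro y hy hy1
  obtain ⟨i, rfl⟩ := exists_pw_of_mem hord hHx hy
  have hi : i ≠ 0 := by
    rintro rfl
    exact hy1 (pw_zero x)
  exact mem_Lam.mp (h i hi)

end cyc

end Cfsg.Agent.Lib.ECP
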