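import Mathlib
import Cfsg.Agent.Lib.ECP.Small
import Cfsg.Agent.Lib.BlockH.Basic

/-!
# Extremely closed abelian `p`-subgroups: an isolated element when three conjugates generate
-/

set_option autoImplicit false
set_option linter.unusedSectionVars false
set_option linter.style.haveILetI false

namespace Cfsg.Agent.Lib.ECP

open Cfsg Subgroup
open Cfsg.Agent.Lib.ZStar.EC (cj mem_cj conj_mem_cj card_cj cj_cj cj_one cj_eq_self_of_normalizer
  mem_normalizer_of_cj_eq exists_sum_eq three_mul_le)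
open Cfsg.Agent.Lib.Blocks.Central Cfsg.Agent.Lib.Blocks.Weak Cfsg.Agent.Lib.Blocks.Third
open Cfsg.Agent.Lib.Blocks.General
open Cfsg.Agent.Lib.ZStar.Section
open scoped ComplexConjugate

universe u

local instance fact_prime_five : Fact (Nat.Prime 5) := ⟨by norm_num⟩
local instance fact_prime_seven : Fact (Nat.Prime 7) := ⟨by norm_num⟩

theorem sum_zmod3 (f : ZMod 3 → ℂ) : ∑ i, f i = f 0 + f 1 + f 2 := by
  have : (Finset.univ : Finset (ZMod 3)) = {0, 1, 2} := by decide
  rw [this, Finset.sum_insert (by decide), Finset.sum_insert (by decide), Finset.sum_singleton]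
  ring

theorem sum_zmod5 (f : ZMod 5 → ℂ) : ∑ i, f i = f 0 + f 1 + f 2 + f 3 + f 4 := by
  have : (Finset.univ : Finset (ZMod 5)) = {0, 1, 2, 3, 4} := by decide
  rw [this, Finset.sum_insert (by decide), Finset.sum_insert (by decide),
    Finset.sum_insert (by decide), Finset.sum_insert (by decide), Finset.sum_singleton]
  ring

theorem sum_zmod7 (f : ZMod 7 → ℂ) :
    ∑ i, f i = f 0 + f 1 + f 2 + f 3 + f 4 + f 5 + f 6 := by
  have : (Finset.univ : Finset (ZMod 7)) = {0, 1, 2, 3, 4, 5, 6} := by decide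
  rw [this, Finset.sum_insert (by decide), Finset.sum_insert (by decide),
    Finset.sum_insert (by decide), Finset.sum_insert (by decide), Finset.sum_insert (by decide),
    Finset.sum_insert (by decide), Finset.sum_singleton]
  ring

variable {G : Type u} [Group G] [Fintype G] [Fintype (IrrCharacter G)]
variable {H : Subgroup G} [Fintype H]

section small

variable {M : Ideal AlgInt} {m d : IrrCharacter G → ℕ} {Lr : ℝ}

theorem real_of_conj {z : ℂ} (h : conj z = z) (hn : ‖z‖ ≤ 1) :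
    ∃ r : ℝ, z = r ∧ |r| ≤ 1 := by
  obtain ⟨r, hr⟩ := Complex.conj_eq_iff_real.mp h
  refine ⟨r, hr, ?_⟩
  rw [hr, Complex.norm_real] at hn
  exact hn

/-- `p = 3`. -/
theorem exists_iso_three (hM : IsPModular 3 M) (hH : IsPGroup 3 H)
    (hab : IsMulCommutative H) (hcl : IsExtremelyClosed H) (hIH : CentHyp 3 H) {a b : G}
    (htop : H ⊔ cj a H ⊔ cj b H = ⊤) {x : G} (hord : orderOf x = 3) (hx : x ∈ H)
    (hHx : ∀ a ∈ H, ∃ k : ℕ, a = x ^ k) (hcard : Nat.card H = 3)
    (hm : ∀ χ, tH H χ = (Nat.card H : ℂ) * m χ)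
    (hd : ∀ χ : IrrCharacter G, (χ : G → ℂ) 1 = d χ) (hdpos : ∀ χ, 0 < d χ)
    (hL : ∀ h ∈ H, h ≠ 1 → Lv M H h = (Lr : ℂ)) : Iso H x := by
  classical
  by_cases h2 : (2 : ZMod 3) ∈ Lam (p := 3) x
  · exfalso
    have hone : (1 : ZMod 3) ∈ Lam (p := 3) x := one_mem_Lam
    have hall : ∀ i : ZMod 3, i ≠ 0 → i ∈ Lam (p := 3) x := by
      have hc : ∀ i : ZMod 3, i ≠ 0 → i = 1 ∨ i = 2 := by decide
      intro i hi
      rcases hc i hi with rfl | rfl
      · exact hone
      · exact h2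
    exact not_full hM hH hab hcl hIH htop hx (by omega) (full_of_lam hord hHx hall) hm hd hdpos hL
  · apply iso_of_lam hord hHx
    intro i hi
    have hc : ∀ i : ZMod 3, i = 0 ∨ i = 1 ∨ i = 2 := by decide
    have hx1 : x ≠ 1 := by
      rintro rfl
      simp at hord
    rcases hc i with rfl | rfl | rfl
    · exact absurd hi (zero_notMem_Lam hord hx1)
    · rfl
    · exact absurd hi h2

/-- `p = 5`, `Λ = {1, 4}`. -/
theorem tt_lt_five (hM : IsPModular 5 M) (hH : IsPGroup 5 H)
    (hab : IsMulCommutative H) (hcl : IsExtremelyClosed H) (hIH : CentHyp 5 H) {a b : G}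
    (htop : H ⊔ cj a H ⊔ cj b H = ⊤) {x : G} (hord : orderOf x = 5) (hx : x ∈ H)
    (hHx : ∀ a ∈ H, ∃ k : ℕ, a = x ^ k) (hcard : Nat.card H = 5)
    (hm : ∀ χ, tH H χ = (Nat.card H : ℂ) * m χ)
    (hd : ∀ χ : IrrCharacter G, (χ : G → ℂ) 1 = d χ) (hdpos : ∀ χ, 0 < d χ)
    (hLam : Lam (p := 5) x = {1, 4}) {χ : IrrCharacter G} (hχ : χ ∈ (BB M G).erase (oneI G)) :
    tt H m d χ < ((Nat.card H : ℝ) - 1) / 2 := by
  classical
  have hχb : χ ∈ principalBlock M G := mem_BB.mp (Finset.mem_of_mem_erase hχ)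
  have hχ1 : χ ≠ oneI G := Finset.ne_of_mem_erase hχ
  have h4L : (4 : ZMod 5) ∈ Lam (p := 5) x := by rw [hLam]; decide
  have e4 : AA (p := 5) x χ 4 = AA (p := 5) x χ 1 := by
    have := AA_lam (χ := χ) hord h4L 1
    rwa [show (4 : ZMod 5) * 1 = 4 from by decide] at this
  have e3 : AA (p := 5) x χ 3 = AA (p := 5) x χ 2 := by
    have := AA_lam (χ := χ) hord h4L 2
    rwa [show (4 : ZMod 5) * 2 = 3 from by decide] at this
  have c1 : conj (AA (p := 5) x χ 1) = AA (p := 5) x χ 1 := by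
    have := AA_neg (χ := χ) hord (1 : ZMod 5)
    rw [show (-1 : ZMod 5) = 4 from by decide, e4] at this
    exact this.symm
  have c2 : conj (AA (p := 5) x χ 2) = AA (p := 5) x χ 2 := by
    have := AA_neg (χ := χ) hord (2 : ZMod 5)
    rw [show (-2 : ZMod 5) = 3 from by decide, e3] at this
    exact this.symm
  obtain ⟨α, hα, hα1⟩ := real_of_conj c1 (AA_norm 1)
  obtain ⟨β, hβ, hβ1⟩ := real_of_conj c2 (AA_norm 2)
  have hrel := rel_AA (χ := χ) hord hx hHx hM hH hab hcl hIH (i := 1) (j := 2) (by decide)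
    (by rw [hLam]; decide) hχb
  rw [hLam, Finset.sum_pair (by decide), Finset.card_pair (by decide),
    show (1 : ZMod 5) + 1 * 2 = 3 from by decide, show (1 : ZMod 5) + 4 * 2 = 4 from by decide,
    e3, e4, hα, hβ] at hrel
  have hrel' : 2 * (α * β) = α + β := by
    apply Complex.ofReal_injective
    push_cast
    push_cast at hrel
    linear_combination hrel
  have hs := sum_AA (χ := χ) hord hx hHx
  rw [tH_div_one_eq hm hd, sum_zmod5, e3, e4, AA_zero, hα, hβ] at hs
  have hs' : tt H m d χ = 1 + 2 * (α + β) := by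
    apply Complex.ofReal_injective
    push_cast
    rw [hs]
    ring
  have hle := tt_le hm hd hdpos htop hχ1
  rw [hcard] at hle ⊢
  push_cast at hle ⊢
  rw [hs'] at hle ⊢
  have := num5 hrel' hα1 hβ1 (by linarith)
  linarith

/-- `p = 5`. -/
theorem exists_iso_five (hM : IsPModular 5 M) (hH : IsPGroup 5 H)
    (hab : IsMulCommutative H) (hcl : IsExtremelyClosed H) (hIH : CentHyp 5 H) {a b : G}
    (htop : H ⊔ cj a H ⊔ cj b H = ⊤) {x : G} (hord : orderOf x = 5) (hx : x ∈ H)
    (hHx : ∀ a ∈ H, ∃ k : ℕ, a = x ^ k) (hcard : Nat.card H = 5)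
    (hm : ∀ χ, tH H χ = (Nat.card H : ℂ) * m χ)
    (hd : ∀ χ : IrrCharacter G, (χ : G → ℂ) 1 = d χ) (hdpos : ∀ χ, 0 < d χ)
    (hL : ∀ h ∈ H, h ≠ 1 → Lv M H h = (Lr : ℂ)) :
    ∃ y ∈ H, y ≠ 1 ∧ Iso H y := by
  classical
  have hx1 : x ≠ 1 := by
    rintro rfl
    simp at hord
  have hne : H ≠ ⊥ := by
    rintro rfl
    exact hx1 (by simpa using hx)
  have hone : (1 : ZMod 5) ∈ Lam (p := 5) x := one_mem_Lam
  have hzero : (0 : ZMod 5) ∉ Lam (p := 5) x := zero_notMem_Lam hord hx1
  have hmul : ∀ {l l' : ZMod 5}, l ∈ Lam (p := 5) x → l' ∈ Lam (p := 5) x →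
      l * l' ∈ Lam (p := 5) x := fun h1 h2 => mul_mem_Lam hord h1 h2
  have hfull : ¬ ∀ i : ZMod 5, i ≠ 0 → i ∈ Lam (p := 5) x := fun hall =>
    not_full hM hH hab hcl hIH htop hx (by omega) (full_of_lam hord hHx hall) hm hd hdpos hL
  have hc : ∀ i : ZMod 5, i = 0 ∨ i = 1 ∨ i = 2 ∨ i = 3 ∨ i = 4 := by decide
  have h2 : (2 : ZMod 5) ∉ Lam (p := 5) x := by
    intro h
    apply hfull
    have h4 : (4 : ZMod 5) ∈ Lam (p := 5) x := by
      have := hmul h h
      rwa [show (2 : ZMod 5) * 2 = 4 from by decide] at this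
    have h3 : (3 : ZMod 5) ∈ Lam (p := 5) x := by
      have := hmul h h4
      rwa [show (2 : ZMod 5) * 4 = 3 from by decide] at this
    intro i hi
    rcases hc i with rfl | rfl | rfl | rfl | rfl
    · exact absurd rfl hi
    · exact hone
    · exact h
    · exact h3
    · exact h4
  have h3 : (3 : ZMod 5) ∉ Lam (p := 5) x := by
    intro h
    apply h2
    have := hmul (hmul h h) h
    rwa [show (3 : ZMod 5) * 3 * 3 = 2 from by decide] at this
  by_cases h4 : (4 : ZMod 5) ∈ Lam (p := 5) x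
  · have hLam : Lam (p := 5) x = {1, 4} := by
      ext i
      rcases hc i with rfl | rfl | rfl | rfl | rfl
      · exact iff_of_false hzero (by decide)
      · exact iff_of_true hone (by decide)
      · exact iff_of_false h2 (by decide)
      · exact iff_of_false h3 (by decide)
      · exact iff_of_true h4 (by decide)
    exact exists_iso_of_tt_lt hM hH hab hcl hIH hne hm hd hL (by omega)
      (fun χ hχ => tt_lt_five hM hH hab hcl hIH htop hord hx hHx hcard hm hd hdpos hLam hχ)
  · refine ⟨x, hx, hx1, iso_of_lam hord hHx ?_⟩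
    intro i hi
    rcases hc i with rfl | rfl | rfl | rfl | rfl
    · exact absurd hi hzero
    · rfl
    · exact absurd hi h2
    · exact absurd hi h3
    · exact absurd hi h4

/-- `p = 7`, `Λ = {1, 6}`. -/
theorem tt_lt_seven_a (hM : IsPModular 7 M) (hH : IsPGroup 7 H)
    (hab : IsMulCommutative H) (hcl : IsExtremelyClosed H) (hIH : CentHyp 7 H) {a b : G}
    (htop : H ⊔ cj a H ⊔ cj b H = ⊤) {x : G} (hord : orderOf x = 7) (hx : x ∈ H)
    (hHx : ∀ a ∈ H, ∃ k : ℕ, a = x ^ k) (hcard : Nat.card H = 7)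
    (hm : ∀ χ, tH H χ = (Nat.card H : ℂ) * m χ)
    (hd : ∀ χ : IrrCharacter G, (χ : G → ℂ) 1 = d χ) (hdpos : ∀ χ, 0 < d χ)
    (hLam : Lam (p := 7) x = {1, 6}) {χ : IrrCharacter G} (hχ : χ ∈ (BB M G).erase (oneI G)) :
    tt H m d χ < ((Nat.card H : ℝ) - 1) / 2 := by
  classical
  have hχb : χ ∈ principalBlock M G := mem_BB.mp (Finset.mem_of_mem_erase hχ)
  have hχ1 : χ ≠ oneI G := Finset.ne_of_mem_erase hχ
  have h6L : (6 : ZMod 7) ∈ Lam (p := 7) x := by rw [hLam]; decide
  have e6 : AA (p := 7) x χ 6 = AA (p := 7) x χ 1 := by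
    have := AA_lam (χ := χ) hord h6L 1
    rwa [show (6 : ZMod 7) * 1 = 6 from by decide] at this
  have e5 : AA (p := 7) x χ 5 = AA (p := 7) x χ 2 := by
    have := AA_lam (χ := χ) hord h6L 2
    rwa [show (6 : ZMod 7) * 2 = 5 from by decide] at this
  have e4 : AA (p := 7) x χ 4 = AA (p := 7) x χ 3 := by
    have := AA_lam (χ := χ) hord h6L 3
    rwa [show (6 : ZMod 7) * 3 = 4 from by decide] at this
  have c1 : conj (AA (p := 7) x χ 1) = AA (p := 7) x χ 1 := by
    have := AA_neg (χ := χ) hord (1 : ZMod 7)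
    rw [show (-1 : ZMod 7) = 6 from by decide, e6] at this
    exact this.symm
  have c2 : conj (AA (p := 7) x χ 2) = AA (p := 7) x χ 2 := by
    have := AA_neg (χ := χ) hord (2 : ZMod 7)
    rw [show (-2 : ZMod 7) = 5 from by decide, e5] at this
    exact this.symm
  have c3 : conj (AA (p := 7) x χ 3) = AA (p := 7) x χ 3 := by
    have := AA_neg (χ := χ) hord (3 : ZMod 7)
    rw [show (-3 : ZMod 7) = 4 from by decide, e4] at this
    exact this.symm
  obtain ⟨α, hα, -⟩ := real_of_conj c1 (AA_norm 1)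
  obtain ⟨β, hβ, -⟩ := real_of_conj c2 (AA_norm 2)
  obtain ⟨γ, hγ, -⟩ := real_of_conj c3 (AA_norm 3)
  have hr1 := rel_AA (χ := χ) hord hx hHx hM hH hab hcl hIH (i := 1) (j := 2) (by decide)
    (by rw [hLam]; decide) hχb
  rw [hLam, Finset.sum_pair (by decide), Finset.card_pair (by decide),
    show (1 : ZMod 7) + 1 * 2 = 3 from by decide, show (1 : ZMod 7) + 6 * 2 = 6 from by decide,
    e6, hα, hβ, hγ] at hr1
  have hr2 := rel_AA (χ := χ) hord hx hHx hM hH hab hcl hIH (i := 1) (j := 3) (by decide)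
    (by rw [hLam]; decide) hχb
  rw [hLam, Finset.sum_pair (by decide), Finset.card_pair (by decide),
    show (1 : ZMod 7) + 1 * 3 = 4 from by decide, show (1 : ZMod 7) + 6 * 3 = 5 from by decide,
    e4, e5, hα, hβ, hγ] at hr2
  have hr3 := rel_AA (χ := χ) hord hx hHx hM hH hab hcl hIH (i := 2) (j := 3) (by decide)
    (by rw [hLam]; decide) hχb
  rw [hLam, Finset.sum_pair (by decide), Finset.card_pair (by decide),
    show (2 : ZMod 7) + 1 * 3 = 5 from by decide, show (2 : ZMod 7) + 6 * 3 = 6 from by decide,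
    e5, e6, hα, hβ, hγ] at hr3
  have h1' : 2 * (α * β) = γ + α := by
    apply Complex.ofReal_injective
    push_cast
    push_cast at hr1
    linear_combination hr1
  have h2' : 2 * (α * γ) = γ + β := by
    apply Complex.ofReal_injective
    push_cast
    push_cast at hr2
    linear_combination hr2
  have h3' : 2 * (β * γ) = β + α := by
    apply Complex.ofReal_injective
    push_cast
    push_cast at hr3
    linear_combination hr3
  have hs := sum_AA (χ := χ) hord hx hHx
  rw [tH_div_one_eq hm hd, sum_zmod7, e4, e5, e6, AA_zero, hα, hβ, hγ] at hs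
  have hs' : tt H m d χ = 1 + 2 * (α + β + γ) := by
    apply Complex.ofReal_injective
    push_cast
    rw [hs]
    ring
  have hle := tt_le hm hd hdpos htop hχ1
  rw [hcard] at hle ⊢
  push_cast at hle ⊢
  rw [hs'] at hle ⊢
  have := num7a h1' h2' h3' (by linarith)
  linarith

/-- `p = 7`, `Λ = {1, 2, 4}`. -/
theorem tt_lt_seven_b (hM : IsPModular 7 M) (hH : IsPGroup 7 H)
    (hab : IsMulCommutative H) (hcl : IsExtremelyClosed H) (hIH : CentHyp 7 H) {a b : G}
    (htop : H ⊔ cj a H ⊔ cj b H = ⊤) {x : G} (hord : orderOf x = 7) (hx : x ∈ H)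
    (hHx : ∀ a ∈ H, ∃ k : ℕ, a = x ^ k) (hcard : Nat.card H = 7)
    (hm : ∀ χ, tH H χ = (Nat.card H : ℂ) * m χ)
    (hd : ∀ χ : IrrCharacter G, (χ : G → ℂ) 1 = d χ) (hdpos : ∀ χ, 0 < d χ)
    (hLam : Lam (p := 7) x = {1, 2, 4}) {χ : IrrCharacter G} (hχ : χ ∈ (BB M G).erase (oneI G)) :
    tt H m d χ < ((Nat.card H : ℝ) - 1) / 2 := by
  classical
  have hχb : χ ∈ principalBlock M G := mem_BB.mp (Finset.mem_of_mem_erase hχ)
  have hχ1 : χ ≠ oneI G := Finset.ne_of_mem_erase hχ
  have h2L : (2 : ZMod 7) ∈ Lam (p := 7) x := by rw [hLam]; decide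
  have h4L : (4 : ZMod 7) ∈ Lam (p := 7) x := by rw [hLam]; decide
  have e2 : AA (p := 7) x χ 2 = AA (p := 7) x χ 1 := by
    have := AA_lam (χ := χ) hord h2L 1
    rwa [show (2 : ZMod 7) * 1 = 2 from by decide] at this
  have e4 : AA (p := 7) x χ 4 = AA (p := 7) x χ 1 := by
    have := AA_lam (χ := χ) hord h4L 1
    rwa [show (4 : ZMod 7) * 1 = 4 from by decide] at this
  have e6 : AA (p := 7) x χ 6 = conj (AA (p := 7) x χ 1) := by
    have := AA_neg (χ := χ) hord (1 : ZMod 7)
    rwa [show (-1 : ZMod 7) = 6 from by decide] at this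
  have e5 : AA (p := 7) x χ 5 = conj (AA (p := 7) x χ 1) := by
    have := AA_neg (χ := χ) hord (2 : ZMod 7)
    rwa [show (-2 : ZMod 7) = 5 from by decide, e2] at this
  have e3 : AA (p := 7) x χ 3 = conj (AA (p := 7) x χ 1) := by
    have := AA_neg (χ := χ) hord (4 : ZMod 7)
    rwa [show (-4 : ZMod 7) = 3 from by decide, e4] at this
  have hrel := rel_AA (χ := χ) hord hx hHx hM hH hab hcl hIH (i := 1) (j := 1) (by decide)
    (by rw [hLam]; decide) hχb
  rw [hLam, Finset.sum_insert (by decide), Finset.sum_pair (by decide),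
    Finset.card_insert_of_notMem (by decide), Finset.card_pair (by decide),
    show (1 : ZMod 7) + 1 * 1 = 2 from by decide, show (1 : ZMod 7) + 2 * 1 = 3 from by decide,
    show (1 : ZMod 7) + 4 * 1 = 5 from by decide, e2, e3, e5] at hrel
  set A := AA (p := 7) x χ 1 with hA
  have hre := congrArg Complex.re hrel
  have him := congrArg Complex.im hrel
  simp only [Complex.add_re, Complex.mul_re, Complex.add_im, Complex.mul_im, Complex.conj_re,
    Complex.conj_im] at hre him
  norm_num at hre him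
  have hre' : 3 * (A.re ^ 2 - A.im ^ 2) = 3 * A.re := by linear_combination hre
  have him' : 6 * A.re * A.im = -A.im := by linear_combination him
  have hs := sum_AA (χ := χ) hord hx hHx
  rw [tH_div_one_eq hm hd, sum_zmod7, e2, e3, e4, e5, e6, AA_zero] at hs
  have hs' : tt H m d χ = 1 + 6 * A.re := by
    have := congrArg Complex.re hs
    simp only [Complex.ofReal_re, Complex.add_re, Complex.one_re, Complex.conj_re] at this
    rw [this]
    ring
  have hle := tt_le hm hd hdpos htop hχ1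
  rw [hcard] at hle ⊢
  push_cast at hle ⊢
  rw [hs'] at hle ⊢
  have := num7b hre' him' (by linarith)
  linarith

/-- `p = 7`. -/
theorem exists_iso_seven (hM : IsPModular 7 M) (hH : IsPGroup 7 H)
    (hab : IsMulCommutative H) (hcl : IsExtremelyClosed H) (hIH : CentHyp 7 H) {a b : G}
    (htop : H ⊔ cj a H ⊔ cj b H = ⊤) {x : G} (hord : orderOf x = 7) (hx : x ∈ H)
    (hHx : ∀ a ∈ H, ∃ k : ℕ, a = x ^ k) (hcard : Nat.card H = 7)
    (hm : ∀ χ, tH H χ = (Nat.card H : ℂ) * m χ)
    (hd : ∀ χ : IrrCharacter G, (χ : G → ℂ) 1 = d χ) (hdpos : ∀ χ, 0 < d χ)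
    (hL : ∀ h ∈ H, h ≠ 1 → Lv M H h = (Lr : ℂ)) :
    ∃ y ∈ H, y ≠ 1 ∧ Iso H y := by
  classical
  have hx1 : x ≠ 1 := by
    rintro rfl
    simp at hord
  have hne : H ≠ ⊥ := by
    rintro rfl
    exact hx1 (by simpa using hx)
  have hone : (1 : ZMod 7) ∈ Lam (p := 7) x := one_mem_Lam
  have hzero : (0 : ZMod 7) ∉ Lam (p := 7) x := zero_notMem_Lam hord hx1
  have hmul : ∀ {l l' : ZMod 7}, l ∈ Lam (p := 7) x → l' ∈ Lam (p := 7) x →
      l * l' ∈ Lam (p := 7) x := fun h1 h2 => mul_mem_Lam hord h1 h2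
  have hfull : ¬ ∀ i : ZMod 7, i ≠ 0 → i ∈ Lam (p := 7) x := fun hall =>
    not_full hM hH hab hcl hIH htop hx (by omega) (full_of_lam hord hHx hall) hm hd hdpos hL
  have hc : ∀ i : ZMod 7, i = 0 ∨ i = 1 ∨ i = 2 ∨ i = 3 ∨ i = 4 ∨ i = 5 ∨ i = 6 := by decide
  have hmul' : ∀ {l l' r : ZMod 7}, l * l' = r → l ∈ Lam (p := 7) x → l' ∈ Lam (p := 7) x →
      r ∈ Lam (p := 7) x := fun e h1 h2 => e ▸ hmul h1 h2
  have hfull3 : (3 : ZMod 7) ∉ Lam (p := 7) x := by
    intro h3
    apply hfull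
    have h2 : (2 : ZMod 7) ∈ Lam (p := 7) x := hmul' (l := 3) (l' := 3) (by decide) h3 h3
    have h6 : (6 : ZMod 7) ∈ Lam (p := 7) x := hmul' (l := 3) (l' := 2) (by decide) h3 h2
    have h4 : (4 : ZMod 7) ∈ Lam (p := 7) x := hmul' (l := 3) (l' := 6) (by decide) h3 h6
    have h5 : (5 : ZMod 7) ∈ Lam (p := 7) x := hmul' (l := 3) (l' := 4) (by decide) h3 h4
    intro i hi
    rcases hc i with rfl | rfl | rfl | rfl | rfl | rfl | rfl
    · exact absurd rfl hi
    · exact hone
    · exact h2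
    · exact h3
    · exact h4
    · exact h5
    · exact h6
  have h5' : (5 : ZMod 7) ∉ Lam (p := 7) x := by
    intro h5
    apply hfull3
    have h4 : (4 : ZMod 7) ∈ Lam (p := 7) x := hmul' (l := 5) (l' := 5) (by decide) h5 h5
    exact hmul' (l := 5) (l' := 2) (by decide) h5 (hmul' (l := 4) (l' := 4) (by decide) h4 h4)
  have h24 : (2 : ZMod 7) ∈ Lam (p := 7) x ↔ (4 : ZMod 7) ∈ Lam (p := 7) x :=
    ⟨fun h => hmul' (l := 2) (l' := 2) (by decide) h h,
      fun h => hmul' (l := 4) (l' := 4) (by decide) h h⟩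
  have h62 : (6 : ZMod 7) ∈ Lam (p := 7) x → (2 : ZMod 7) ∈ Lam (p := 7) x → False := by
    intro h6 h2
    exact hfull3 (hmul' (l := 6) (l' := 4) (by decide) h6 (h24.mp h2))
  by_cases h6 : (6 : ZMod 7) ∈ Lam (p := 7) x
  · have h2 : (2 : ZMod 7) ∉ Lam (p := 7) x := h62 h6
    have h4 : (4 : ZMod 7) ∉ Lam (p := 7) x := fun h => h2 (h24.mpr h)
    have hLam : Lam (p := 7) x = {1, 6} := by
      ext i
      rcases hc i with rfl | rfl | rfl | rfl | rfl | rfl | rfl
      · exact iff_of_false hzero (by decide)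
      · exact iff_of_true hone (by decide)
      · exact iff_of_false h2 (by decide)
      · exact iff_of_false hfull3 (by decide)
      · exact iff_of_false h4 (by decide)
      · exact iff_of_false h5' (by decide)
      · exact iff_of_true h6 (by decide)
    exact exists_iso_of_tt_lt hM hH hab hcl hIH hne hm hd hL (by omega)
      (fun χ hχ => tt_lt_seven_a hM hH hab hcl hIH htop hord hx hHx hcard hm hd hdpos hLam hχ)
  · by_cases h2 : (2 : ZMod 7) ∈ Lam (p := 7) x
    · have h4 := h24.mp h2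
      have hLam : Lam (p := 7) x = {1, 2, 4} := by
        ext i
        rcases hc i with rfl | rfl | rfl | rfl | rfl | rfl | rfl
        · exact iff_of_false hzero (by decide)
        · exact iff_of_true hone (by decide)
        · exact iff_of_true h2 (by decide)
        · exact iff_of_false hfull3 (by decide)
        · exact iff_of_true h4 (by decide)
        · exact iff_of_false h5' (by decide)
        · exact iff_of_false h6 (by decide)
      exact exists_iso_of_tt_lt hM hH hab hcl hIH hne hm hd hL (by omega)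
        (fun χ hχ => tt_lt_seven_b hM hH hab hcl hIH htop hord hx hHx hcard hm hd hdpos hLam hχ)
    · have h4 : (4 : ZMod 7) ∉ Lam (p := 7) x := fun h => h2 (h24.mpr h)
      refine ⟨x, hx, hx1, iso_of_lam hord hHx ?_⟩
      intro i hi
      rcases hc i with rfl | rfl | rfl | rfl | rfl | rfl | rfl
      · exact absurd hi hzero
      · rfl
      · exact absurd hi h2
      · exact absurd hi hfull3
      · exact absurd hi h4
      · exact absurd hi h5'
      · exact absurd hi h6

end small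

/-- **Three conjugates which generate: an isolated element exists.** -/
theorem exists_iso_of_triple {p : ℕ} [hp : Fact p.Prime] (hp2 : p ≠ 2) (hH : IsPGroup p H)
    (hab : IsMulCommutative H) (hcl : IsExtremelyClosed H) (hIH : CentHyp p H) (hne : H ≠ ⊥)
    {a b : G} (htop : H ⊔ cj a H ⊔ cj b H = ⊤) : ∃ y ∈ H, y ≠ 1 ∧ Iso H y := by
  classical
  obtain ⟨M, hM⟩ := Cfsg.Agent.Lib.BlockH.Basic.exists_isPModular hp.out
  have hex1 : ∀ χ : IrrCharacter G, ∃ m : ℕ, tH H χ = (Nat.card H : ℂ) * m := fun χ =>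
    exists_sum_eq χ H
  choose m hm using hex1
  have hex2 : ∀ χ : IrrCharacter G, ∃ d : ℕ, 0 < d ∧ (χ : G → ℂ) 1 = d := fun χ =>
    Cfsg.Agent.Lib.Char.Complete.exists_pos_deg_of_isIrr χ.2
  choose d hdpos hd using hex2
  obtain ⟨⟨x₀, hx₀⟩, hx₀1'⟩ := (Subgroup.ne_bot_iff_exists_ne_one).mp hne
  have hx₀1 : x₀ ≠ 1 := fun h => hx₀1' (Subtype.ext h)
  obtain ⟨Lr, hL⟩ := exists_Lr hM hH hab hcl hIH hx₀ hx₀1
  have hq1 : 1 < Nat.card H := by
    have : Nontrivial H := by
      rw [Subgroup.nontrivial_iff_ne_bot]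
      exact hne
    exact Finite.one_lt_card
  by_cases h8 : 8 ≤ Nat.card H
  · exact exists_iso_of_tt_lt hM hH hab hcl hIH hne hm hd hL hq1
      (tt_lt_of_large hM hH hab hcl hIH hm hd hdpos htop h8)
  · -- `|H|` is an odd prime power below `8`: so it is the prime `p ∈ {3, 5, 7}`
    have hodd : p ≠ 2 := hp2
    obtain ⟨n, hn⟩ := hH.exists_card_eq
    have hp3 : 3 ≤ p := by
      have := hp.out.two_le
      omega
    have hn1 : n ≠ 0 := by
      rintro rfl
      rw [pow_zero] at hn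
      omega
    have hn2 : n = 1 := by
      by_contra hne1
      have h2 : 2 ≤ n := by omega
      have : p ^ 2 ≤ p ^ n := Nat.pow_le_pow_right (by omega) h2
      nlinarith
    subst hn2
    rw [pow_one] at hn
    have hp7 : p ≤ 7 := by omega
    have hp357 : p = 3 ∨ p = 5 ∨ p = 7 := by
      have hpp := hp.out
      interval_cases p <;> first | omega | (exfalso; revert hpp; decide)
    -- the generator
    have hx₀ord : orderOf x₀ = p := by
      have h1 : orderOf x₀ ∣ Nat.card H := by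
        have := orderOf_dvd_natCard (⟨x₀, hx₀⟩ : H)
        rwa [Subgroup.orderOf_mk] at this
      rw [hn] at h1
      rcases (Nat.dvd_prime hp.out).mp h1 with h | h
      · exact absurd (orderOf_eq_one_iff.mp h) hx₀1
      · exact h
    have hHx : ∀ a ∈ H, ∃ k : ℕ, a = x₀ ^ k := by
      have hz : zpowers x₀ = H := by
        apply Subgroup.eq_of_le_of_card_ge
        · exact (Subgroup.zpowers_le).mpr hx₀
        · rw [Nat.card_zpowers, hx₀ord, hn]
      intro a ha
      rw [← hz] at ha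
      have : a ∈ Submonoid.powers x₀ := (mem_powers_iff_mem_zpowers).mpr ha
      obtain ⟨k, hk⟩ := this
      exact ⟨k, hk.symm⟩
    rcases hp357 with rfl | rfl | rfl
    · exact ⟨x₀, hx₀, hx₀1, exists_iso_three hM hH hab hcl hIH htop hx₀ord hx₀ hHx hn hm hd hdpos hL⟩
    · exact exists_iso_five hM hH hab hcl hIH htop hx₀ord hx₀ hHx hn hm hd hdpos hL
    · exact exists_iso_seven hM hH hab hcl hIH htop hx₀ord hx₀ hHx hn hm hd hdpos hL

end Cfsg.Agent.Lib.ECP
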