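import Mathlib
import Cfsg.Agent.Lib.ECP.Local

/-!
# Extremely closed abelian `2`-subgroups: three conjugates generate, or odd commutators
-/

set_option autoImplicit false
set_option linter.unusedSectionVars false
set_option linter.style.haveILetI false

namespace Cfsg.Agent.Lib.ECP

open Cfsg Subgroup
open Cfsg.Agent.Lib.ZStar.EC (cj mem_cj conj_mem_cj card_cj cj_cj cj_one cj_eq_self_of_normalizer
  mem_normalizer_of_cj_eq)

universe u

variable {G : Type u} [Group G] [Finite G] {H : Subgroup G} {p : ℕ} [hp : Fact p.Prime]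

/-- The inductive hypothesis on proper overgroups. -/
def OverHyp (p : ℕ) (H : Subgroup G) : Prop :=
  ∀ Y : Subgroup G, H ≤ Y → Y ≠ ⊤ →
    normalizer ((H.subgroupOf Y : Subgroup _) : Set Y) ⊔ pPrimeCore p Y = ⊤

section core

variable {Y : Subgroup G}

/-- The odd core of a subgroup, as a subgroup of `G`. -/
noncomputable abbrev coreOf (p : ℕ) (Y : Subgroup G) : Subgroup G := (pPrimeCore p Y).map Y.subtype

theorem odd_coreOf : ¬ p ∣ Nat.card (coreOf p Y) := by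
  have h1 : Nat.card (coreOf p Y) = Nat.card (pPrimeCore p Y) :=
    Nat.card_congr (Subgroup.equivMapOfInjective _ _ Y.subtype_injective).symm.toEquiv
  rw [h1]
  exact core_not_dvd

theorem norm_coreOf {s k : G} (hs : s ∈ Y) (hk : k ∈ coreOf p Y) : s * k * s⁻¹ ∈ coreOf p Y := by
  obtain ⟨k, hk, rfl⟩ := hk
  exact ⟨⟨s, hs⟩ * k * ⟨s, hs⟩⁻¹, (Cfsg.pPrimeCore_normal p Y).conj_mem k hk ⟨s, hs⟩, rfl⟩

theorem mem_sup_of_conj {K : Subgroup G} (hn : ∀ t ∈ H, ∀ k ∈ K, t * k * t⁻¹ ∈ K) {v : G}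
    (hv : v ∈ K) : cj v H ≤ K ⊔ H := by
  intro y hy
  rw [mem_cj] at hy
  have e1 : y = (v * (v⁻¹ * y * v) * v⁻¹) := by group
  rw [e1]
  set s := v⁻¹ * y * v with hs
  have e2 : v * s * v⁻¹ = (v * (s * v⁻¹ * s⁻¹)) * s := by group
  rw [e2]
  refine Subgroup.mul_mem _ (Subgroup.mem_sup_left ?_) (Subgroup.mem_sup_right hy)
  exact K.mul_mem hv (hn s hy _ (K.inv_mem hv))

/-- A conjugate of `H` by an element of `Y` is conjugate under the core of `Y`. -/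
theorem cj_le_core (hHY : H ≤ Y)
    (hI : normalizer ((H.subgroupOf Y : Subgroup _) : Set Y) ⊔ pPrimeCore p Y = ⊤)
    {u : G} (hu : u ∈ Y) : cj u H ≤ coreOf p Y ⊔ H := by
  classical
  set O' : Subgroup Y := pPrimeCore p Y with hO'
  haveI hO'n : O'.Normal := Cfsg.pPrimeCore_normal p Y
  have hmem : (⟨u, hu⟩ : Y) ∈ normalizer ((H.subgroupOf Y : Subgroup _) : Set Y) ⊔ O' := by
    rw [hI]
    exact Subgroup.mem_top _
  obtain ⟨n, hn, v, hv, e⟩ := Subgroup.mem_sup_of_normal_right.mp hmem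
  set v' : Y := n * v * n⁻¹ with hv'
  have hv'O : v' ∈ O' := hO'n.conj_mem v hv n
  have euv : (⟨u, hu⟩ : Y) = v' * n := by
    rw [hv', ← e]
    group
  have hnG : (n : G) ∈ normalizer (H : Set G) := by
    apply Cfsg.Agent.Lib.HSubgroup.Basic.mem_normalizer_of_conj_le
    intro x hx
    have h1 : (⟨x, hHY hx⟩ : Y) ∈ H.subgroupOf Y := Subgroup.mem_subgroupOf.mpr hx
    have h2 := (mem_normalizer_iff.mp hn _).mp h1
    exact Subgroup.mem_subgroupOf.mp h2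
  have euv' : u = (v' : G) * n := by
    have := congrArg Subtype.val euv
    simpa using this
  have hcju : cj u H = cj (v' : G) H := by
    rw [euv', ← cj_cj, cj_eq_self_of_normalizer hnG]
  rw [hcju]
  exact mem_sup_of_conj (fun t ht k hk => norm_coreOf (hHY ht) hk) ⟨v', hv'O, rfl⟩

end core

/-- The relation: the quotient has odd order. -/
def RR (p : ℕ) (y y' : G) : Prop := ¬ p ∣ orderOf (y * y'⁻¹)

theorem RR.refl (y : G) : RR p y y := by
  unfold RR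
  simpa using hp.out.one_lt.ne'

theorem RR.symm {y y' : G} (h : RR p y y') : RR p y' y := by
  unfold RR at *
  have : y' * y⁻¹ = (y * y'⁻¹)⁻¹ := by group
  rw [this, orderOf_inv]
  exact h

theorem RR.conj {y y' : G} (h : RR p y y') (w : G) : RR p (w * y * w⁻¹) (w * y' * w⁻¹) := by
  unfold RR at *
  have : w * y * w⁻¹ * (w * y' * w⁻¹)⁻¹ = MulAut.conj w (y * y'⁻¹) := by
    simp [MulAut.conj_apply]
    group
  rw [this, MulEquiv.orderOf_eq]
  exact h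

/-- The transitivity, when the middle element lies in `H`. -/
theorem RR.trans_base (hH : IsPGroup p H) (hab : IsMulCommutative H) (hcl : IsExtremelyClosed H)
    (hI : OverHyp p H) {a b : G} (hno : H ⊔ cj a H ⊔ cj b H ≠ ⊤) {y₀ y₁ y₂ : G} (h₀ : y₀ ∈ cj a H)
    (h₁ : y₁ ∈ H) (h₂ : y₂ ∈ cj b H) (h01 : RR p y₀ y₁) (h12 : RR p y₁ y₂) : RR p y₀ y₂ := by
  classical
  set Y : Subgroup G := H ⊔ cj a H ⊔ cj b H with hY
  have hHY : H ≤ Y := le_sup_left.trans le_sup_left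
  have haY : cj a H ≤ Y := le_sup_right.trans le_sup_left
  have hbY : cj b H ≤ Y := le_sup_right
  have hIY := hI Y hHY hno
  have hle : ∀ g : G, cj g H ≤ Y → cj g H ≤ coreOf p Y ⊔ H := by
    intro g hg
    obtain ⟨K, hK⟩ := exists_isComp hH hab hcl g
    obtain ⟨c, hc, e⟩ := hK.exists_conj hH
    have hcY : c ∈ Y := by
      have : K ≤ K ⊔ H := le_sup_left
      rw [hK.sup] at this
      exact (sup_le hHY hg) (this hc)
    rw [e]
    exact cj_le_core hHY hIY hcY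
  have hn : ∀ t ∈ H, ∀ k ∈ coreOf p Y, t * k * t⁻¹ ∈ coreOf p Y :=
    fun t ht k hk => norm_coreOf (hHY ht) hk
  have m₀ : y₀ ∈ coreOf p Y ⊔ H := hle a haY h₀
  have m₁ : y₁ ∈ coreOf p Y ⊔ H := Subgroup.mem_sup_right h₁
  have m₂ : y₂ ∈ coreOf p Y ⊔ H := hle b hbY h₂
  have h1 : y₀ * y₁⁻¹ ∈ coreOf p Y :=
    mem_of_odd odd_coreOf hH hn (Subgroup.mul_mem _ m₀ (Subgroup.inv_mem _ m₁)) h01
  have h2 : y₁ * y₂⁻¹ ∈ coreOf p Y :=
    mem_of_odd odd_coreOf hH hn (Subgroup.mul_mem _ m₁ (Subgroup.inv_mem _ m₂)) h12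
  have h3 : y₀ * y₂⁻¹ = (y₀ * y₁⁻¹) * (y₁ * y₂⁻¹) := by group
  unfold RR
  rw [h3]
  exact odd_orderOf_of_mem odd_coreOf ((coreOf p Y).mul_mem h1 h2)

/-- The conjugates of `H`. -/
def Dl (H : Subgroup G) (y : G) : Prop := ∃ g : G, y ∈ cj g H

theorem Dl.conj {y : G} (h : Dl H y) (w : G) : Dl H (w * y * w⁻¹) := by
  obtain ⟨g, hg⟩ := h
  refine ⟨w * g, ?_⟩
  rw [← cj_cj]
  exact conj_mem_cj hg

/-- Transitivity on the conjugates of `H`, when no three conjugates generate. -/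
theorem RR.trans (hH : IsPGroup p H) (hab : IsMulCommutative H) (hcl : IsExtremelyClosed H)
    (hI : OverHyp p H) (hno : ∀ a b : G, H ⊔ cj a H ⊔ cj b H ≠ ⊤) {y₀ y₁ y₂ : G} (h₀ : Dl H y₀)
    (h₁ : Dl H y₁) (h₂ : Dl H y₂) (h01 : RR p y₀ y₁) (h12 : RR p y₁ y₂) : RR p y₀ y₂ := by
  obtain ⟨g₀, hg₀⟩ := h₀
  obtain ⟨g₁, hg₁⟩ := h₁
  obtain ⟨g₂, hg₂⟩ := h₂
  have m₀ : g₁⁻¹ * y₀ * g₁⁻¹⁻¹ ∈ cj (g₁⁻¹ * g₀) H := by
    rw [← cj_cj]
    exact conj_mem_cj hg₀
  have m₂ : g₁⁻¹ * y₂ * g₁⁻¹⁻¹ ∈ cj (g₁⁻¹ * g₂) H := by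
    rw [← cj_cj]
    exact conj_mem_cj hg₂
  have m₁ : g₁⁻¹ * y₁ * g₁⁻¹⁻¹ ∈ H := by
    rw [inv_inv]
    exact mem_cj.mp hg₁
  have h := RR.trans_base hH hab hcl hI (hno _ _) m₀ m₁ m₂ (h01.conj g₁⁻¹) (h12.conj g₁⁻¹)
  have h' := h.conj g₁
  have e : ∀ y : G, g₁ * (g₁⁻¹ * y * g₁⁻¹⁻¹) * g₁⁻¹ = y := fun y => by group
  rwa [e, e] at h'

/-- An element of `H` moves the elements of its conjugates by elements of odd order. -/
theorem RR.of_mem (hH : IsPGroup p H) (hab : IsMulCommutative H) (hcl : IsExtremelyClosed H)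
    {t y : G} (ht : t ∈ H) (hy : Dl H y) : RR p (t * y * t⁻¹) y := by
  classical
  obtain ⟨g, hg⟩ := hy
  obtain ⟨K, hK⟩ := exists_isComp hH hab hcl g
  have hmem : y ∈ K ⊔ H := by
    rw [hK.sup]
    exact Subgroup.mem_sup_right hg
  obtain ⟨k, hk, b, hb, rfl⟩ := exists_mul_of_mem_sup hK.norm hmem
  unfold RR
  have e : Commute t b := comm_of_ab hab ht hb
  have e1 : t⁻¹ * b = b * t⁻¹ := e.inv_left.eq
  have e3 : b * t⁻¹ * b⁻¹ = t⁻¹ := by rw [← e1]; group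
  have e2 : t * (k * b) * t⁻¹ * (k * b)⁻¹ = t * k * t⁻¹ * k⁻¹ := by
    calc t * (k * b) * t⁻¹ * (k * b)⁻¹ = t * k * (b * t⁻¹ * b⁻¹) * k⁻¹ := by group
      _ = t * k * t⁻¹ * k⁻¹ := by rw [e3]
  rw [e2]
  exact odd_orderOf_of_mem hK.odd (K.mul_mem (hK.norm t ht k hk) (K.inv_mem hk))

/-- The normal subgroup of elements moving every element of `Δ` by an element of odd order. -/
def oddMover (hH : IsPGroup p H) (hab : IsMulCommutative H) (hcl : IsExtremelyClosed H)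
    (hI : OverHyp p H) (hno : ∀ a b : G, H ⊔ cj a H ⊔ cj b H ≠ ⊤) : Subgroup G where
  carrier := {u | ∀ y, Dl H y → RR p (u * y * u⁻¹) y}
  one_mem' := by
    intro y _
    simpa using RR.refl y
  mul_mem' := by
    intro u v hu hv y hy
    have h1 := hu (v * y * v⁻¹) (hy.conj v)
    have h2 := hv y hy
    have e : u * v * y * (u * v)⁻¹ = u * (v * y * v⁻¹) * u⁻¹ := by group
    rw [e]
    exact RR.trans hH hab hcl hI hno ((hy.conj v).conj u) (hy.conj v) hy h1 h2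
  inv_mem' := by
    intro u hu y hy
    have h1 := hu (u⁻¹ * y * u⁻¹⁻¹) (hy.conj u⁻¹)
    have e : u * (u⁻¹ * y * u⁻¹⁻¹) * u⁻¹ = y := by group
    rw [e] at h1
    exact h1.symm

theorem oddMover_normal (hH : IsPGroup p H) (hab : IsMulCommutative H) (hcl : IsExtremelyClosed H)
    (hI : OverHyp p H) (hno : ∀ a b : G, H ⊔ cj a H ⊔ cj b H ≠ ⊤) :
    (oddMover hH hab hcl hI hno).Normal := by
  constructor
  intro u hu w y hy
  have h1 := hu (w⁻¹ * y * w⁻¹⁻¹) (hy.conj w⁻¹)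
  have h2 := h1.conj w
  have e1 : w * (u * (w⁻¹ * y * w⁻¹⁻¹) * u⁻¹) * w⁻¹ = w * u * w⁻¹ * y * (w * u * w⁻¹)⁻¹ := by group
  have e2 : w * (w⁻¹ * y * w⁻¹⁻¹) * w⁻¹ = y := by group
  rwa [e1, e2] at h2

/-- If no three conjugates of `H` generate and the conjugates of `H` generate, every element of
`H` is moved by an element of odd order. -/
theorem odd_of_no_triple (hH : IsPGroup p H) (hab : IsMulCommutative H)
    (hcl : IsExtremelyClosed H) (hI : OverHyp p H) (hN : normalClosure (H : Set G) = ⊤)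
    (hno : ∀ a b : G, H ⊔ cj a H ⊔ cj b H ≠ ⊤) {x : G} (hx : x ∈ H) (g : G) :
    ¬ p ∣ orderOf (g * x * g⁻¹ * x⁻¹) := by
  haveI := oddMover_normal hH hab hcl hI hno
  have hle : normalClosure (H : Set G) ≤ oddMover hH hab hcl hI hno := by
    apply normalClosure_le_normal
    intro t ht y hy
    exact RR.of_mem hH hab hcl ht hy
  rw [hN] at hle
  exact hle (Subgroup.mem_top g) x ⟨1, by rw [cj_one]; exact hx⟩

end Cfsg.Agent.Lib.ECP
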