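import Mathlib
import Cfsg.Agent.Lib.ECP.Main
import Cfsg.Agent.Lib.ECP.Canon
import Cfsg.Agent.Lib.Coprime.Action
import Cfsg.Agent.Lib.Glauberman.Act
import Cfsg.Agent.Lib.HSubgroup.Basic

/-!
# Extremely closed abelian `p`-subgroups: `⟨H^G⟩ ∩ N_G(H) = H`, `p` odd

If `H` acts coprimely on `K` and `C_K(H)` meets no `⟨H, H^k⟩`, every `H`-invariant irreducible
character of `K` is trivial on `[K, H]` (induction on `|K|`, by Glauberman's values of the canonical
extension to `K ⟨x⟩`, `x ∈ H`); an orbit count modulo `p` then gives `C_K(H) ∩ [K, H] = 1`.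
-/

set_option autoImplicit false
set_option linter.unusedSectionVars false
set_option linter.style.haveILetI false

namespace Cfsg.Agent.Lib.ECP

open Cfsg Subgroup
open Cfsg.Agent.Lib.Char.Basic Cfsg.Agent.Lib.Char.Ortho Cfsg.Agent.Lib.Char.Complete
open Cfsg.Agent.Lib.Char.Conj
open Cfsg.Agent.Lib.Coprime.Action
open Cfsg.Agent.Lib.ZStar.EC (cj mem_cj conj_mem_cj)
open scoped commutatorElement ComplexConjugate

universe u

section Orbit

/-- **Orbit sums** over a `p`-group: an invariant integral function vanishing on the fixed points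
has sum divisible by `p`. -/
theorem sum_eq_mul_of_pgroup {S X : Type*} [Group S] [Finite S] [Fintype X] (φ : S →* Equiv.Perm X)
    {p : ℕ} [hp : Fact p.Prime] (hS : IsPGroup p S) (g : X → ℂ) (hinv : ∀ s x, g (φ s x) = g x)
    (hint : ∀ x, IsIntegral ℤ (g x)) (h0 : ∀ x, (∀ s, φ s x = x) → g x = 0) :
    ∃ z, IsIntegral ℤ z ∧ ∑ x, g x = (p : ℂ) * z := by
  classical
  letI : MulAction S X := MulAction.compHom X φ
  have hsm : ∀ (s : S) (x : X), s • x = φ s x := fun _ _ => rfl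
  let Ω := MulAction.orbitRel.Quotient S X
  letI : Fintype Ω := Fintype.ofFinite _
  let q : X → Ω := fun x => Quotient.mk'' x
  have hfib : ∀ ω : Ω, ∃ z, IsIntegral ℤ z ∧
      ∑ x ∈ Finset.univ.filter (fun x => q x = ω), g x = (p : ℂ) * z := by
    intro ω
    obtain ⟨r, rfl⟩ : ∃ r, q r = ω := Quotient.exists_rep ω |>.imp fun _ h => h
    have hmem : ∀ x, q x = q r ↔ x ∈ MulAction.orbit S r := by
      intro x
      rw [show q x = q r ↔ (MulAction.orbitRel S X) x r from Quotient.eq'']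
      exact MulAction.orbitRel_apply
    have hconst : ∀ x ∈ Finset.univ.filter (fun x => q x = q r), g x = g r := by
      intro x hx
      obtain ⟨s, rfl⟩ := (hmem x).mp (Finset.mem_filter.mp hx).2
      exact hinv s r
    obtain ⟨n, hn⟩ := IsPGroup.card_orbit hS r
    have hcard : (Finset.univ.filter (fun x => q x = q r)).card = p ^ n := by
      rw [← hn, Nat.card_eq_fintype_card, Fintype.card_subtype]
      congr 1
      ext x
      simp only [Finset.mem_filter, Finset.mem_univ, true_and]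
      exact hmem x
    rw [Finset.sum_congr rfl hconst, Finset.sum_const, hcard, nsmul_eq_mul]
    rcases n with _ | n
    · refine ⟨0, isIntegral_zero, ?_⟩
      have hfix : ∀ s, φ s r = r := by
        intro s
        have h1 : Nat.card (MulAction.orbit S r) = 1 := by simpa using hn
        have h2 := (Nat.card_eq_one_iff_unique.mp h1).1
        have h3 : (⟨s • r, MulAction.mem_orbit r s⟩ : MulAction.orbit S r) =
            ⟨r, MulAction.mem_orbit_self r⟩ := h2.elim _ _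
        exact congrArg Subtype.val h3
      rw [h0 r hfix]
      simp
    · refine ⟨(p ^ n : ℕ) * g r, (isIntegral_natCast _).mul (hint r), ?_⟩
      push_cast
      ring
  choose z hz hzs using hfib
  refine ⟨∑ ω, z ω, IsIntegral.sum _ fun ω _ => hz ω, ?_⟩
  rw [Finset.mul_sum, ← Finset.sum_fiberwise (s := Finset.univ) (g := q) (f := g)]
  exact Finset.sum_congr rfl fun ω _ => hzs ω

end Orbit

variable {Γ : Type u} [Group Γ] [Finite Γ] {H : Subgroup Γ} {p : ℕ} [hp : Fact p.Prime]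

/-- The hypothesis on `K`: the fixed points of `H` on `K` meet no `⟨H, H^k⟩`. -/
def EE (H K : Subgroup Γ) : Prop :=
  ∀ k ∈ K, ∀ c ∈ K, (∀ h ∈ H, c * h = h * c) → c ∈ H ⊔ cj k H → c = 1

theorem EE.mono {K K' : Subgroup Γ} (hKK : K' ≤ K) (h : EE H K) : EE H K' :=
  fun k hk c hc hcomm hD => h k (hKK hk) c (hKK hc) hcomm hD

theorem normalizer_of_conj {K : Subgroup Γ} (hHK : ∀ h ∈ H, ∀ k ∈ K, h * k * h⁻¹ ∈ K) :
    H ≤ normalizer (K : Set Γ) := by
  intro h hh
  apply Cfsg.Agent.Lib.HSubgroup.Basic.mem_normalizer_of_conj_le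
  exact hHK h hh

/-- The element `x x^k` is `K`-conjugate to `c x²` with `c ∈ [C_K(x), H]`. -/
theorem exists_conj_square (hp2 : p ≠ 2) (hH : IsPGroup p H)
    {K : Subgroup Γ} (hHK : ∀ h ∈ H, ∀ k ∈ K, h * k * h⁻¹ ∈ K) (hK : ¬ p ∣ Nat.card K)
    (hE : EE H K) (hab : ∀ a ∈ H, ∀ b ∈ H, a * b = b * a)
    {x : Γ} (hx : x ∈ H) {k : Γ} (hk : k ∈ K) :
    ∃ t ∈ K, ∃ c ∈ ⁅KK K x, H⁆, t⁻¹ * (x * (k * x * k⁻¹)) * t = c * x ^ 2 := by
  classical
  set D := H ⊔ cj k H with hD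
  set L := K ⊓ D with hL
  have hxD : x ∈ D := Subgroup.mem_sup_left hx
  have hkxD : k * x * k⁻¹ ∈ D := Subgroup.mem_sup_right (conj_mem_cj hx)
  set l := x * (k * x * k⁻¹) * (x ^ 2)⁻¹ with hl
  have hlK : l ∈ K := by
    have e : l = x * (k * (x * k⁻¹ * x⁻¹)) * x⁻¹ := by
      rw [hl, pow_two]
      group
    rw [e]
    exact hHK x hx _ (K.mul_mem hk (hHK x hx _ (K.inv_mem hk)))
  have hlD : l ∈ D := D.mul_mem (D.mul_mem hxD hkxD) (D.inv_mem (D.pow_mem hxD 2))
  have hlL : l ∈ L := Subgroup.mem_inf.mpr ⟨hlK, hlD⟩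
  have hnormL : ∀ h ∈ H, ∀ g ∈ L, h * g * h⁻¹ ∈ L := by
    intro h hh g hg
    obtain ⟨h1, h2⟩ := Subgroup.mem_inf.mp hg
    have hhD : h ∈ D := Subgroup.mem_sup_left hh
    exact Subgroup.mem_inf.mpr ⟨hHK h hh g h1, D.mul_mem (D.mul_mem hhD h2) (D.inv_mem hhD)⟩
  have hLcard : ¬ p ∣ Nat.card L := fun h =>
    hK (h.trans (Subgroup.card_dvd_of_le inf_le_left))
  obtain ⟨e, he⟩ := orderOf_two_pow hH hx
  have hcopN : (orderOf x).Coprime (Nat.card L) := by
    rw [he]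
    exact Nat.Coprime.pow_left _ ((Nat.Prime.coprime_iff_not_dvd hp.out).mpr hLcard)
  have hx2norm : ∀ g ∈ L, x ^ 2 * g * (x ^ 2)⁻¹ ∈ L := fun g hg =>
    hnormL _ (H.pow_mem hx 2) g hg
  obtain ⟨t, ht, c, hc, hcy, e'⟩ := exists_conj_coset L hx2norm (N := orderOf x)
    (orderOf_pos x).ne' (by rw [← pow_mul, mul_comm, pow_mul, pow_orderOf_eq_one, one_pow])
    hcopN hlL
  have hlx : l * x ^ 2 = x * (k * x * k⁻¹) := by
    rw [hl]
    group
  rw [hlx] at e'
  have hodd : Odd (orderOf x) := by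
    rw [he]
    exact (hp.out.odd_of_ne_two hp2).pow
  obtain ⟨m, hm⟩ := hodd
  have hxpow : (x ^ 2) ^ (m + 1) = x := by
    rw [← pow_mul]
    have h1 : 2 * (m + 1) = orderOf x + 1 := by omega
    rw [h1, pow_succ, pow_orderOf_eq_one, one_mul]
  have hcx : c * x = x * c := by
    have h1 : Commute c (x ^ 2) := hcy
    have h2 := h1.pow_right (m + 1)
    rw [hxpow] at h2
    exact h2
  set Y := L ⊓ centralizer ({x} : Set Γ) with hY
  have hcY : c ∈ Y := Subgroup.mem_inf.mpr ⟨hc, Subgroup.mem_centralizer_singleton_iff.mpr hcx⟩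
  have hYnorm : H ≤ normalizer (Y : Set Γ) := by
    apply normalizer_of_conj
    intro h hh g hg
    obtain ⟨h1, h2⟩ := Subgroup.mem_inf.mp hg
    refine Subgroup.mem_inf.mpr ⟨hnormL h hh g h1, Subgroup.mem_centralizer_singleton_iff.mpr ?_⟩
    have h3 := Subgroup.mem_centralizer_singleton_iff.mp h2
    have e2 : h * x = x * h := hab h hh x hx
    have e3 : h * x * h⁻¹ = x := by
      rw [e2]
      group
    calc h * g * h⁻¹ * x = h * g * h⁻¹ * (h * x * h⁻¹) := by rw [e3]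
      _ = h * (g * x) * h⁻¹ := by group
      _ = h * (x * g) * h⁻¹ := by rw [h3]
      _ = (h * x * h⁻¹) * (h * g * h⁻¹) := by group
      _ = x * (h * g * h⁻¹) := by rw [e3]
  have hYcard : ¬ p ∣ Nat.card Y := fun h =>
    hLcard (h.trans (Subgroup.card_dvd_of_le inf_le_left))
  have hYcop : (Nat.card H).Coprime (Nat.card Y) := by
    obtain ⟨n, hn⟩ := hH.exists_card_eq
    rw [hn]
    exact Nat.Coprime.pow_left _ ((Nat.Prime.coprime_iff_not_dvd hp.out).mpr hYcard)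
  have hsolv : Group.IsSolvable H ∨ Group.IsSolvable Y := by
    left
    exact Group.isSolvable_of_comm (by
      rintro ⟨a, ha⟩ ⟨b, hb⟩
      exact Subtype.ext (hab a ha b hb))
  have hsup := commutator_sup_fixed hYnorm hYcop hsolv
  have hfix : Y ⊓ centralizer (H : Set Γ) = ⊥ := by
    rw [eq_bot_iff]
    intro z hz
    obtain ⟨hz1, hz2⟩ := Subgroup.mem_inf.mp hz
    obtain ⟨hz3, -⟩ := Subgroup.mem_inf.mp hz1
    obtain ⟨hz5, hz6⟩ := Subgroup.mem_inf.mp hz3
    rw [Subgroup.mem_bot]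
    exact hE k hk z hz5 (fun h hh => (Subgroup.mem_centralizer_iff.mp hz2 h hh).symm) hz6
  rw [hfix, sup_bot_eq] at hsup
  have hYKK : Y ≤ KK K x := by
    intro z hz
    obtain ⟨hz1, hz2⟩ := Subgroup.mem_inf.mp hz
    exact Subgroup.mem_inf.mpr ⟨(Subgroup.mem_inf.mp hz1).1, hz2⟩
  have hcm : c ∈ ⁅KK K x, H⁆ := by
    have h1 : c ∈ ⁅Y, H⁆ := by
      rw [hsup]
      exact hcY
    exact Subgroup.commutator_mono hYKK le_rfl h1
  exact ⟨t, (Subgroup.mem_inf.mp ht).1, c, hcm, e'⟩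

/-- The induction step: `[K, x]` lies in the kernel of an invariant character. -/
theorem ker_step (hp2 : p ≠ 2) (hH : IsPGroup p H) (hab : ∀ a ∈ H, ∀ b ∈ H, a * b = b * a)
    {K : Subgroup Γ} (hHK : ∀ h ∈ H, ∀ k ∈ K, h * k * h⁻¹ ∈ K) (hK : ¬ p ∣ Nat.card K)
    (hE : EE H K)
    (IH : ∀ K' : Subgroup Γ, Nat.card K' < Nat.card K → (∀ h ∈ H, ∀ k ∈ K', h * k * h⁻¹ ∈ K') →
      ¬ p ∣ Nat.card K' → EE H K' → ∀ θ : IrrCharacter K',
      (∀ h ∈ H, ∀ k k' : K', (k' : Γ) = h * k * h⁻¹ → (θ : K' → ℂ) k' = (θ : K' → ℂ) k) →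
      ∀ c : K', (c : Γ) ∈ ⁅K', H⁆ → (θ : K' → ℂ) c = (θ : K' → ℂ) 1)
    (θ : IrrCharacter K)
    (hinv : ∀ h ∈ H, ∀ k k' : K, (k' : Γ) = h * k * h⁻¹ → (θ : K → ℂ) k' = (θ : K → ℂ) k)
    {x : Γ} (hx : x ∈ H) (k : K) (hmem : (k : Γ) * x * (k : Γ)⁻¹ * x⁻¹ ∈ K) :
    (θ : K → ℂ) ⟨(k : Γ) * x * (k : Γ)⁻¹ * x⁻¹, hmem⟩ = (θ : K → ℂ) 1 := by
  classical
  by_cases hcomm : ∀ k ∈ K, k * x = x * k
  · have h1 : (⟨(k : Γ) * x * (k : Γ)⁻¹ * x⁻¹, hmem⟩ : K) = 1 := by
      apply Subtype.ext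
      show (k : Γ) * x * (k : Γ)⁻¹ * x⁻¹ = 1
      rw [hcomm k k.2]
      group
    rw [h1]
  -- the smaller subgroup
  have hKKle : KK K x ≤ K := inf_le_left
  have hlt : Nat.card (KK K x) < Nat.card K := by
    refine lt_of_le_of_ne (Nat.le_of_dvd Nat.card_pos (Subgroup.card_dvd_of_le hKKle)) fun h => hcomm ?_
    have h1 : KK K x = K := Subgroup.eq_of_le_of_card_ge hKKle h.ge
    intro k hk
    rw [← h1] at hk
    exact comm_of_mem_KK hk
  have hHKK : ∀ h ∈ H, ∀ c ∈ KK K x, h * c * h⁻¹ ∈ KK K x := by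
    intro h hh c hc
    obtain ⟨hc1, hc2⟩ := mem_KK.mp hc
    refine mem_KK.mpr ⟨hHK h hh c hc1, ?_⟩
    have e2 : h * x = x * h := hab h hh x hx
    have e3 : h * x * h⁻¹ = x := by
      rw [e2]
      group
    calc h * c * h⁻¹ * x = h * c * h⁻¹ * (h * x * h⁻¹) := by rw [e3]
      _ = h * (c * x) * h⁻¹ := by group
      _ = h * (x * c) * h⁻¹ := by rw [hc2]
      _ = (h * x * h⁻¹) * (h * c * h⁻¹) := by group
      _ = x * (h * c * h⁻¹) := by rw [e3]
  have hKKcard : ¬ p ∣ Nat.card (KK K x) := fun h => hK (h.trans (Subgroup.card_dvd_of_le hKKle))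
  obtain ⟨e, he⟩ := orderOf_two_pow hH hx
  have hcop : (Nat.card K).Coprime (orderOf x) := by
    rw [he]
    exact (Nat.Coprime.pow_left _ ((Nat.Prime.coprime_iff_not_dvd hp.out).mpr hK)).symm
  obtain ⟨χ, β, ε, hε, hext, hval, hβinv⟩ := canon_data hHK hab hx hcop θ hinv
  have hIH := IH (KK K x) hlt hHKK hKKcard (hE.mono hKKle) β hβinv
  -- the ambient group
  letI : Fintype (TT K x) := Fintype.ofFinite _
  let xh : (TT K x) := ⟨x, x_mem_TT⟩
  let L : Subgroup (TT K x) := K.subgroupOf (TT K x)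
  letI : Fintype L := Fintype.ofFinite _
  let eK : K ≃* L := (Subgroup.subgroupOfEquivOfLe (le_TT : K ≤ TT K x)).symm
  have hres : IsIrrCharacter L (fun l : L => (χ : (TT K x) → ℂ) l) := by
    have h1 : (fun l : L => (χ : (TT K x) → ℂ) l) = (θ : K → ℂ) ∘ eK.symm := by
      funext l
      have h2 := hext (eK.symm l)
      rw [Function.comp, ← h2]
      rfl
    rw [h1]
    exact isIrrCharacter_comp_mulEquiv eK.symm θ.2
  have havg := sum_conj_of_res_irr L χ hres xh xh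
  have hβ1 : (β : KK K x → ℂ) 1 ≠ 0 := irr_one_ne_zero β.2
  have hεne : (ε : ℂ) ≠ 0 := by
    rcases hε with h | h <;> rw [h] <;> simp
  set w : ℂ := (ε : ℂ) * (β : KK K x → ℂ) 1 with hw
  have hwne : w ≠ 0 := mul_ne_zero hεne hβ1
  have hx1 : (χ : (TT K x) → ℂ) xh = w := by
    have h1 := hval 1 1 (Nat.coprime_one_left _)
    rw [hw, ← h1]
    exact congrArg _ (Subtype.ext (by simp [xh]))
  have hco2 : Nat.Coprime 2 (orderOf x) := by
    rw [he]
    exact Nat.Coprime.pow_right _ ((Nat.coprime_primes Nat.prime_two hp.out).mpr (Ne.symm hp2))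
  have hterm : ∀ l : L, (χ : (TT K x) → ℂ) (xh * ((l : (TT K x)) * xh * (l : (TT K x))⁻¹)) = w := by
    intro l
    have hlK : (((l : (TT K x)) : Γ)) ∈ K := Subgroup.mem_subgroupOf.mp l.2
    obtain ⟨t, ht, c, hc, e1⟩ := exists_conj_square hp2 hH hHK hK hE hab hx hlK
    have hcKK : c ∈ KK K x :=
      (commutator_le_of_le_normalizer (normalizer_of_conj hHKK)) hc
    let th : (TT K x) := ⟨t, le_TT ht⟩
    have h1 := isClassFunction_of_isIrrCharacter χ.2 (xh * ((l : (TT K x)) * xh * (l : (TT K x))⁻¹)) th⁻¹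
    rw [← h1]
    have h2 : th⁻¹ * (xh * ((l : (TT K x)) * xh * (l : (TT K x))⁻¹)) * th⁻¹⁻¹ =
        ⟨c * x ^ 2, mul_pow_mem_TT (Subgroup.mem_inf.mp hcKK).1 2⟩ := by
      apply Subtype.ext
      rw [inv_inv]
      exact e1
    rw [h2]
    have h3 := hval ⟨c, hcKK⟩ 2 hco2
    rw [hw, ← hIH ⟨c, hcKK⟩ hc, ← h3]
  rw [Finset.sum_congr rfl (fun l _ => hterm l), Finset.sum_const, Finset.card_univ, nsmul_eq_mul,
    ← Nat.card_eq_fintype_card, hx1] at havg
  have hLne : (Nat.card L : ℂ) ≠ 0 := Nat.cast_ne_zero.mpr Nat.card_pos.ne'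
  have hone : (χ : (TT K x) → ℂ) 1 = w := by
    have h1 : (Nat.card L : ℂ) * w * ((χ : (TT K x) → ℂ) 1 - w) = 0 := by
      linear_combination havg
    exact sub_eq_zero.mp ((mul_eq_zero.mp h1).resolve_left (mul_ne_zero hLne hwne))
  have hχc : IsCharacter (TT K x) (χ : (TT K x) → ℂ) := isCharacter_of_isIrrCharacter χ.2
  obtain ⟨d, hd⟩ := exists_deg_of_isCharacter hχc
  have hn : ‖(χ : (TT K x) → ℂ) xh‖ = d := by
    rw [hx1, ← hone, hd, Complex.norm_natCast]
  have hker := commutator_mem_ker hχc hd hn (⟨k, le_TT k.2⟩ : (TT K x))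
  have h5 := hext ⟨(k : Γ) * x * (k : Γ)⁻¹ * x⁻¹, hmem⟩
  have h6 := hext 1
  rw [← h5, ← h6]
  exact (congrArg _ (Subtype.ext rfl)).trans (hker.trans (congrArg _ (Subtype.ext rfl)))

/-- **Invariant characters are trivial on `[K, H]`.** -/
theorem ker_main (hp2 : p ≠ 2) (hH : IsPGroup p H) (hab : ∀ a ∈ H, ∀ b ∈ H, a * b = b * a) :
    ∀ (n : ℕ) (K : Subgroup Γ), Nat.card K = n → (∀ h ∈ H, ∀ k ∈ K, h * k * h⁻¹ ∈ K) →
      ¬ p ∣ Nat.card K → EE H K → ∀ θ : IrrCharacter K,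
      (∀ h ∈ H, ∀ k k' : K, (k' : Γ) = h * k * h⁻¹ → (θ : K → ℂ) k' = (θ : K → ℂ) k) →
      ∀ c : K, (c : Γ) ∈ ⁅K, H⁆ → (θ : K → ℂ) c = (θ : K → ℂ) 1 := by
  intro n
  induction n using Nat.strong_induction_on with
  | _ n ih =>
  intro K hn hHK hK hE θ hinv c hc
  have IH : ∀ K' : Subgroup Γ, Nat.card K' < Nat.card K → (∀ h ∈ H, ∀ k ∈ K', h * k * h⁻¹ ∈ K') →
      ¬ p ∣ Nat.card K' → EE H K' → ∀ θ : IrrCharacter K',
      (∀ h ∈ H, ∀ k k' : K', (k' : Γ) = h * k * h⁻¹ → (θ : K' → ℂ) k' = (θ : K' → ℂ) k) →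
      ∀ c : K', (c : Γ) ∈ ⁅K', H⁆ → (θ : K' → ℂ) c = (θ : K' → ℂ) 1 :=
    fun K' hlt => ih _ (hn ▸ hlt) K' rfl
  have hχ := isCharacter_of_isIrrCharacter θ.2
  have hle : ⁅K, H⁆ ≤ (Cfsg.Agent.Lib.Char.Degree.charKer hχ).map K.subtype := by
    rw [Subgroup.commutator_le]
    intro k hk x hx
    have hmem : k * x * k⁻¹ * x⁻¹ ∈ K := by
      have e : k * x * k⁻¹ * x⁻¹ = k * (x * k⁻¹ * x⁻¹) := by group
      rw [e]
      exact K.mul_mem hk (hHK x hx _ (K.inv_mem hk))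
    refine ⟨⟨k * x * k⁻¹ * x⁻¹, hmem⟩, ?_, rfl⟩
    exact ker_step hp2 hH hab hHK hK hE IH θ hinv hx ⟨k, hk⟩ hmem
  obtain ⟨c', hc', e⟩ := hle hc
  have h1 : c' = c := Subtype.ext e
  rw [← h1]
  exact hc'

/-- **`C_K(H) ∩ [K, H] = 1`.** -/
theorem eq_one_of_mem_comm (hp2 : p ≠ 2) (hH : IsPGroup p H)
    (hab : ∀ a ∈ H, ∀ b ∈ H, a * b = b * a) {K : Subgroup Γ}
    (hHK : ∀ h ∈ H, ∀ k ∈ K, h * k * h⁻¹ ∈ K) (hK : ¬ p ∣ Nat.card K) (hE : EE H K) {c : Γ}
    (hcK : c ∈ ⁅K, H⁆) (hcH : ∀ h ∈ H, c * h = h * c) : c = 1 := by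
  classical
  by_contra hc1
  letI : Fintype K := Fintype.ofFinite _
  haveI : Finite (IrrCharacter K) := finite_irrCharacter
  letI : Fintype (IrrCharacter K) := Fintype.ofFinite _
  have hcmem : c ∈ K := commutator_le_of_le_normalizer (normalizer_of_conj hHK) hcK
  let ch : K := ⟨c, hcmem⟩
  let φ : H →* Equiv.Perm (IrrCharacter K) := Cfsg.Agent.Lib.Glauberman.Act.actIrr hHK
  let g : IrrCharacter K → ℂ := fun θ =>
    ((θ : K → ℂ) 1 - (θ : K → ℂ) ch) * conj ((θ : K → ℂ) 1)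
  have hcfix : ∀ s : H, Cfsg.Agent.Lib.Glauberman.ConjAct.conjHom K H hHK s ch = ch := by
    intro s
    apply Subtype.ext
    show (s : Γ) * c * (s : Γ)⁻¹ = c
    rw [← hcH s s.2]
    group
  have h1 : ∀ s θ, g (φ s θ) = g θ := by
    intro s θ
    have e1 : ((φ s θ : IrrCharacter K) : K → ℂ) 1 = (θ : K → ℂ) 1 := by
      show (θ : K → ℂ) (Cfsg.Agent.Lib.Glauberman.ConjAct.conjHom K H hHK s⁻¹ 1) = _
      rw [map_one]
    have e2 : ((φ s θ : IrrCharacter K) : K → ℂ) ch = (θ : K → ℂ) ch := by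
      show (θ : K → ℂ) (Cfsg.Agent.Lib.Glauberman.ConjAct.conjHom K H hHK s⁻¹ ch) = _
      rw [hcfix]
    show (((φ s θ : IrrCharacter K) : K → ℂ) 1 - ((φ s θ : IrrCharacter K) : K → ℂ) ch) *
      conj (((φ s θ : IrrCharacter K) : K → ℂ) 1) = _
    rw [e1, e2]
  have hint : ∀ θ, IsIntegral ℤ (g θ) := fun θ =>
    ((isIntegral_value θ 1).sub (isIntegral_value θ ch)).mul (isIntegral_conj_value θ 1)
  have h0 : ∀ θ, (∀ s, φ s θ = θ) → g θ = 0 := by
    intro θ hθ
    have hinv := (Cfsg.Agent.Lib.Glauberman.Act.inv_iff_fixed hHK θ).mpr hθ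
    have h2 := ker_main hp2 hH hab _ K rfl hHK hK hE θ hinv ch hcK
    show ((θ : K → ℂ) 1 - (θ : K → ℂ) ch) * conj ((θ : K → ℂ) 1) = 0
    rw [h2]
    simp
  obtain ⟨z, hz, hsum⟩ := sum_eq_mul_of_pgroup φ hH g h1 hint h0
  have hs : ∑ θ, g θ = (Nat.card K : ℂ) := by
    have e1 := sum_irr_mul_conj (G := K) 1 1
    have e2 := sum_irr_mul_conj (G := K) ch 1
    have hnc : ¬ IsConj ch (1 : K) := by
      intro h
      have h3 : ch = 1 := isConj_one_right.mp h.symm
      exact hc1 (congrArg (fun y : K => (y : Γ)) h3)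
    rw [if_neg hnc] at e2
    rw [if_pos (IsConj.refl _)] at e1
    have hcent : centralizer ({(1 : K)} : Set K) = ⊤ := by
      rw [eq_top_iff]
      intro y _
      rw [Subgroup.mem_centralizer_singleton_iff]
      simp
    rw [hcent, Nat.card_congr (Subgroup.topEquiv).toEquiv] at e1
    show ∑ θ : IrrCharacter K, ((θ : K → ℂ) 1 - (θ : K → ℂ) ch) * conj ((θ : K → ℂ) 1) = _
    simp only [sub_mul]
    rw [Finset.sum_sub_distrib, e1, e2, sub_zero]
  rw [hs] at hsum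
  have hp0 : (p : ℂ) ≠ 0 := Nat.cast_ne_zero.mpr hp.out.ne_zero
  have hdiv : ((Nat.card K : ℂ) / (p : ℂ)) = z := by
    rw [hsum]
    field_simp
  have hdvd := Cfsg.Agent.Lib.Char.Central.nat_dvd_of_isIntegral_div hp.out.ne_zero
    (by rw [hdiv]; exact hz)
  exact hK hdvd

/-- **`⟨H^G⟩ ∩ N_G(H) = H`** for an extremely closed abelian `p`-subgroup, `p` odd. -/
theorem closure_inf_normalizer {G : Type u} [Group G] [Finite G] (hp2 : p ≠ 2) (H : Subgroup G)
    (hH : IsPGroup p H) (hab : IsMulCommutative H) (hcl : IsExtremelyClosed H) :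
    normalClosure (H : Set G) ⊓ normalizer (H : Set G) = H := by
  classical
  have hfac := main_factorization hp2 H hH hab hcl
  apply le_antisymm
  swap
  · exact le_inf Subgroup.le_normalClosure Subgroup.le_normalizer
  set O := pPrimeCore p G with hO
  haveI hOn : O.Normal := Cfsg.pPrimeCore_normal p G
  set K₀ : Subgroup G := ⁅O, H⁆ with hK₀
  have hHO : H ≤ normalizer (O : Set G) := by
    rw [Subgroup.normalizer_eq_top_iff.mpr hOn]
    exact le_top
  have hK₀O : K₀ ≤ O := commutator_le_of_le_normalizer hHO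
  have hab' : ∀ a ∈ H, ∀ b ∈ H, a * b = b * a := fun a ha b hb => comm_of_ab hab ha hb
  have hOcard : ¬ p ∣ Nat.card O := fun h =>
    (Nat.Prime.coprime_iff_not_dvd hp.out).mp
      (Cfsg.Agent.Lib.Core.Basic.pPrimeCore_coprime (p := p) (G := G)).symm h
  have hEO : EE H O := by
    intro k _ c hc hcomm hD
    have hcN : c ∈ normalizer (H : Set G) := by
      apply Cfsg.Agent.Lib.HSubgroup.Basic.mem_normalizer_of_conj_le
      intro h hh
      rw [hcomm h hh]
      simpa using hh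
    have h1 : c ∈ (H ⊔ H.map (MulAut.conj k).toMonoidHom) ⊓ normalizer (H : Set G) :=
      Subgroup.mem_inf.mpr ⟨hD, hcN⟩
    rw [hcl k] at h1
    exact eq_one_of_mem_inf hOcard hH h1 hc
  -- `H [O, H]` is normal
  set A : Subgroup G := H ⊔ K₀ with hA
  have hAnorm : normalizer (H : Set G) ⊔ O ≤ normalizer (A : Set G) := by
    refine sup_le ?_ ?_
    · have h1 : normalizer (H : Set G) ≤ normalizer (K₀ : Set G) :=
        le_normalizer_commutator_of_le (by
          rw [Subgroup.normalizer_eq_top_iff.mpr hOn]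
          exact le_top) le_rfl
      intro n hn
      apply Cfsg.Agent.Lib.HSubgroup.Basic.mem_normalizer_of_conj_le
      have hle : A ≤ A.comap (MulAut.conj n).toMonoidHom := by
        refine sup_le ?_ ?_
        · intro h hh
          exact Subgroup.mem_sup_left ((mem_normalizer_iff.mp hn h).mp hh)
        · intro c hc
          exact Subgroup.mem_sup_right ((mem_normalizer_iff.mp (h1 hn) c).mp hc)
      exact fun a ha => hle ha
    · intro o ho
      apply Cfsg.Agent.Lib.HSubgroup.Basic.mem_normalizer_of_conj_le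
      have hle : A ≤ A.comap (MulAut.conj o).toMonoidHom := by
        refine sup_le ?_ ?_
        · intro h hh
          show o * h * o⁻¹ ∈ A
          have e : o * h * o⁻¹ = ⁅o, h⁆ * h := by
            rw [commutatorElement_def]
            group
          rw [e]
          exact A.mul_mem (Subgroup.mem_sup_right (Subgroup.commutator_mem_commutator ho hh))
            (Subgroup.mem_sup_left hh)
        · intro c hc
          exact Subgroup.mem_sup_right
            ((mem_normalizer_iff.mp (le_normalizer_commutator_left O H ho) c).mp hc)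
      exact fun a ha => hle ha
  have hAn : A.Normal := by
    rw [← Subgroup.normalizer_eq_top_iff]
    rw [hfac] at hAnorm
    exact top_le_iff.mp hAnorm
  have hclo : normalClosure (H : Set G) ≤ A := by
    haveI := hAn
    exact Subgroup.normalClosure_le_normal (fun a ha => (le_sup_left : H ≤ A) ha)
  intro x hx
  obtain ⟨hx1, hx2⟩ := Subgroup.mem_inf.mp hx
  have hxA : x ∈ K₀ ⊔ H := by
    rw [sup_comm]
    exact hclo hx1
  obtain ⟨c, hc, h, hh, rfl⟩ := exists_mul_of_mem_sup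
    (fun t ht k hk => (mem_normalizer_iff.mp (le_normalizer_commutator_right O H ht) k).mp hk) hxA
  have hcN : c ∈ normalizer (H : Set G) := by
    have h1 := (normalizer (H : Set G)).mul_mem hx2
      (Subgroup.inv_mem _ (Subgroup.le_normalizer hh))
    simpa using h1
  have hcO : c ∈ O := hK₀O hc
  have hcH : ∀ t ∈ H, c * t = t * c := by
    intro t ht
    have h1 : c * t * c⁻¹ * t⁻¹ ∈ H :=
      H.mul_mem ((mem_normalizer_iff.mp hcN t).mp ht) (H.inv_mem ht)
    have h2 : c * t * c⁻¹ * t⁻¹ ∈ O := by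
      have e : c * t * c⁻¹ * t⁻¹ = c * (t * c⁻¹ * t⁻¹) := by group
      rw [e]
      exact O.mul_mem hcO (hOn.conj_mem _ (O.inv_mem hcO) t)
    have h3 := eq_one_of_mem_inf hOcard hH h1 h2
    have h4 := mul_inv_eq_one.mp h3
    exact mul_inv_eq_iff_eq_mul.mp h4
  have hc1 : c = 1 := eq_one_of_mem_comm hp2 hH hab' (K := O)
    (fun h _ k hk => hOn.conj_mem k hk h) hOcard hEO hc hcH
  rw [hc1, one_mul]
  exact hh

end Cfsg.Agent.Lib.ECP
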